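import Cfsg.Agent.PGV.Quad
import Cfsg.Agent.Offender.Replacement

/-!
Setting for the P(G,V)-theorem: a commutative group `A` of exponent `p` and a perfect group `K`,
both acting on a finite module `V`, such that each conjugate of the image of `K` under `A` either
equals it or commutes with it.
-/

set_option linter.unusedSectionVars false

namespace CfsgLib.PGV

open scoped commutatorElement

variable {V : Type*} [AddCommGroup V] [Finite V]
variable {A : Type*} [CommGroup A] [Finite A]
variable {K : Type*} [Group K] [Finite K]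

/-- Fixed points. -/
def fixSub (α : A →* AddMonoid.End V) (B : Subgroup A) : AddSubgroup V where
  carrier := {v | ∀ b ∈ B, α b v = v}
  zero_mem' := fun b _ => map_zero _
  add_mem' := fun {u v} hu hv b hb => by rw [map_add, hu b hb, hv b hb]
  neg_mem' := fun {u} hu b hb => by rw [map_neg, hu b hb]

/-- `|B| |C_V(B)|`. -/
noncomputable def meas (α : A →* AddMonoid.End V) (B : Subgroup A) : ℕ :=
  Nat.card B * Nat.card (fixSub α B)

theorem fixSub_anti (α : A →* AddMonoid.End V) {B B' : Subgroup A} (h : B ≤ B') :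
    fixSub α B' ≤ fixSub α B := fun _ hv b hb => hv b (h hb)

/-- `|H| |L| ≤ |H ∩ L| |H + L|`. -/
theorem addCard_mul_le (H L : AddSubgroup V) :
    Nat.card H * Nat.card L ≤ Nat.card ↥(H ⊓ L) * Nat.card ↥(H ⊔ L) := by
  have key : ∀ {M N : AddSubgroup V}, M ≤ N → Nat.card M * M.relIndex N = Nat.card N := by
    intro M N h
    have := AddSubgroup.relIndex_mul_relIndex ⊥ M N bot_le h
    rwa [AddSubgroup.relIndex_bot_left, AddSubgroup.relIndex_bot_left] at this
  rw [← key (inf_le_right : H ⊓ L ≤ L), ← key (le_sup_left : H ≤ H ⊔ L),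
    AddSubgroup.inf_relIndex_right, mul_left_comm]
  refine Nat.mul_le_mul_left _ (Nat.mul_le_mul_left _ ?_)
  exact AddSubgroup.relIndex_le_of_le_right le_sup_right AddSubgroup.index_ne_zero_of_finite

theorem apply_comm (α : A →* AddMonoid.End V) (a b : A) (v : V) : α a (α b v) = α b (α a v) := by
  have h : α a * α b = α b * α a := by rw [← map_mul, ← map_mul, mul_comm]
  exact DFunLike.congr_fun h v

section Replacement

variable {p : ℕ} [Fact p.Prime] {α : A →* AddMonoid.End V}

theorem sub_one_pow_p (hchar : (p : AddMonoid.End V) = 0) {f : AddMonoid.End V} :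
    (f - 1) ^ p = f ^ p - 1 := by
  rcases subsingleton_or_nontrivial (AddMonoid.End V) with h | h
  · exact Subsingleton.elim _ _
  · haveI : CharP (AddMonoid.End V) p :=
      (CharP.charP_iff_prime_eq_zero Fact.out).mpr hchar
    rw [sub_pow_char_of_commute p (Commute.one_right f), one_pow]

theorem sub_one_pow_eq_zero (hchar : (p : AddMonoid.End V) = 0) (hexp : ∀ a : A, a ^ p = 1) (a : A) :
    (α a - 1) ^ p = 0 := by
  rw [sub_one_pow_p hchar, ← map_pow, hexp, map_one, sub_self]

/-- Commuting nilpotent operators do not reproduce a nonzero invariant subgroup. -/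
theorem eq_bot_of_le_moved (hchar : (p : AddMonoid.End V) = 0) (hexp : ∀ a : A, a ^ p = 1)
    (S : Finset A) (Y : AddSubgroup V) (hinv : ∀ a : A, ∀ y ∈ Y, α a y ∈ Y)
    (hY : Y ≤ AddSubgroup.closure {v | ∃ a ∈ S, ∃ y ∈ Y, v = α a y - y}) : Y = ⊥ := by
  classical
  induction S using Finset.induction generalizing Y with
  | empty =>
    rw [eq_bot_iff]
    refine hY.trans ((AddSubgroup.closure_le _).mpr ?_)
    rintro v ⟨a, ha, -⟩
    simp at ha
  | insert b T hbT ih =>
    let e : AddMonoid.End V := α b - 1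
    suffices h : ∀ k ≤ p, Y.map (e ^ (p - k)) = ⊥ by
      have := h p le_rfl
      rw [Nat.sub_self, pow_zero] at this
      rw [eq_bot_iff]
      intro y hy
      exact this.le ⟨y, hy, rfl⟩
    intro k
    induction k with
    | zero =>
      intro _
      rw [Nat.sub_zero, sub_one_pow_eq_zero hchar hexp b, eq_bot_iff]
      rintro _ ⟨y, -, rfl⟩
      exact AddSubgroup.mem_bot.mpr rfl
    | succ k ihk =>
      intro hk
      have hprev := ihk (by omega)
      set j := p - (k + 1) with hj
      have hj1 : p - k = j + 1 := by omega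
      rw [hj1] at hprev
      have hcomm : ∀ a : A, ∀ y : V, α a ((e ^ j) y) = (e ^ j) (α a y) := by
        intro a y
        have h : α a * e ^ j = e ^ j * α a := by
          refine (Commute.pow_right ?_ j).eq
          exact (show Commute (α a) (α b) by
            unfold Commute SemiconjBy; rw [← map_mul, ← map_mul, mul_comm]).sub_right (Commute.one_right _)
        exact DFunLike.congr_fun h y
      apply ih (Y.map (e ^ j))
      · rintro a _ ⟨y, hy, rfl⟩
        exact ⟨α a y, hinv a y hy, (hcomm a y).symm⟩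
      · rintro _ ⟨y, hy, rfl⟩
        have h1 : (e ^ j) y ∈ (AddSubgroup.closure {v | ∃ a ∈ insert b T, ∃ y ∈ Y, v = α a y - y}).map
            (e ^ j) := ⟨y, hY hy, rfl⟩
        refine (AddSubgroup.closure_le _).mpr ?_ ((AddMonoidHom.map_closure _ _).le h1)
        rintro _ ⟨v, ⟨a, ha, y', hy', rfl⟩, rfl⟩
        have e1 : (e ^ j) (α a y' - y') = α a ((e ^ j) y') - (e ^ j) y' := by rw [map_sub, hcomm]
        rcases Finset.mem_insert.mp ha with rfl | ha
        · have h2 : (e ^ (j + 1)) y' ∈ Y.map (e ^ (j + 1)) := ⟨y', hy', rfl⟩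
          rw [hprev, AddSubgroup.mem_bot, pow_succ'] at h2
          have h3 : α a ((e ^ j) y') - (e ^ j) y' = (e * e ^ j) y' := rfl
          have h4 : (e ^ j) (α a y' - y') = 0 := e1.trans (h3.trans h2)
          exact (congrArg (fun w => w ∈ (AddSubgroup.closure
            {v | ∃ a ∈ T, ∃ y ∈ Y.map (e ^ j), v = α a y - y} : Set V)) h4).mpr (zero_mem _)
        · exact AddSubgroup.subset_closure ⟨a, ha, _, ⟨y', hy', rfl⟩, e1⟩

/-- The subgroup fixing all `α a u - u`. -/
def fixer (α : A →* AddMonoid.End V) (u : V) : Subgroup A where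
  carrier := {b | ∀ a, α b (α a u - u) = α a u - u}
  one_mem' := fun a => by rw [map_one]; rfl
  mul_mem' := fun {b c} hb hc a => by
    rw [map_mul]
    show α b (α c _) = _
    rw [hc a, hb a]
  inv_mem' := fun {b} hb a => by
    conv_lhs => rw [← hb a]
    have h : α b⁻¹ * α b = 1 := by rw [← map_mul, inv_mul_cancel, map_one]
    exact DFunLike.congr_fun h _

/-- The subgroup `[V, A]`. -/
def moved (α : A →* AddMonoid.End V) : AddSubgroup V :=
  AddSubgroup.closure {v | ∃ a u, v = α a u - u}

theorem meas_fixer (hmax : ∀ B : Subgroup A, meas α B ≤ meas α ⊤) (u : V) :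
    meas α (fixer α u) = meas α ⊤ ∧ fixSub α (fixer α u) ≤ moved α ⊔ fixSub α ⊤ := by
  classical
  set X := AddSubgroup.closure {v | ∃ a, v = α a u - u} with hX
  set C := fixSub α ⊤ with hC
  set B := fixer α u with hB
  have hlow : X ⊔ C ≤ fixSub α B := by
    refine sup_le ((AddSubgroup.closure_le _).mpr ?_) (fixSub_anti α le_top)
    rintro _ ⟨a, rfl⟩ b hb
    exact hb a
  have key : ∀ a b : A, (α b u - u) - (α a u - u) ∈ C → a⁻¹ * b ∈ B := by
    intro a b hw c
    set w := α b u - u - (α a u - u) with hwdef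
    have hfix : ∀ d, α d w = w := fun d => hw d trivial
    have hbu : α b u = w + α a u := by rw [hwdef]; abel
    have h1 : α (a⁻¹ * b) u = w + u := by
      rw [map_mul]
      show α a⁻¹ (α b u) = _
      rw [hbu, map_add, hfix]
      have h : α a⁻¹ * α a = 1 := by rw [← map_mul, inv_mul_cancel, map_one]
      rw [show α a⁻¹ (α a u) = u from DFunLike.congr_fun h u]
    rw [map_sub, apply_comm α _ c u, h1, map_add, hfix]
    abel
  let f : A ⧸ B → ↥(X ⊔ C) ⧸ C.addSubgroupOf (X ⊔ C) := fun q =>
    QuotientAddGroup.mk ⟨α q.out u - u,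
      le_sup_left (a := X) (AddSubgroup.subset_closure ⟨q.out, rfl⟩)⟩
  have hf : Function.Injective f := by
    intro q r h
    simp only [f, QuotientAddGroup.eq, AddSubgroup.mem_addSubgroupOf] at h
    rw [← QuotientGroup.out_eq' q, ← QuotientGroup.out_eq' r, QuotientGroup.eq]
    apply key
    convert h using 1
    simp only [AddSubgroup.coe_add, AddSubgroup.coe_neg]
    abel
  have hidx : B.index ≤ C.relIndex (X ⊔ C) := Nat.card_le_card_of_injective f hf
  have hcard : meas α ⊤ ≤ Nat.card B * Nat.card ↥(X ⊔ C) := by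
    calc meas α ⊤ = Nat.card B * B.index * Nat.card C := by
          rw [B.card_mul_index, meas, Subgroup.card_top]
      _ ≤ Nat.card B * C.relIndex (X ⊔ C) * Nat.card C :=
          Nat.mul_le_mul_right _ (Nat.mul_le_mul_left _ hidx)
      _ = Nat.card B * Nat.card ↥(X ⊔ C) := by
          have h := AddSubgroup.relIndex_mul_relIndex ⊥ C (X ⊔ C) bot_le le_sup_right
          rw [AddSubgroup.relIndex_bot_left, AddSubgroup.relIndex_bot_left] at h
          rw [← h]; ring
  have h1 := hmax B
  have h2 : Nat.card B * Nat.card ↥(X ⊔ C) ≤ meas α B :=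
    Nat.mul_le_mul_left _ (Nat.card_le_card_of_injective _ (AddSubgroup.inclusion_injective hlow))
  refine ⟨le_antisymm h1 (hcard.trans h2), ?_⟩
  have heq : X ⊔ C = fixSub α B :=
    AddSubgroup.eq_of_le_of_card_ge hlow (Nat.le_of_mul_le_mul_left (h1.trans hcard) Nat.card_pos)
  rw [← heq]
  refine sup_le_sup_right ((AddSubgroup.closure_le _).mpr ?_) _
  rintro _ ⟨a, rfl⟩
  exact AddSubgroup.subset_closure ⟨a, u, rfl⟩

theorem meas_inf (hmax : ∀ B : Subgroup A, meas α B ≤ meas α ⊤) {B₁ B₂ : Subgroup A}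
    (h₁ : meas α B₁ = meas α ⊤) (h₂ : meas α B₂ = meas α ⊤) :
    meas α (B₁ ⊓ B₂) = meas α ⊤ ∧ fixSub α (B₁ ⊓ B₂) = fixSub α B₁ ⊔ fixSub α B₂ := by
  have hlow : fixSub α B₁ ⊔ fixSub α B₂ ≤ fixSub α (B₁ ⊓ B₂) :=
    sup_le (fixSub_anti α inf_le_left) (fixSub_anti α inf_le_right)
  have hsup : fixSub α B₁ ⊓ fixSub α B₂ ≤ fixSub α (B₁ ⊔ B₂) := by
    intro v hv b hb
    let S : Subgroup A :=
      { carrier := {b | α b v = v}
        one_mem' := by simp [map_one]
        mul_mem' := fun {c d} hc hd => by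
          show α (c * d) v = v
          rw [map_mul]
          show α c (α d v) = v
          rw [show α d v = v from hd, show α c v = v from hc]
        inv_mem' := fun {c} hc => by
          have h : α c⁻¹ * α c = 1 := by rw [← map_mul, inv_mul_cancel, map_one]
          have h' := DFunLike.congr_fun h v
          show α c⁻¹ v = v
          conv_lhs => rw [← (show α c v = v from hc)]
          exact h' }
    have hle : B₁ ⊔ B₂ ≤ S := sup_le (fun c hc => hv.1 c hc) (fun c hc => hv.2 c hc)
    exact hle hb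
  have key : meas α ⊤ * meas α ⊤ ≤
      meas α ⊤ * (Nat.card ↥(B₁ ⊓ B₂) * Nat.card ↥(fixSub α B₁ ⊔ fixSub α B₂)) := by
    calc meas α ⊤ * meas α ⊤ = (Nat.card B₁ * Nat.card B₂) *
          (Nat.card (fixSub α B₁) * Nat.card (fixSub α B₂)) := by
          conv_lhs => arg 1; rw [← h₁]
          conv_lhs => arg 2; rw [← h₂]
          simp only [meas]
          ring
      _ ≤ (Nat.card ↥(B₁ ⊓ B₂) * Nat.card ↥(B₁ ⊔ B₂)) *
          (Nat.card ↥(fixSub α B₁ ⊓ fixSub α B₂) * Nat.card ↥(fixSub α B₁ ⊔ fixSub α B₂)) :=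
          Nat.mul_le_mul (Offender.card_mul_le _ _) (addCard_mul_le _ _)
      _ = (Nat.card ↥(B₁ ⊔ B₂) * Nat.card ↥(fixSub α B₁ ⊓ fixSub α B₂)) *
          (Nat.card ↥(B₁ ⊓ B₂) * Nat.card ↥(fixSub α B₁ ⊔ fixSub α B₂)) := by ring
      _ ≤ _ := by
          refine Nat.mul_le_mul_right _ ((Nat.mul_le_mul_left _ ?_).trans (hmax (B₁ ⊔ B₂)))
          exact Nat.card_le_card_of_injective _ (AddSubgroup.inclusion_injective hsup)
  have hpos : 0 < meas α ⊤ := Nat.mul_pos Nat.card_pos Nat.card_pos
  have h := Nat.le_of_mul_le_mul_left key hpos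
  have h' : Nat.card ↥(B₁ ⊓ B₂) * Nat.card ↥(fixSub α B₁ ⊔ fixSub α B₂) ≤ meas α (B₁ ⊓ B₂) :=
    Nat.mul_le_mul_left _ (Nat.card_le_card_of_injective _ (AddSubgroup.inclusion_injective hlow))
  exact ⟨le_antisymm (hmax _) (h.trans h'), (AddSubgroup.eq_of_le_of_card_ge hlow
    (Nat.le_of_mul_le_mul_left ((hmax _).trans h) Nat.card_pos)).symm⟩

/-- Timmesfeld replacement. -/
theorem exists_quadratic (hchar : (p : AddMonoid.End V) = 0) (hexp : ∀ a : A, a ^ p = 1)
    (hmax : ∀ B : Subgroup A, meas α B ≤ meas α ⊤) :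
    ∃ B : Subgroup A, meas α B = meas α ⊤ ∧ (∀ a, ∀ m ∈ B, (α m - 1) * (α a - 1) = 0) ∧
      ((∀ m ∈ B, α m = 1) → ∀ a, α a = 1) := by
  classical
  haveI := Fintype.ofFinite V
  haveI := Fintype.ofFinite A
  have hind : ∀ T : Finset V, meas α (T.inf (fixer α)) = meas α ⊤ ∧
      fixSub α (T.inf (fixer α)) ≤ moved α ⊔ fixSub α ⊤ := by
    intro T
    induction T using Finset.induction with
    | empty => exact ⟨rfl, le_sup_right⟩
    | insert u T _ ih =>
      rw [Finset.inf_insert]
      obtain ⟨h1, h1'⟩ := meas_fixer hmax u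
      obtain ⟨h2, h3⟩ := meas_inf hmax h1 ih.1
      exact ⟨h2, h3 ▸ sup_le h1' ih.2⟩
  refine ⟨Finset.univ.inf (fixer α), (hind _).1, fun a m hm => ?_, fun htriv a => ?_⟩
  · ext v
    have h : m ∈ fixer α v := (Finset.inf_le (f := fixer α) (Finset.mem_univ v)) hm
    show α m (α a v - v) - (α a v - v) = 0
    rw [h a, sub_self]
  · have htop : ∀ v, v ∈ moved α ⊔ fixSub α ⊤ := fun v =>
      (hind Finset.univ).2 (fun m hm => by rw [htriv m hm]; rfl)
    have hgen : ∀ b v, α b v - v ∈
        AddSubgroup.closure {w | ∃ c ∈ (Finset.univ : Finset A), ∃ y ∈ moved α, w = α c y - y} := by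
      intro b v
      obtain ⟨x, hx, c, hc, rfl⟩ := AddSubgroup.mem_sup.mp (htop v)
      refine AddSubgroup.subset_closure ⟨b, Finset.mem_univ b, x, hx, ?_⟩
      rw [map_add, hc b trivial]
      abel
    have hbot : moved α = ⊥ := by
      refine eq_bot_of_le_moved (α := α) hchar hexp Finset.univ (moved α) ?_ ?_
      · intro b y hy
        have : moved α ≤ (moved α).comap (α b) := by
          refine (AddSubgroup.closure_le _).mpr ?_
          rintro _ ⟨c, u, rfl⟩
          refine AddSubgroup.subset_closure ⟨c, α b u, ?_⟩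
          show α b (α c u - u) = _
          rw [map_sub, apply_comm α b c u]
        exact this hy
      · refine (AddSubgroup.closure_le _).mpr ?_
        rintro _ ⟨c, u, rfl⟩
        exact hgen c u
    ext v
    have h : α a v - v ∈ moved α := AddSubgroup.subset_closure ⟨a, v, rfl⟩
    rw [hbot, AddSubgroup.mem_bot, sub_eq_zero] at h
    exact h

end Replacement

end CfsgLib.PGV
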