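import Cfsg.Agent.PGV.Setup

/-!
The case `p = 2`.
-/

set_option linter.unusedSectionVars false

namespace CfsgLib.PGV

open scoped commutatorElement

theorem sub_eq_add' {R : Type*} [Ring R] (htwo : (2 : R) = 0) (r s : R) : r - s = r + s := by
  rw [sub_eq_iff_eq_add, add_assoc, ← two_mul, htwo, zero_mul, add_zero]

/-- From `(U W - 1) (a - 1) = 0` and `W = a U a`: the traces of `U` and `W` agree. -/
theorem tau_eq {R : Type*} [Ring R] {U U' W W' a : R} (haa : a * a = 1) (hW : a * U * a = W)
    (hU : U' * U = 1) (hW' : W' * W = 1) (hc : Commute U W) (hc' : Commute U W')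
    (hfix : U * W * (a - 1) = a - 1) : U + U' = W + W' := by
  set d := U * W - 1 with hd
  have hda : d * a = d := by
    rw [← sub_eq_zero, ← mul_sub_one, hd, sub_one_mul, hfix, sub_self]
  have hdU : Commute U d := ((Commute.refl U).mul_right hc).sub_right (Commute.one_right _)
  have h1 : d * W = d * U := by
    rw [← hW, ← mul_assoc, ← mul_assoc, hda, ← hdU.eq, mul_assoc, hda]
  have h2 : U' * W' * (d * W - d * U) = 0 := by rw [h1, sub_self, mul_zero]
  have h3 : U' * W' * d = 1 - U' * W' := by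
    rw [hd, mul_sub, mul_one, mul_assoc U', ← mul_assoc W', ← hc'.eq, mul_assoc U W', hW', mul_one, hU]
  rw [mul_sub, ← mul_assoc, ← mul_assoc, h3, sub_mul, sub_mul, one_mul, one_mul, mul_assoc U' W', hW',
    mul_one, mul_assoc U' W' U, ← hc'.eq, ← mul_assoc, hU, one_mul] at h2
  rw [← sub_eq_zero, ← neg_eq_zero, ← h2]
  abel

section Module

variable {V : Type*} [AddCommGroup V] [Finite V]

/-- The operator induced on a section `U / C`. -/
def descEnd {U C : AddSubgroup V} (f : AddMonoid.End V) (hU : ∀ v ∈ U, f v ∈ U) (hC : ∀ v ∈ C, f v ∈ C) :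
    AddMonoid.End (U ⧸ C.addSubgroupOf U) :=
  QuotientAddGroup.map _ _
    { toFun := fun u => ⟨f u, hU u u.2⟩
      map_zero' := Subtype.ext (map_zero f)
      map_add' := fun u v => Subtype.ext (map_add f _ _) }
    (fun u hu => AddSubgroup.mem_addSubgroupOf.mpr (hC u (AddSubgroup.mem_addSubgroupOf.mp hu)))

theorem descEnd_mk {U C : AddSubgroup V} (f : AddMonoid.End V) (hU : ∀ v ∈ U, f v ∈ U)
    (hC : ∀ v ∈ C, f v ∈ C) (u : U) :
    descEnd f hU hC (QuotientAddGroup.mk u) = QuotientAddGroup.mk ⟨f u, hU u u.2⟩ := rfl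

theorem descEnd_ext {U C : AddSubgroup V} {g h : AddMonoid.End (U ⧸ C.addSubgroupOf U)}
    (hgh : ∀ u : U, g (QuotientAddGroup.mk u) = h (QuotientAddGroup.mk u)) : g = h := by
  refine DFunLike.ext _ _ fun q => ?_
  induction q using QuotientAddGroup.induction_on with
  | H u => exact hgh u

/-- The index of a subgroup does not grow in a section. -/
theorem card_section_le (U C : AddSubgroup V) (S : AddSubgroup V)
    (S' : AddSubgroup (U ⧸ C.addSubgroupOf U))
    (h : ∀ u : U, (u : V) ∈ S → QuotientAddGroup.mk u ∈ S') :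
    Nat.card (U ⧸ C.addSubgroupOf U) * Nat.card S ≤ Nat.card S' * Nat.card V := by
  classical
  set C' := C.addSubgroupOf U
  have hU : Nat.card U = Nat.card (U ⧸ C') * Nat.card C' := AddSubgroup.card_eq_card_quotient_mul_card_addSubgroup C'
  have hinf : Nat.card ↥(U ⊓ S) ≤ Nat.card S' * Nat.card C' := by
    rw [← Nat.card_prod]
    let mkU : ↥(U ⊓ S) → U := fun v => ⟨v, v.2.1⟩
    refine Nat.card_le_card_of_injective
      (fun v => (⟨QuotientAddGroup.mk (mkU v), h _ v.2.2⟩,
        ⟨-(QuotientAddGroup.mk (s := C') (mkU v)).out + mkU v,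
          QuotientAddGroup.eq.mp (QuotientAddGroup.out_eq' _)⟩)) ?_
    intro v w hvw
    simp only [Prod.mk.injEq, Subtype.mk.injEq] at hvw
    obtain ⟨h1, h2⟩ := hvw
    rw [h1] at h2
    exact Subtype.ext (congrArg Subtype.val (add_left_cancel h2) :)
  have h1 : Nat.card U * Nat.card S ≤ Nat.card ↥(U ⊓ S) * Nat.card V :=
    (addCard_mul_le U S).trans (Nat.mul_le_mul_left _
      (Nat.card_le_card_of_injective _ Subtype.val_injective))
  have h2 : Nat.card C' * (Nat.card (U ⧸ C') * Nat.card S) ≤ Nat.card C' * (Nat.card S' * Nat.card V) := by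
    calc Nat.card C' * (Nat.card (U ⧸ C') * Nat.card S) = Nat.card U * Nat.card S := by rw [hU]; ring
      _ ≤ Nat.card ↥(U ⊓ S) * Nat.card V := h1
      _ ≤ Nat.card S' * Nat.card C' * Nat.card V := Nat.mul_le_mul_right _ hinf
      _ = _ := by ring
  exact Nat.le_of_mul_le_mul_left h2 Nat.card_pos

/-- The span of the image of a monoid homomorphism, as a subring. -/
def spanRing {K : Type*} [Monoid K] (κ : K →* AddMonoid.End V) : Subring (AddMonoid.End V) where
  carrier := AddSubgroup.closure (Set.range κ)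
  one_mem' := AddSubgroup.subset_closure ⟨1, map_one κ⟩
  zero_mem' := zero_mem _
  add_mem' := add_mem
  neg_mem' := neg_mem
  mul_mem' := fun {r s} hr hs => by
    induction hr using AddSubgroup.closure_induction with
    | mem r hr =>
      induction hs using AddSubgroup.closure_induction with
      | mem s hs =>
        obtain ⟨x, rfl⟩ := hr
        obtain ⟨y, rfl⟩ := hs
        exact AddSubgroup.subset_closure ⟨x * y, map_mul κ x y⟩
      | zero => rw [mul_zero]; exact zero_mem _
      | add _ _ _ _ h1 h2 => rw [mul_add]; exact add_mem h1 h2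
      | neg _ _ h => rw [mul_neg]; exact neg_mem h
    | zero => rw [zero_mul]; exact zero_mem _
    | add _ _ _ _ h1 h2 => rw [add_mul]; exact add_mem h1 h2
    | neg _ _ h => rw [neg_mul]; exact neg_mem h

theorem mem_spanRing {K : Type*} [Monoid K] (κ : K →* AddMonoid.End V) (x : K) : κ x ∈ spanRing κ :=
  AddSubgroup.subset_closure ⟨x, rfl⟩

/-- An irreducible exchange configuration in characteristic two admits no small offender. -/
theorem module_contra {K : Type*} [Group K] [Finite K] (hK : commutator K = ⊤)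
    (κ : K →* AddMonoid.End V) (htwo : (2 : AddMonoid.End V) = 0) (hnt : ∃ x, κ x ≠ 1)
    (a : AddMonoid.End V) (haa : a * a = 1) (hcomm : ∀ x y, Commute (κ x) (a * κ y * a))
    (hrel : ∀ x, κ x * (a * κ x * a) * (a - 1) = a - 1)
    (hirr : ∀ W : AddSubgroup V, (∀ x, ∀ v ∈ W, κ x v ∈ W) → (∀ v ∈ W, a v ∈ W) → W = ⊥ ∨ W = ⊤)
    {ι : Type*} [Finite ι] [Nonempty ι] (μ : ι → AddMonoid.End V) (hinj : Function.Injective μ)
    (hμsq : ∀ m, μ m * μ m = 1) (hμK : ∀ m x, ∃ y, μ m * κ x * μ m = κ y)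
    (hμa : ∀ m, (μ m - 1) * (a - 1) = 0) (hμμ : ∀ m m', (μ m - 1) * (μ m' - 1) = 0)
    (hbound : Nat.card V ≤ 2 * Nat.card ι * Nat.card {v : V // ∀ m, μ m v = v})
    (hbound1 : (∀ m, μ m = 1) → Nat.card V ≤ 2 * Nat.card {v : V // a v = v}) : False := by
  classical
  have hneg : ∀ r : AddMonoid.End V, r + r = 0 := fun r => by rw [← two_mul, htwo, zero_mul]
  have hKinv : ∀ x, κ x⁻¹ * κ x = 1 := fun x => by rw [← map_mul, inv_mul_cancel, map_one]
  -- `a ≠ 1`
  have hane : a ≠ 1 := by
    rintro rfl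
    obtain ⟨x, hx⟩ := hnt
    refine hx (QuadData.perfect_comm_trivial hK κ (fun x y => ?_) x)
    simpa using hcomm x y
  obtain ⟨u, hu⟩ : ∃ u, (a - 1) u ≠ 0 := by
    by_contra h
    push Not at h
    exact hane (sub_eq_zero.mp (DFunLike.ext _ _ h))
  set w := (a - 1) u with hw
  have happ : ∀ (r s : AddMonoid.End V) (v : V), (r * s) v = r (s v) := fun _ _ _ => rfl
  have haw : a w = w := by
    have h : a * (a - 1) = a - 1 := by
      rw [mul_sub, haa, mul_one, sub_eq_add' htwo, sub_eq_add' htwo, add_comm]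
    calc a w = (a * (a - 1)) u := rfl
      _ = w := by rw [h]
  have hμw : ∀ m, μ m w = w := fun m => by
    have h := DFunLike.congr_fun (hμa m) u
    change μ m w - w = 0 at h
    exact sub_eq_zero.mp h
  have hvw : ∀ x, (a * κ x * a) w = κ x⁻¹ w := fun x => by
    have h := DFunLike.congr_fun (hrel x) u
    change κ x ((a * κ x * a) w) = w at h
    conv_rhs => rw [← h]
    rw [← happ (κ x⁻¹) (κ x), hKinv]
    rfl
  let R := spanRing κ
  have hRv : ∀ r ∈ R, ∀ y, Commute r (a * κ y * a) := by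
    intro r hr y
    change r ∈ AddSubgroup.closure (Set.range κ) at hr
    induction hr using AddSubgroup.closure_induction with
    | mem r hr => obtain ⟨x, rfl⟩ := hr; exact hcomm x y
    | zero => exact Commute.zero_left _
    | add _ _ _ _ h1 h2 => exact h1.add_left h2
    | neg _ _ h => exact h.neg_left
  let ev : R →+ V :=
    { toFun := fun r => (r : AddMonoid.End V) w
      map_zero' := rfl
      map_add' := fun _ _ => rfl }
  have hkw : ∀ x, a (κ x w) = κ x⁻¹ w := fun x => by
    rw [← hvw x]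
    show a (κ x w) = a (κ x (a w))
    rw [haw]
  have hX1 : ∀ x, ∀ v ∈ ev.range, κ x v ∈ ev.range := by
    rintro x _ ⟨r, rfl⟩
    exact ⟨⟨κ x, mem_spanRing κ x⟩ * r, rfl⟩
  have hX2 : ∀ v ∈ ev.range, a v ∈ ev.range := by
    rintro _ ⟨⟨r, hr⟩, rfl⟩
    show a (r w) ∈ ev.range
    change r ∈ AddSubgroup.closure (Set.range κ) at hr
    induction hr using AddSubgroup.closure_induction with
    | mem r hr => obtain ⟨x, rfl⟩ := hr; exact ⟨⟨κ x⁻¹, mem_spanRing κ _⟩, (hkw x).symm⟩
    | zero => exact ⟨0, by show (0 : V) = a 0; rw [map_zero]⟩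
    | add r s _ _ h1 h2 =>
      show a (r w + s w) ∈ ev.range
      rw [map_add]; exact add_mem h1 h2
    | neg r _ h =>
      show a (-(r w)) ∈ ev.range
      rw [map_neg]; exact neg_mem h
  have hsurj : Function.Surjective ev := by
    intro v
    rcases hirr _ hX1 hX2 with h | h
    · refine absurd ?_ hu
      have : w ∈ ev.range := ⟨1, rfl⟩
      rwa [h, AddSubgroup.mem_bot] at this
    · exact (h ▸ AddSubgroup.mem_top v : v ∈ ev.range)
  have hinjev : Function.Injective ev := by
    rw [injective_iff_map_eq_zero]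
    rintro ⟨r, hr⟩ h0
    change r w = 0 at h0
    apply Subtype.ext
    refine DFunLike.ext _ _ fun v => ?_
    obtain ⟨⟨s, hs⟩, rfl⟩ := hsurj v
    show r (s w) = 0
    change s ∈ AddSubgroup.closure (Set.range κ) at hs
    induction hs using AddSubgroup.closure_induction with
    | mem s hs =>
      obtain ⟨y, rfl⟩ := hs
      have h1 := hvw y⁻¹
      rw [inv_inv] at h1
      rw [← h1, ← happ r, (hRv r hr y⁻¹).eq, happ, h0, map_zero]
    | zero => exact map_zero r
    | add s t _ _ h1 h2 => show r (s w + t w) = 0; rw [map_add, h1, h2, add_zero]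
    | neg s _ h => show r (-(s w)) = 0; rw [map_neg, h, neg_zero]
  let e : R ≃+ V := AddEquiv.ofBijective ev ⟨hinjev, hsurj⟩
  have he : ∀ r : R, e r = (r : AddMonoid.End V) w := fun _ => rfl
  let σ : R →+ R := (e.symm.toAddMonoidHom.comp (a : V →+ V)).comp e.toAddMonoidHom
  have hσe : ∀ r, e (σ r) = a (e r) := fun r => e.apply_symm_apply _
  let k' : K →* R :=
    { toFun := fun x => ⟨κ x, mem_spanRing κ x⟩
      map_one' := Subtype.ext (map_one κ)
      map_mul' := fun x y => Subtype.ext (map_mul κ x y) }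
  have hσk : ∀ x, σ (k' x) = k' x⁻¹ := fun x => e.injective ((hσe _).trans (hkw x))
  have hind : ∀ (P : R → Prop), (∀ x, P (k' x)) → P 0 → (∀ r s, P r → P s → P (r + s)) →
      (∀ r, P r → P (-r)) → ∀ r, P r := by
    intro P h1 h0 h2 h3 r
    obtain ⟨r, hr⟩ := r
    have key : ∀ hr' : r ∈ R, P ⟨r, hr'⟩ := by
      change r ∈ AddSubgroup.closure (Set.range κ) at hr
      induction hr using AddSubgroup.closure_induction with
      | mem r hr => obtain ⟨x, rfl⟩ := hr; exact fun _ => h1 x
      | zero => exact fun _ => h0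
      | add r s hr hs ih1 ih2 => exact fun _ => h2 _ _ (ih1 hr) (ih2 hs)
      | neg r hr ih => exact fun _ => h3 _ (ih hr)
    exact key hr
  have hanti : ∀ r s, σ (r * s) = σ s * σ r := by
    refine hind _ (fun x => ?_) ?_ ?_ ?_
    · refine hind _ (fun y => ?_) ?_ ?_ ?_
      · rw [← map_mul, hσk, hσk, hσk, mul_inv_rev, map_mul]
      · simp
      · intro r s h1 h2; rw [mul_add, map_add, h1, h2, map_add, add_mul]
      · intro r h; rw [mul_neg, map_neg, h, map_neg, neg_mul]
    · intro s; simp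
    · intro r r' h1 h2 s; rw [add_mul, map_add, h1, h2, map_add, mul_add]
    · intro r h s; rw [neg_mul, map_neg, h, map_neg, mul_neg]
  have hinvol : ∀ r, σ (σ r) = r := fun r => by
    apply e.injective
    rw [hσe, hσe, ← happ, haa]
    rfl
  have hT : ∀ r s, (r + σ r) * s = s * (r + σ r) := by
    have h0 : ∀ x y, (k' x + k' x⁻¹) * k' y = k' y * (k' x + k' x⁻¹) := by
      intro x y
      apply Subtype.ext
      show (κ x + κ x⁻¹) * κ y = κ y * (κ x + κ x⁻¹)
      have ht : κ x + κ x⁻¹ = a * κ x * a + a * κ x⁻¹ * a := by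
        refine tau_eq haa rfl (hKinv x) ?_ (hcomm x x) (hcomm x x⁻¹) (hrel x)
        calc a * κ x⁻¹ * a * (a * κ x * a) = a * κ x⁻¹ * (a * a) * κ x * a := by simp only [mul_assoc]
          _ = 1 := by rw [haa, mul_one, mul_assoc a, hKinv, mul_one, haa]
      rw [ht]
      exact (((hcomm y x).add_right (hcomm y x⁻¹)).eq).symm
    refine hind _ (fun x => ?_) ?_ ?_ ?_
    · refine hind _ (fun y => by rw [hσk]; exact h0 x y) ?_ ?_ ?_
      · simp
      · intro r s h1 h2; rw [mul_add, h1, h2, add_mul]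
      · intro r h; rw [mul_neg, neg_mul, h]
    · intro s; simp
    · intro r r' h1 h2 s
      rw [map_add, show r + r' + (σ r + σ r') = (r + σ r) + (r' + σ r') by abel, add_mul, h1, h2, ← mul_add]
    · intro r h s
      rw [map_neg, ← neg_add, neg_mul, mul_neg, h]
  have hN : ∀ r s, (r * σ r) * s = s * (r * σ r) := by
    refine hind _ (fun x s => ?_) ?_ ?_ ?_
    · rw [hσk, ← map_mul, mul_inv_cancel, map_one, one_mul, mul_one]
    · intro s; simp
    · intro r r' h1 h2 s
      have h3 : (r + r') * σ (r + r') = r * σ r + r' * σ r' + (r * σ r' + σ (r * σ r')) := by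
        rw [map_add, hanti, hinvol]; simp only [add_mul, mul_add]; abel
      rw [h3, add_mul, add_mul, h1, h2, hT, ← mul_add, ← mul_add]
    · intro r h s
      rw [map_neg, neg_mul_neg]; exact h s
  let D : QuadData R :=
    { two := fun r => Subtype.ext (hneg (r : AddMonoid.End V))
      σ := σ
      anti := hanti
      invol := hinvol
      tCentral := hT
      nCentral := hN
      ideal := fun I hl hr hs => by
        rcases hirr (I.map e.toAddMonoidHom) (by
            rintro x _ ⟨r, hr', rfl⟩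
            exact ⟨k' x * r, hl r hr' _, rfl⟩) (by
            rintro _ ⟨r, hr', rfl⟩
            exact ⟨σ r, hs r hr', hσe r⟩) with h | h
        · left
          rw [eq_bot_iff]
          intro r hr'
          have : e r ∈ I.map e.toAddMonoidHom := ⟨r, hr', rfl⟩
          rw [h, AddSubgroup.mem_bot] at this
          exact AddSubgroup.mem_bot.mpr (e.injective (this.trans (map_zero e).symm))
        · right
          rw [eq_top_iff]
          intro r _
          obtain ⟨r', hr', hr''⟩ : e r ∈ I.map e.toAddMonoidHom := h ▸ AddSubgroup.mem_top _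
          exact e.injective hr'' ▸ hr'
      noncomm := fun h => by
        obtain ⟨x, hx⟩ := hnt
        exact hx (congrArg Subtype.val (QuadData.perfect_comm_trivial hK k' (fun x y => h _ _) x)) }
  have hmem : ∀ m, ∀ r ∈ R, μ m * r * μ m ∈ R := by
    intro m r hr
    change r ∈ AddSubgroup.closure (Set.range κ) at hr
    induction hr using AddSubgroup.closure_induction with
    | mem r hr =>
      obtain ⟨x, rfl⟩ := hr
      obtain ⟨y, hy⟩ := hμK m x
      rw [hy]; exact mem_spanRing κ y
    | zero => rw [mul_zero, zero_mul]; exact zero_mem _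
    | add _ _ _ _ h1 h2 => rw [mul_add, add_mul]; exact add_mem h1 h2
    | neg _ _ h => rw [mul_neg, neg_mul]; exact neg_mem h
  haveI : Finite R := Finite.of_injective _ hinjev
  let φ : ι → R →+* R := fun m =>
    { toFun := fun r => ⟨μ m * r * μ m, hmem m r r.2⟩
      map_one' := Subtype.ext (by show μ m * 1 * μ m = 1; rw [mul_one, hμsq])
      map_zero' := Subtype.ext (by show μ m * 0 * μ m = 0; rw [mul_zero, zero_mul])
      map_mul' := fun r s => Subtype.ext (by
        show μ m * (r * s) * μ m = (μ m * r * μ m) * (μ m * s * μ m)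
        calc μ m * (r * s) * μ m = μ m * r * 1 * s * μ m := by rw [mul_one]; simp only [mul_assoc]
          _ = _ := by rw [← hμsq m]; simp only [mul_assoc])
      map_add' := fun r s => Subtype.ext (by
        show μ m * (r + s) * μ m = μ m * r * μ m + μ m * s * μ m
        rw [mul_add, add_mul]) }
  have hφe : ∀ m r, e (φ m r) = μ m (e r) := fun m r => by
    show μ m ((r : AddMonoid.End V) (μ m w)) = μ m ((r : AddMonoid.End V) w)
    rw [hμw]
  refine D.contra k' hK hσk ?_ φ ?_ ?_ ?_ ?_ ?_ ?_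
  · obtain ⟨x, hx⟩ := hnt
    exact ⟨x, fun h => hx (congrArg Subtype.val h)⟩
  · intro m m' h
    apply hinj
    refine DFunLike.ext _ _ fun v => ?_
    obtain ⟨r, rfl⟩ := e.surjective v
    rw [← hφe, ← hφe, h]
  · intro m r
    apply e.injective
    rw [hφe, hφe, ← happ, hμsq]
    rfl
  · intro m z hz
    obtain ⟨x, hx⟩ := D.exists_u k' hK hσk (by
      obtain ⟨x, hx⟩ := hnt
      exact ⟨x, fun h => hx (congrArg Subtype.val h)⟩)
    obtain ⟨t', ht', hti⟩ := D.k_inv (D.T_mem (k' x)) hx
    have hz' : z = D.T (z * t' * k' x) := by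
      rw [D.T_smul (D.k.mul_mem hz ht'), mul_assoc, ht'.1, hti, mul_one]
    apply e.injective
    rw [hφe, hz', QuadData.T, map_add, hσe]
    generalize e (z * t' * k' x) = v
    have h := DFunLike.congr_fun (hμa m) v
    change μ m (a v - v) - (a v - v) = 0 at h
    have h' : v + a v = a v - v := by
      have h2 := DFunLike.congr_fun (sub_eq_add' htwo a 1) v
      change a v - v = a v + v at h2
      rw [h2, add_comm]
    rw [h']
    exact sub_eq_zero.mp h
  · intro m m' r
    apply e.injective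
    rw [hφe, map_add, hφe]
    generalize e r = v
    have h := DFunLike.congr_fun (hμμ m' m) v
    change μ m' (μ m v - v) - (μ m v - v) = 0 at h
    have h' : μ m v + v = μ m v - v := (DFunLike.congr_fun (sub_eq_add' htwo (μ m) 1) v).symm
    rw [h']
    exact sub_eq_zero.mp h
  · rw [Nat.card_congr e.toEquiv]
    refine hbound.trans (le_of_eq ?_)
    congr 1
    refine Nat.card_congr (e.toEquiv.subtypeEquiv fun r => ?_).symm
    constructor
    · intro h m; rw [AddEquiv.toEquiv_eq_coe, EquivLike.coe_coe, ← hφe, h m]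
    · intro h m; exact e.injective ((hφe m r).trans (h m))
  · intro h
    rw [Nat.card_congr e.toEquiv]
    refine (hbound1 fun m => ?_).trans (le_of_eq ?_)
    · refine DFunLike.ext _ _ fun v => ?_
      obtain ⟨r, rfl⟩ := e.surjective v
      rw [← hφe, h m r]; rfl
    · congr 1
      refine Nat.card_congr (e.toEquiv.subtypeEquiv fun r => ?_).symm
      show r + σ r = 0 ↔ a (e r) = e r
      rw [← e.map_eq_zero_iff, map_add, hσe]
      have h2 : e r + a (e r) = a (e r) - e r := by
        have h3 := DFunLike.congr_fun (sub_eq_add' htwo a 1) (e r)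
        change a (e r) - e r = a (e r) + e r at h3
        rw [h3, add_comm]
      rw [h2, sub_eq_zero]

end Module

variable {V : Type*} [AddCommGroup V] [Finite V]
variable {A : Type*} [CommGroup A] [Finite A]
variable {K : Type*} [Group K] [Finite K]

namespace Hyp

variable {α : A →* AddMonoid.End V} {κ : K →* AddMonoid.End V} (H : Hyp 2 α κ) {a : A}
include H

theorem two_eq_zero : (2 : AddMonoid.End V) = 0 := by exact_mod_cast H.char

theorem inv_eq (b : A) : b⁻¹ = b := by
  rw [inv_eq_iff_mul_eq_one, ← pow_two]; exact H.exp b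

theorem alpha_sq (b : A) : α b * α b = 1 := by rw [← map_mul, ← pow_two, H.exp, map_one]

theorem cj_two (b : A) (x : K) : cj α κ b x = α b * κ x * α b := by rw [cj_apply, H.inv_eq]

theorem delta_two (ha : ¬ Norm α κ a) (x : K) : H.delta ha x = κ x * cj α κ a x := by
  rw [H.delta_apply, prodConj, prodConj, prodConj, one_mul, pow_zero, pow_one, cj_one]

theorem tau_of_rel (ha : ¬ Norm α κ a) (hrel : H.fixDelta ha = ⊤) (x : K) :
    κ x + κ x⁻¹ = cj α κ a x + cj α κ a x⁻¹ := by
  refine tau_eq (a := α a) (H.alpha_sq a) (H.cj_two a x).symm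
    (by rw [← map_mul, inv_mul_cancel, map_one]) (by rw [← map_mul, inv_mul_cancel, map_one])
    (H.comm_kappa ha x x) (H.comm_kappa ha x x⁻¹) ?_
  rw [← H.delta_two ha]
  exact (show x ∈ H.fixDelta ha from hrel ▸ Subgroup.mem_top x)

/-- A moved component has only two conjugates. -/
theorem rel_four_false (hnt : ∃ x, κ x ≠ 1) (ha : ¬ Norm α κ a) (hrel : H.fixDelta ha = ⊤) {c : A}
    (hc : ¬ Norm α κ c) (hac : ¬ Norm α κ (a * c)) (hrelc : H.fixDelta hc = ⊤) : False := by
  haveI : Fact (Nat.Prime 2) := ⟨H.prime⟩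
  have hinv : ∀ (f : K →* AddMonoid.End V) x, f x⁻¹ * f x = 1 := fun f x => by
    rw [← map_mul, inv_mul_cancel, map_one]
  have hcc : ∀ x y, Commute (cj α κ a x) (cj α κ c y) := fun x y =>
    H.comm_cj (by rwa [H.inv_eq]) x y
  have hca : ∀ x y, Commute (cj α κ a x) (cj α κ (a * c) y) := fun x y =>
    H.comm_cj (by rwa [inv_mul_cancel_left]) x y
  have hcac : ∀ x y, Commute (cj α κ c x) (cj α κ (a * c) y) := fun x y =>
    H.comm_cj (by rw [show c⁻¹ * (a * c) = a by rw [mul_comm a c, inv_mul_cancel_left]]; exact ha) x y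
  have hU : ∀ x z g, Commute (κ x⁻¹ * (cj α κ c z + cj α κ c z⁻¹)) (κ g) := by
    intro x z g
    have hmain : κ x * cj α κ c z + κ x⁻¹ * cj α κ c z⁻¹ =
        cj α κ a x * cj α κ (a * c) z + cj α κ a x⁻¹ * cj α κ (a * c) z⁻¹ := by
      refine tau_eq (a := α a) (H.alpha_sq a) ?_ ?_ ?_ ?_ ?_ ?_
      · rw [H.cj_two a x, cj_mul, H.inv_eq]
        calc α a * (κ x * cj α κ c z) * α a = α a * κ x * 1 * cj α κ c z * α a := by
              rw [mul_one]; simp only [mul_assoc]
          _ = _ := by rw [← H.alpha_sq a]; simp only [mul_assoc]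
      · rw [(H.comm_kappa hc x⁻¹ z⁻¹).eq, mul_assoc, ← mul_assoc (κ x⁻¹), hinv, one_mul, hinv]
      · rw [(hca x⁻¹ z⁻¹).eq, mul_assoc, ← mul_assoc (cj α κ a x⁻¹), hinv, one_mul, hinv]
      · exact ((H.comm_kappa ha x x).mul_right (H.comm_kappa hac x z)).mul_left
          ((hcc x z).symm.mul_right (hcac z z))
      · exact ((H.comm_kappa ha x x⁻¹).mul_right (H.comm_kappa hac x z⁻¹)).mul_left
          ((hcc x⁻¹ z).symm.mul_right (hcac z z⁻¹))
      · have h1 : H.delta ha x * (α a - 1) = α a - 1 :=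
          (show x ∈ H.fixDelta ha from hrel ▸ Subgroup.mem_top x)
        have h2 : cj α κ c z * cj α κ (a * c) z * (α a - 1) = α a - 1 := by
          have h3 : H.delta ha z * (α a - 1) = α a - 1 :=
            (show z ∈ H.fixDelta ha from hrel ▸ Subgroup.mem_top z)
          have h4 : cj α κ c z * cj α κ (a * c) z = α c * H.delta ha z * α c := by
            rw [H.delta_two ha, H.cj_two c z, mul_comm a c, cj_mul c a, H.inv_eq]
            calc α c * κ z * α c * (α c * cj α κ a z * α c)
                = α c * κ z * (α c * α c) * cj α κ a z * α c := by simp only [mul_assoc]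
              _ = _ := by rw [H.alpha_sq, mul_one]; simp only [mul_assoc]
          have h5 : Commute (α a - 1) (α c) := (alpha_comm a c).sub_left (Commute.one_left _)
          rw [h4, mul_assoc, ← h5.eq, mul_assoc (α c), ← mul_assoc (H.delta ha z), h3, ← mul_assoc,
            ← h5.eq, mul_assoc, H.alpha_sq, mul_one]
        calc κ x * cj α κ c z * (cj α κ a x * cj α κ (a * c) z) * (α a - 1)
            = κ x * cj α κ a x * (cj α κ c z * cj α κ (a * c) z * (α a - 1)) := by
              rw [mul_assoc (κ x), ← mul_assoc (cj α κ c z) (cj α κ a x), ← (hcc x z).eq]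
              simp only [mul_assoc]
          _ = α a - 1 := by rw [h2, ← H.delta_two ha, h1]
    have e : κ x⁻¹ * (cj α κ c z + cj α κ c z⁻¹) =
        (κ x * cj α κ c z + κ x⁻¹ * cj α κ c z⁻¹) + (κ x + κ x⁻¹) * cj α κ c z := by
      rw [mul_add, add_mul]
      have h0 : κ x * cj α κ c z + κ x * cj α κ c z = 0 := by
        rw [← two_mul, H.two_eq_zero, zero_mul]
      calc κ x⁻¹ * cj α κ c z + κ x⁻¹ * cj α κ c z⁻¹
          = κ x⁻¹ * cj α κ c z + κ x⁻¹ * cj α κ c z⁻¹ + (κ x * cj α κ c z + κ x * cj α κ c z) := by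
            rw [h0, add_zero]
        _ = _ := by abel
    rw [e, hmain, H.tau_of_rel ha hrel x]
    exact (((H.comm_kappa ha g x).mul_right (H.comm_kappa hac g z)).add_right
      ((H.comm_kappa ha g x⁻¹).mul_right (H.comm_kappa hac g z⁻¹))).symm.add_left
      ((((H.comm_kappa ha g x).add_right (H.comm_kappa ha g x⁻¹)).mul_right
        (H.comm_kappa hc g z)).symm)
  obtain ⟨x₀, hx₀⟩ := H.exists_not_central hnt
  have hkill : ∀ z g, (cj α κ c z + cj α κ c z⁻¹) * κ g = cj α κ c z + cj α κ c z⁻¹ := by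
    intro z
    set T := cj α κ c z + cj α κ c z⁻¹ with hT
    have hTc : ∀ g, Commute (κ g) T := fun g => (H.comm_kappa hc g z).add_right (H.comm_kappa hc g z⁻¹)
    let N : Subgroup K :=
      { carrier := {k | T * κ k = T}
        one_mem' := by show _ = _; rw [map_one, mul_one]
        mul_mem' := fun {k l} hk hl => by
          show _ = _
          rw [map_mul, ← mul_assoc, hk, hl]
        inv_mem' := fun {k} hk => by
          show _ = _
          conv_lhs => rw [← hk]
          rw [mul_assoc, ← map_mul, mul_inv_cancel, map_one, mul_one] }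
    have hN : N.Normal := by
      refine ⟨fun k hk g => ?_⟩
      show _ = _
      rw [map_mul, map_mul, ← mul_assoc, ← mul_assoc, ← (hTc g).eq, mul_assoc (κ g) T, hk, (hTc g).eq,
        mul_assoc, ← map_mul, mul_inv_cancel, map_one, mul_one]
    have htop : N = ⊤ := by
      refine H.eq_top_of_commutators hN hx₀ fun g => ?_
      show _ = _
      have h1 := (hU x₀⁻¹ z g).eq
      rw [inv_inv, ← hT] at h1
      have h2 : T * κ (g * x₀ * g⁻¹) = T * κ x₀ := by
        rw [map_mul, map_mul, ← mul_assoc, ← mul_assoc, ← (hTc g).eq, mul_assoc (κ g) T,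
          ← (hTc x₀).eq, ← h1, mul_assoc, ← map_mul, mul_inv_cancel, map_one, mul_one]
      rw [commutatorElement_def, map_mul, ← mul_assoc, h2, mul_assoc, ← map_mul, mul_inv_cancel,
        map_one, mul_one]
    exact fun g => (show g ∈ N from htop ▸ Subgroup.mem_top g)
  have hker : κ.ker = ⊤ := by
    refine H.eq_top_of_p (MonoidHom.normal_ker κ) fun z => ⟨2, ?_⟩
    have h1 := hkill z z
    rw [← H.tau_of_rel hc hrelc z] at h1
    set u := κ z with hu
    have hui : κ z⁻¹ * u = 1 := by rw [hu, ← map_mul, inv_mul_cancel, map_one]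
    have h2 : (u * u + 1) * (u - 1) = 0 := by
      have h3 : (u + κ z⁻¹) * (u - 1) = 0 := by rw [mul_sub, mul_one, h1, sub_self]
      have h4 : u * u + 1 = u * (u + κ z⁻¹) := by
        rw [mul_add, hu, ← map_mul κ z z⁻¹, mul_inv_cancel, map_one]
      rw [h4, mul_assoc, h3, mul_zero]
    have h5 : u * u + 1 = (u - 1) ^ 2 := by
      rw [sub_one_pow_p H.char, pow_two, sub_eq_add' H.two_eq_zero]
    rw [h5, ← pow_succ] at h2
    have h6 : (u - 1) ^ (2 * 2) = 0 := by rw [pow_succ, h2, zero_mul]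
    rw [pow_mul, sub_one_pow_p H.char, sub_one_pow_p H.char, ← pow_mul, sub_eq_zero] at h6
    rw [MonoidHom.mem_ker, map_pow]
    exact h6
  obtain ⟨x, hx⟩ := hnt
  exact hx (show x ∈ κ.ker from hker ▸ Subgroup.mem_top x)

theorem commute_of_central (b : A) (f : K → K) (hf : ∀ x, cj α κ b x = κ (f x))
    (hcen : ∀ x, f x * x⁻¹ ∈ centre κ) (x₀ : K) : Commute (α b) (κ x₀) := by
  have hd : ∀ x, κ (f x * x⁻¹) * κ x = cj α κ b x := fun x => by
    rw [← map_mul, inv_mul_cancel_right, hf]
  let g : K →* AddMonoid.End V :=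
    { toFun := fun x => κ (f x * x⁻¹)
      map_one' := by
        have := hd 1
        rw [map_one, map_one, mul_one] at this
        exact this
      map_mul' := fun x y => by
        have hu : IsUnit (κ (x * y)) := (Group.isUnit (x * y)).map κ
        refine hu.mul_right_cancel ?_
        rw [hd, map_mul, ← hd x, ← hd y, map_mul κ x y]
        have hc := (hcen y x).eq
        generalize κ (f x * x⁻¹) = dx at *
        generalize κ (f y * y⁻¹) = dy at *
        calc dx * κ x * (dy * κ y) = dx * (κ x * dy) * κ y := by simp only [mul_assoc]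
          _ = _ := by rw [← hc]; simp only [mul_assoc] }
  have hg := H.trivial_of_comm g (fun x y => hcen x _) x₀
  have h1 := hd x₀
  rw [show κ (f x₀ * x₀⁻¹) = 1 from hg, one_mul, H.cj_two] at h1
  show α b * κ x₀ = κ x₀ * α b
  conv_rhs => rw [h1]
  rw [mul_assoc _ (α b) (α b), H.alpha_sq, mul_one]

/-- A moved component cannot have two conjugates either. -/
theorem rel_two_false (hnt : ∃ x, κ x ≠ 1) (ha : ¬ Norm α κ a) (hrel : H.fixDelta ha = ⊤)
    (M : Subgroup A) (hMN : ∀ m ∈ M, Norm α κ m) (hMa : ∀ m ∈ M, (α m - 1) * (α a - 1) = 0)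
    (hMM : ∀ m ∈ M, ∀ m' ∈ M, (α m - 1) * (α m' - 1) = 0)
    (hfaith : ∀ b, (∀ x, Commute (α b) (κ x)) → α b = 1)
    (hbound : Nat.card ↥(α.ker ⊓ M) * Nat.card V ≤ 2 * (Nat.card M * Nat.card (fixSub α M)))
    (hbound1 : (∀ m ∈ M, α m = 1) → Nat.card V ≤ 2 * Nat.card {v : V // α a v = v}) : False := by
  classical
  haveI : Fact (Nat.Prime 2) := ⟨H.prime⟩
  have happ : ∀ (r s : AddMonoid.End V) (v : V), (r * s) v = r (s v) := fun _ _ _ => rfl
  let C : AddSubgroup V :=
    { carrier := {v | (∀ x, κ x v = v) ∧ ∀ x, cj α κ a x v = v}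
      zero_mem' := ⟨fun x => map_zero _, fun x => map_zero _⟩
      add_mem' := fun {u v} hu hv => ⟨fun x => by rw [map_add, hu.1, hv.1],
        fun x => by rw [map_add, hu.2, hv.2]⟩
      neg_mem' := fun {u} hu => ⟨fun x => by rw [map_neg, hu.1], fun x => by rw [map_neg, hu.2]⟩ }
  have hCκ : ∀ x, ∀ v ∈ C, κ x v ∈ C := fun x v hv => (hv.1 x).symm ▸ hv
  have hca : ∀ x v, cj α κ a x (α a v) = α a (κ x v) := fun x v => by
    rw [H.cj_two]
    show (α a * κ x * α a) (α a v) = _
    rw [happ, happ, ← happ (α a) (α a) v, H.alpha_sq]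
    rfl
  have hca' : ∀ x v, κ x (α a v) = α a (cj α κ a x v) := fun x v => by
    rw [H.cj_two]
    show κ x (α a v) = α a ((α a * κ x * α a) v)
    rw [happ, happ, ← happ (α a) (α a), H.alpha_sq]
    rfl
  have hCa : ∀ v ∈ C, α a v ∈ C := fun v hv =>
    ⟨fun x => by rw [hca', hv.2], fun x => by rw [hca, hv.1]⟩
  have hmcomm : ∀ m ∈ M, ∀ x, ∃ y, (∀ v, κ x (α m v) = α m (κ y v)) ∧
      ∀ v, cj α κ a x (α m v) = α m (cj α κ a y v) := by
    intro m hm x
    obtain ⟨y, hy⟩ := hMN m hm x
    rw [H.cj_two] at hy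
    have h1 : κ x * α m = α m * κ y := by
      rw [← hy, ← mul_assoc, ← mul_assoc, H.alpha_sq, one_mul]
    refine ⟨y, fun v => DFunLike.congr_fun h1 v, fun v => ?_⟩
    have h2 : cj α κ a x * α m = α m * cj α κ a y := by
      rw [H.cj_two, H.cj_two, mul_assoc, (alpha_comm a m).eq, ← mul_assoc, mul_assoc (α a), h1,
        ← mul_assoc, (alpha_comm a m).eq]
      simp only [mul_assoc]
    exact DFunLike.congr_fun h2 v
  have hCm : ∀ m ∈ M, ∀ v ∈ C, α m v ∈ C := by
    intro m hm v hv
    refine ⟨fun x => ?_, fun x => ?_⟩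
    · obtain ⟨y, h1, -⟩ := hmcomm m hm x
      rw [h1, hv.1]
    · obtain ⟨y, -, h2⟩ := hmcomm m hm x
      rw [h2, hv.2]
  have hCtop : C ≠ ⊤ := by
    intro h
    obtain ⟨x, hx⟩ := hnt
    exact hx (DFunLike.ext _ _ fun v => ((h ▸ AddSubgroup.mem_top v : v ∈ C)).1 x)
  let P : AddSubgroup V → Prop := fun W =>
    C < W ∧ (∀ x, ∀ v ∈ W, κ x v ∈ W) ∧ ∀ v ∈ W, α a v ∈ W
  obtain ⟨U, hU⟩ := Set.Finite.exists_minimal (s := {W | P W}) (Set.toFinite _)
    ⟨⊤, hCtop.lt_top, fun _ _ _ => trivial, fun _ _ => trivial⟩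
  obtain ⟨⟨hCU, hUκ, hUa⟩, hUmin⟩ := hU
  have happ' : ∀ (r t : AddMonoid.End (U ⧸ C.addSubgroupOf U)) (v : U ⧸ C.addSubgroupOf U),
      (r * t) v = r (t v) := fun _ _ _ => rfl
  let κ' : K →* AddMonoid.End (U ⧸ C.addSubgroupOf U) :=
    { toFun := fun x => descEnd (κ x) (hUκ x) (hCκ x)
      map_one' := descEnd_ext fun u => by
        rw [descEnd_mk]
        exact congrArg _ (Subtype.ext (DFunLike.congr_fun (map_one κ) (u : V)))
      map_mul' := fun x y => descEnd_ext fun u => by
        rw [descEnd_mk]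
        exact congrArg _ (Subtype.ext (DFunLike.congr_fun (map_mul κ x y) (u : V))) }
  let a' : AddMonoid.End (U ⧸ C.addSubgroupOf U) := descEnd (α a) hUa hCa
  have hκ'mk : ∀ x (u : U), κ' x (QuotientAddGroup.mk u) = QuotientAddGroup.mk ⟨κ x u, hUκ x u u.2⟩ :=
    fun x u => rfl
  have ha'mk : ∀ u : U, a' (QuotientAddGroup.mk u) = QuotientAddGroup.mk ⟨α a u, hUa u u.2⟩ := fun u => rfl
  have hcjU : ∀ x, ∀ v ∈ U, cj α κ a x v ∈ U := fun x v hv => by
    rw [H.cj_two]; exact hUa _ (hUκ x _ (hUa v hv))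
  have hacj : ∀ x (u : U), (a' * κ' x * a') (QuotientAddGroup.mk u) =
      QuotientAddGroup.mk ⟨cj α κ a x u, hcjU x u u.2⟩ := fun x u =>
    congrArg _ (Subtype.ext (DFunLike.congr_fun (H.cj_two a x).symm (u : V)))
  have hnt' : ∃ x, κ' x ≠ 1 := by
    by_contra hno
    push Not at hno
    have hmod : ∀ x, ∀ v ∈ U, κ x v - v ∈ C := by
      intro x v hv
      have h := DFunLike.congr_fun (hno x) (QuotientAddGroup.mk (⟨v, hv⟩ : U))
      rw [hκ'mk] at h
      change QuotientAddGroup.mk (⟨κ x v, hUκ x v hv⟩ : U) = QuotientAddGroup.mk (⟨v, hv⟩ : U) at h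
      rw [QuotientAddGroup.eq_iff_sub_mem, AddSubgroup.mem_addSubgroupOf] at h
      exact h
    let g : K →* Function.End U :=
      { toFun := fun x u => ⟨κ x u, hUκ x u u.2⟩
        map_one' := funext fun u => Subtype.ext (by show κ 1 (u : V) = u; rw [map_one]; rfl)
        map_mul' := fun x y => funext fun u => Subtype.ext (by
          show κ (x * y) (u : V) = κ x (κ y u); rw [map_mul]; rfl) }
    have hgc : ∀ x y, Commute (g x) (g y) := fun x y => funext fun u => Subtype.ext (by
      show κ x (κ y u) = κ y (κ x u)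
      have h1 := (hmod y u u.2).1 x
      have h2 := (hmod x u u.2).1 y
      rw [map_sub, sub_eq_iff_eq_add] at h1 h2
      rw [h1, h2]; abel)
    refine hCU.ne (le_antisymm hCU.le fun v hv => ?_)
    have hfix : ∀ x, ∀ v ∈ U, κ x v = v := fun x v hv =>
      congrArg Subtype.val (congrFun (H.trivial_of_comm g hgc x) ⟨v, hv⟩)
    refine ⟨fun x => hfix x v hv, fun x => ?_⟩
    rw [H.cj_two, happ, happ, hfix x _ (hUa v hv), ← happ, H.alpha_sq]
    rfl
  have hmU : ∀ m ∈ M, ∀ v ∈ U, α m v ∈ U := by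
    intro m hm
    let W : AddSubgroup V := U ⊓ U.comap (α m)
    have hW : ∀ v, v ∈ W ↔ v ∈ U ∧ α m v ∈ U := fun v => Iff.rfl
    have hCW : C ≤ W := fun v hv => (hW v).mpr ⟨hCU.le hv, hCU.le (hCm m hm v hv)⟩
    have hex : ∃ u ∈ U, (α a - 1) u ∉ C := by
      by_contra hno
      push Not at hno
      obtain ⟨x, hx⟩ := hnt'
      refine hx (H.trivial_of_comm κ' (fun x y => ?_) x)
      have ha1 : a' = 1 := descEnd_ext fun u => by
        rw [descEnd_mk]
        show QuotientAddGroup.mk _ = QuotientAddGroup.mk u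
        rw [QuotientAddGroup.eq_iff_sub_mem, AddSubgroup.mem_addSubgroupOf]
        exact hno u u.2
      have h2 : Commute (κ' x) (a' * κ' y * a') := descEnd_ext fun u => by
        rw [happ', hacj, hκ'mk, happ', hκ'mk, hacj]
        exact congrArg _ (Subtype.ext (DFunLike.congr_fun (H.comm_kappa ha x y).eq (u : V)))
      rwa [ha1, one_mul, mul_one] at h2
    obtain ⟨u, hu, huC⟩ := hex
    have hew : (α a - 1) u ∈ W := by
      have hwU : (α a - 1) u ∈ U := sub_mem (hUa u hu) hu
      refine (hW _).mpr ⟨hwU, ?_⟩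
      have h := DFunLike.congr_fun (hMa m hm) u
      change α m ((α a - 1) u) - (α a - 1) u = 0 at h
      rw [sub_eq_zero.mp h]
      exact hwU
    have hPW : P W := by
      refine ⟨lt_of_le_of_ne hCW fun h => huC (h ▸ hew), fun x v hv => ?_, fun v hv => ?_⟩
      · obtain ⟨hv1, hv2⟩ := (hW v).mp hv
        refine (hW _).mpr ⟨hUκ x v hv1, ?_⟩
        obtain ⟨y, hy⟩ := hMN m hm x
        rw [H.cj_two] at hy
        have h1 : α m * κ x = κ y * α m := by
          rw [← hy, mul_assoc _ (α m) (α m), H.alpha_sq, mul_one]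
        rw [show α m (κ x v) = κ y (α m v) from DFunLike.congr_fun h1 v]
        exact hUκ y _ hv2
      · obtain ⟨hv1, hv2⟩ := (hW v).mp hv
        refine (hW _).mpr ⟨hUa v hv1, ?_⟩
        rw [apply_comm]
        exact hUa _ hv2
    intro v hv
    exact ((hW v).mp (hUmin hPW inf_le_left hv)).2
  let μ' : M →* AddMonoid.End (U ⧸ C.addSubgroupOf U) :=
    { toFun := fun m => descEnd (α (m : A)) (hmU m m.2) (hCm m m.2)
      map_one' := descEnd_ext fun u => by
        rw [descEnd_mk]
        exact congrArg _ (Subtype.ext (DFunLike.congr_fun (map_one α) (u : V)))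
      map_mul' := fun m n => descEnd_ext fun u => by
        rw [descEnd_mk]
        exact congrArg _ (Subtype.ext (DFunLike.congr_fun (map_mul α (m : A) (n : A)) (u : V))) }
  have hμmk : ∀ (m : M) (u : U), μ' m (QuotientAddGroup.mk u) =
      QuotientAddGroup.mk ⟨α (m : A) u, hmU m m.2 u u.2⟩ := fun m u => rfl
  have hker : ∀ m : M, μ' m = 1 → α (m : A) = 1 := by
    intro m hm
    choose f hf using hMN m m.2
    refine hfaith _ fun x₀ => H.commute_of_central m f hf (fun x => ?_) x₀
    have hfx : κ' (f x * x⁻¹) = 1 := by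
      have h1 : κ' (f x) = μ' m * κ' x * μ' m := descEnd_ext fun u => by
        show _ = μ' m (κ' x (μ' m (QuotientAddGroup.mk u)))
        refine congrArg _ (Subtype.ext ?_)
        show κ (f x) (u : V) = _
        rw [← hf x, H.cj_two]
        rfl
      rw [map_mul, h1, hm, one_mul, mul_one, ← map_mul, mul_inv_cancel, map_one]
    intro y
    by_contra hc
    obtain ⟨z, hz⟩ := hnt'
    have htop := H.simple κ'.ker (MonoidHom.normal_ker κ') _ hfx ⟨y, hc⟩
    exact hz (show z ∈ κ'.ker from htop ▸ Subgroup.mem_top z)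
  have hirr : ∀ W : AddSubgroup (U ⧸ C.addSubgroupOf U), (∀ x, ∀ v ∈ W, κ' x v ∈ W) →
      (∀ v ∈ W, a' v ∈ W) → W = ⊥ ∨ W = ⊤ := by
    intro W hW1 hW2
    let W₀ : AddSubgroup V := (W.comap (QuotientAddGroup.mk' _)).map U.subtype
    have hW₀ : ∀ v, v ∈ W₀ ↔ ∃ h : v ∈ U, QuotientAddGroup.mk (⟨v, h⟩ : U) ∈ W := by
      intro v
      constructor
      · rintro ⟨u, hu, rfl⟩; exact ⟨u.2, hu⟩
      · rintro ⟨h, hv⟩; exact ⟨⟨v, h⟩, hv, rfl⟩
    have hCW₀ : C ≤ W₀ := fun v hv => (hW₀ v).mpr ⟨hCU.le hv, by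
      rw [(QuotientAddGroup.eq_zero_iff _).mpr (AddSubgroup.mem_addSubgroupOf.mpr hv)]
      exact zero_mem W⟩
    by_cases heq : C = W₀
    · left
      rw [eq_bot_iff]
      intro q hq
      induction q using QuotientAddGroup.induction_on with
      | H u =>
        have : (u : V) ∈ C := heq ▸ (hW₀ _).mpr ⟨u.2, hq⟩
        exact AddSubgroup.mem_bot.mpr ((QuotientAddGroup.eq_zero_iff _).mpr (AddSubgroup.mem_addSubgroupOf.mpr this))
    · right
      have hPW : P W₀ := by
        refine ⟨lt_of_le_of_ne hCW₀ heq, fun x v hv => ?_, fun v hv => ?_⟩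
        · obtain ⟨h, hv'⟩ := (hW₀ v).mp hv
          exact (hW₀ _).mpr ⟨hUκ x v h, hW1 x _ hv'⟩
        · obtain ⟨h, hv'⟩ := (hW₀ v).mp hv
          exact (hW₀ _).mpr ⟨hUa v h, hW2 _ hv'⟩
      have hle := hUmin hPW (fun v hv => ((hW₀ v).mp hv).1)
      rw [eq_top_iff]
      intro q _
      induction q using QuotientAddGroup.induction_on with
      | H u =>
        obtain ⟨h, hq⟩ := (hW₀ _).mp (hle u.2)
        exact hq
  have hlift : ∀ (r : AddMonoid.End V) (r' : AddMonoid.End (U ⧸ C.addSubgroupOf U)),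
      (∀ u : U, ∃ h : r u ∈ U, r' (QuotientAddGroup.mk u) = QuotientAddGroup.mk ⟨r u, h⟩) →
      r = 0 → r' = 0 := by
    intro r r' h h0
    refine descEnd_ext fun u => ?_
    obtain ⟨h1, h2⟩ := h u
    rw [h2]
    refine (QuotientAddGroup.eq_zero_iff _).mpr (AddSubgroup.mem_addSubgroupOf.mpr ?_)
    show r u ∈ C
    rw [h0]
    exact zero_mem C
  refine module_contra H.perfect κ' ?_ hnt' a' ?_ ?_ ?_ hirr
    (ι := Set.range μ') (fun m => (m : AddMonoid.End (U ⧸ C.addSubgroupOf U)))
    Subtype.val_injective ?_ ?_ ?_ ?_ ?_ ?_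
  · refine descEnd_ext fun u => ?_
    have h : (u : U) + u = 0 := Subtype.ext (by
      have := DFunLike.congr_fun H.two_eq_zero (u : V)
      rw [← one_add_one_eq_two] at this
      exact this)
    rw [← one_add_one_eq_two]
    show QuotientAddGroup.mk u + QuotientAddGroup.mk u = 0
    rw [← QuotientAddGroup.mk_add, h]
    rfl
  · refine descEnd_ext fun u => ?_
    show a' (a' (QuotientAddGroup.mk u)) = QuotientAddGroup.mk u
    rw [ha'mk, ha'mk]
    exact congrArg _ (Subtype.ext (DFunLike.congr_fun (H.alpha_sq a) (u : V)))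
  · intro x y
    refine descEnd_ext fun u => ?_
    rw [happ', hacj, hκ'mk, happ', hκ'mk, hacj]
    exact congrArg _ (Subtype.ext (DFunLike.congr_fun (H.comm_kappa ha x y).eq (u : V)))
  · intro x
    have h : H.delta ha x * (α a - 1) = α a - 1 :=
      (show x ∈ H.fixDelta ha from hrel ▸ Subgroup.mem_top x)
    rw [H.delta_two] at h
    refine descEnd_ext fun u => ?_
    show κ' x ((a' * κ' x * a') ((a' - 1) (QuotientAddGroup.mk u))) = (a' - 1) (QuotientAddGroup.mk u)
    have hsub : (a' - 1) (QuotientAddGroup.mk u) = QuotientAddGroup.mk ⟨(α a - 1) (u : V),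
        sub_mem (hUa u u.2) u.2⟩ := rfl
    rw [hsub, hacj, hκ'mk]
    exact congrArg _ (Subtype.ext (DFunLike.congr_fun h (u : V)))
  · rintro ⟨_, m, rfl⟩
    show μ' m * μ' m = 1
    rw [← map_mul, show m * m = 1 from Subtype.ext (by rw [Subgroup.coe_mul, ← pow_two, H.exp]; rfl), map_one]
  · rintro ⟨_, m, rfl⟩ x
    obtain ⟨y, hy⟩ := hMN m m.2 x
    refine ⟨y, descEnd_ext fun u => ?_⟩
    show μ' m (κ' x (μ' m (QuotientAddGroup.mk u))) = κ' y (QuotientAddGroup.mk u)
    rw [hμmk, hκ'mk, hμmk, hκ'mk]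
    refine congrArg _ (Subtype.ext ?_)
    show _ = κ y (u : V)
    rw [← hy, H.cj_two]
    rfl
  · rintro ⟨_, m, rfl⟩
    refine hlift ((α (m : A) - 1) * (α a - 1)) _ (fun u => ⟨?_, rfl⟩) (hMa m m.2)
    exact sub_mem (hmU m m.2 _ (sub_mem (hUa u u.2) u.2)) (sub_mem (hUa u u.2) u.2)
  · rintro ⟨_, m, rfl⟩ ⟨_, m', rfl⟩
    refine hlift ((α (m : A) - 1) * (α (m' : A) - 1)) _ (fun u => ⟨?_, rfl⟩) (hMM m m.2 m' m'.2)
    exact sub_mem (hmU m m.2 _ (sub_mem (hmU m' m'.2 u u.2) u.2)) (sub_mem (hmU m' m'.2 u u.2) u.2)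
  · let S' : AddSubgroup (U ⧸ C.addSubgroupOf U) :=
      { carrier := {v | ∀ m : Set.range μ', (m : AddMonoid.End (U ⧸ C.addSubgroupOf U)) v = v}
        zero_mem' := fun m => map_zero _
        add_mem' := fun {u v} hu hv m => by rw [map_add, hu m, hv m]
        neg_mem' := fun {u} hu m => by rw [map_neg, hu m] }
    have h1 := card_section_le U C (fixSub α M) S' (fun u hu => by
      rintro ⟨_, m, rfl⟩
      show μ' m (QuotientAddGroup.mk u) = _
      rw [hμmk]
      exact congrArg _ (Subtype.ext (hu m m.2)))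
    have hM : Nat.card M ≤ Nat.card ↥(α.ker ⊓ M) * Nat.card (Set.range μ') := by
      rw [← Subgroup.card_mul_index μ'.ker]
      refine Nat.mul_le_mul ?_ ?_
      · refine Nat.card_le_card_of_injective
          (fun m => (⟨((m : M) : A), hker m m.2, (m : M).2⟩ : ↥(α.ker ⊓ M))) ?_
        intro m m' h
        exact Subtype.ext (Subtype.ext (congrArg Subtype.val h :))
      · refine Nat.card_le_card_of_injective
          (fun q => (⟨μ'.toHomUnits.range.subtype ⟨μ'.toHomUnits q.out, q.out, rfl⟩, q.out, rfl⟩ :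
            Set.range μ')) ?_
        intro q r h
        have h' : μ' q.out = μ' r.out := congrArg Subtype.val h
        rw [← QuotientGroup.out_eq' q, ← QuotientGroup.out_eq' r, QuotientGroup.eq, MonoidHom.mem_ker,
          map_mul, ← h', ← map_mul, inv_mul_cancel, map_one]
    have hpos : 0 < Nat.card ↥(α.ker ⊓ M) := Nat.card_pos
    have h2 : Nat.card V ≤ 2 * Nat.card (Set.range μ') * Nat.card (fixSub α M) := by
      refine Nat.le_of_mul_le_mul_left (hbound.trans ?_) hpos
      calc 2 * (Nat.card M * Nat.card (fixSub α M))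
          ≤ 2 * (Nat.card ↥(α.ker ⊓ M) * Nat.card (Set.range μ') * Nat.card (fixSub α M)) :=
            Nat.mul_le_mul_left _ (Nat.mul_le_mul_right _ hM)
        _ = _ := by ring
    refine Nat.le_of_mul_le_mul_right (h1.trans ((Nat.mul_le_mul_left _ h2).trans (le_of_eq ?_))) Nat.card_pos
    change Nat.card S' * (2 * Nat.card (Set.range μ') * Nat.card (fixSub α M)) =
      2 * Nat.card (Set.range μ') * Nat.card S' * Nat.card (fixSub α M)
    ring
  · intro htriv
    let S : AddSubgroup V :=
      { carrier := {v | α a v = v}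
        zero_mem' := map_zero _
        add_mem' := fun {u v} hu hv => by
          show α a (u + v) = u + v
          rw [map_add, show α a u = u from hu, show α a v = v from hv]
        neg_mem' := fun {u} hu => by show α a (-u) = -u; rw [map_neg, show α a u = u from hu] }
    let S' : AddSubgroup (U ⧸ C.addSubgroupOf U) :=
      { carrier := {v | a' v = v}
        zero_mem' := map_zero _
        add_mem' := fun {u v} hu hv => by
          show a' (u + v) = u + v
          rw [map_add, show a' u = u from hu, show a' v = v from hv]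
        neg_mem' := fun {u} hu => by show a' (-u) = -u; rw [map_neg, show a' u = u from hu] }
    have h1 := card_section_le U C S S' (fun u hu => by
      show a' (QuotientAddGroup.mk u) = _
      rw [ha'mk]
      exact congrArg _ (Subtype.ext hu))
    have h2 : Nat.card V ≤ 2 * Nat.card S :=
      hbound1 fun m hm => hker ⟨m, hm⟩ (htriv ⟨_, ⟨m, hm⟩, rfl⟩)
    refine Nat.le_of_mul_le_mul_right (h1.trans ((Nat.mul_le_mul_left _ h2).trans (le_of_eq ?_))) Nat.card_pos
    show Nat.card S' * _ = 2 * Nat.card S' * _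
    ring

end Hyp

end CfsgLib.PGV
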