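import Cfsg.Agent.PGV.Odd
import Cfsg.Agent.PGV.Two

/-!
The P(G,V)-theorem in abstract form.
-/

set_option linter.unusedSectionVars false

namespace CfsgLib.PGV

open scoped commutatorElement

universe u v w

section Restrict

variable {V : Type*} [AddCommGroup V]

/-- Restriction of a representation to an invariant subgroup. -/
def restrictHom {M : Type*} [Monoid M] (f : M →* AddMonoid.End V) (W : AddSubgroup V)
    (h : ∀ g, ∀ v ∈ W, f g v ∈ W) : M →* AddMonoid.End W where
  toFun g :=
    { toFun := fun v => ⟨f g v, h g v v.2⟩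
      map_zero' := Subtype.ext (map_zero (f g))
      map_add' := fun u v => Subtype.ext (map_add (f g) _ _) }
  map_one' := DFunLike.ext _ _ fun (v : W) => Subtype.ext (DFunLike.congr_fun (map_one f) (v : V))
  map_mul' g g' := DFunLike.ext _ _ fun (v : W) => Subtype.ext (DFunLike.congr_fun (map_mul f g g') (v : V))

theorem restrictHom_apply {M : Type*} [Monoid M] (f : M →* AddMonoid.End V) (W : AddSubgroup V)
    (h : ∀ g, ∀ v ∈ W, f g v ∈ W) (g : M) (v : W) : ((restrictHom f W h g) v : V) = f g v := rfl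

end Restrict

section Lemmas

variable {V : Type*} [AddCommGroup V] [Finite V]
variable {A : Type*} [CommGroup A] [Finite A]
variable {K : Type*} [Group K] [Finite K]
variable {p : ℕ} {α : A →* AddMonoid.End V} {κ : K →* AddMonoid.End V}

/-- The normalizing elements. -/
def normSub (H : Hyp p α κ) : Subgroup A where
  carrier := {a | Norm α κ a}
  one_mem' := H.norm_one
  mul_mem' := fun ha hb => H.norm_mul ha hb
  inv_mem' := fun ha => H.norm_inv ha

theorem meas_comp_subtype (B : Subgroup A) (B' : Subgroup B) :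
    meas (α.comp B.subtype) B' = meas α (B'.map B.subtype) := by
  rw [meas, meas, Subgroup.card_map_of_injective B.subtype_injective]
  congr 1
  refine Nat.card_congr (Equiv.subtypeEquivRight fun v => ⟨?_, ?_⟩)
  · rintro h _ ⟨b, hb, rfl⟩; exact h b hb
  · intro h b hb; exact h _ ⟨b, hb, rfl⟩

theorem meas_top_comp_subtype (B : Subgroup A) : meas (α.comp B.subtype) ⊤ = meas α B := by
  rw [meas_comp_subtype, ← MonoidHom.range_eq_map, Subgroup.range_subtype]

/-- Offenders stay offenders on invariant subgroups. -/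
theorem meas_restrict (hmax : ∀ B : Subgroup A, meas α B ≤ meas α ⊤) (W : AddSubgroup V)
    (hW : ∀ a, ∀ v ∈ W, α a v ∈ W) (B : Subgroup A) :
    meas (restrictHom α W hW) B ≤ meas (restrictHom α W hW) ⊤ := by
  have hcard : ∀ B' : Subgroup A, Nat.card (fixSub (restrictHom α W hW) B') = Nat.card ↥(fixSub α B' ⊓ W) := by
    intro B'
    refine Nat.card_congr
      { toFun := fun v => ⟨(v : W), fun b hb => congrArg Subtype.val (v.2 b hb), (v : W).2⟩
        invFun := fun v => ⟨⟨(v : V), v.2.2⟩, fun b hb => Subtype.ext (v.2.1 b hb)⟩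
        left_inv := fun v => rfl
        right_inv := fun v => rfl }
  rw [meas, meas, hcard, hcard]
  have h1 := addCard_mul_le (fixSub α B ⊓ W) (fixSub α ⊤)
  have h2 : fixSub α B ⊓ W ⊓ fixSub α ⊤ = fixSub α ⊤ ⊓ W := by
    refine le_antisymm (le_inf inf_le_right (inf_le_left.trans inf_le_right)) ?_
    exact le_inf (le_inf (inf_le_left.trans (fixSub_anti α le_top)) inf_le_right) inf_le_left
  rw [h2] at h1
  have h3 : Nat.card ↥((fixSub α B ⊓ W) ⊔ fixSub α ⊤) ≤ Nat.card (fixSub α B) :=
    Nat.card_le_card_of_injective _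
      (AddSubgroup.inclusion_injective (sup_le inf_le_left (fixSub_anti α le_top)))
  have h4 : Nat.card (fixSub α ⊤) * (Nat.card B * Nat.card ↥(fixSub α B ⊓ W)) ≤
      Nat.card (fixSub α ⊤) * (Nat.card (⊤ : Subgroup A) * Nat.card ↥(fixSub α ⊤ ⊓ W)) := by
    calc Nat.card (fixSub α ⊤) * (Nat.card B * Nat.card ↥(fixSub α B ⊓ W))
        = Nat.card B * (Nat.card ↥(fixSub α B ⊓ W) * Nat.card (fixSub α ⊤)) := by ring
      _ ≤ Nat.card B * (Nat.card ↥(fixSub α ⊤ ⊓ W) * Nat.card (fixSub α B)) :=
          Nat.mul_le_mul_left _ (h1.trans (Nat.mul_le_mul_left _ h3))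
      _ = meas α B * Nat.card ↥(fixSub α ⊤ ⊓ W) := by rw [meas]; ring
      _ ≤ meas α ⊤ * Nat.card ↥(fixSub α ⊤ ⊓ W) := Nat.mul_le_mul_right _ (hmax B)
      _ = _ := by rw [meas]; ring
  exact Nat.le_of_mul_le_mul_left h4 Nat.card_pos

/-- A transvection gives the relation. -/
theorem Hyp.fixDelta_eq_top_of_transvection (H : Hyp p α κ) {a : A} (ha : ¬ Norm α κ a)
    (h : Nat.card V ≤ 2 * Nat.card {v : V // α a v = v}) : H.fixDelta ha = ⊤ := by
  classical
  set e : V →+ V := (α a - 1 : AddMonoid.End V) with he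
  have hker : Nat.card e.ker = Nat.card {v : V // α a v = v} :=
    Nat.card_congr (Equiv.subtypeEquivRight fun v => show α a v - v = 0 ↔ _ from sub_eq_zero)
  have hrange : Nat.card e.range ≤ 2 := by
    have h1 := AddSubgroup.card_eq_card_quotient_mul_card_addSubgroup e.ker
    rw [Nat.card_congr (QuotientAddGroup.quotientKerEquivRange e).toEquiv] at h1
    rw [← hker, h1] at h
    exact Nat.le_of_mul_le_mul_right h Nat.card_pos
  rw [eq_top_iff]
  intro x _
  show _ = _
  refine DFunLike.ext _ _ fun v => ?_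
  show H.delta ha x (e v) = e v
  have hmem : H.delta ha x (e v) ∈ e.range :=
    ⟨H.delta ha x v, DFunLike.congr_fun (H.delta_comm_sub ha x).eq v⟩
  by_contra hne
  by_cases hz : e v = 0
  · exact hne (by rw [hz, map_zero])
  have hz' : H.delta ha x (e v) ≠ 0 := by
    intro h0
    apply hz
    have h1 : H.delta ha x⁻¹ * H.delta ha x = 1 := by rw [← map_mul, inv_mul_cancel, map_one]
    have h2 : H.delta ha x⁻¹ (H.delta ha x (e v)) = e v := DFunLike.congr_fun h1 (e v)
    rw [← h2, h0, map_zero]
  haveI := Fintype.ofFinite e.range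
  have h3 : 2 < Fintype.card e.range := Fintype.two_lt_card_iff.mpr
    ⟨0, ⟨e v, v, rfl⟩, ⟨_, hmem⟩, fun h => hz (congrArg Subtype.val h).symm,
      fun h => hz' (congrArg Subtype.val h).symm, fun h => hne (congrArg Subtype.val h).symm⟩
  rw [← Nat.card_eq_fintype_card] at h3
  omega

end Lemmas

/-- The P(G,V)-theorem. -/
theorem main : ∀ (n : ℕ) {V : Type u} [AddCommGroup V] [Finite V] {A : Type v} [CommGroup A] [Finite A]
    {K : Type w} [Group K] [Finite K] {p : ℕ} {α : A →* AddMonoid.End V} {κ : K →* AddMonoid.End V},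
    Nat.card V + Nat.card A ≤ n → Hyp p α κ → (∀ B : Subgroup A, meas α B ≤ meas α ⊤) →
    ∀ a, Norm α κ a := by
  intro n
  induction n using Nat.strong_induction_on with
  | _ n ih =>
  intro V _ _ A _ _ K _ _ p α κ hn H hmax a₀
  classical
  haveI : Fact p.Prime := ⟨H.prime⟩
  by_contra ha₀
  have hnt : ∃ x, κ x ≠ 1 := by
    by_contra h
    push Not at h
    exact ha₀ fun x => ⟨1, by rw [cj_apply, h, mul_one, alpha_inv, map_one]⟩
  -- invariant proper subgroups are centralized
  have hI1 : ∀ W : AddSubgroup V, (∀ a, ∀ v ∈ W, α a v ∈ W) → (∀ x, ∀ v ∈ W, κ x v ∈ W) → W ≠ ⊤ →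
      ∀ x, ∀ v ∈ W, κ x v = v := by
    intro W hWα hWκ hWne
    let αW := restrictHom α W hWα
    let κW := restrictHom κ W hWκ
    have hcj : ∀ a x (v : W), ((cj αW κW a x) v : V) = cj α κ a x v := fun a x v => rfl
    have HW : Hyp p αW κW :=
      { prime := H.prime
        char := DFunLike.ext _ _ fun (v : W) => Subtype.ext (by
          have := DFunLike.congr_fun H.char (v : V)
          rw [AddMonoid.End.natCast_apply] at this
          show (((p : AddMonoid.End W) v : W) : V) = 0
          rw [AddMonoid.End.natCast_apply, AddSubgroup.coe_nsmul]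
          exact this)
        exp := H.exp
        perfect := H.perfect
        simple := fun N hN x hx ⟨y, hy⟩ => H.simple N hN x hx ⟨y, fun hc => hy
          (DFunLike.ext _ _ fun (v : W) => Subtype.ext (DFunLike.congr_fun hc.eq (v : V)))⟩
        conj := fun a => (H.conj a).imp
          (fun h x => (h x).imp fun y hy => DFunLike.ext _ _ fun (v : W) => Subtype.ext (DFunLike.congr_fun hy (v : V)))
          (fun h x y => DFunLike.ext _ _ fun (v : W) => Subtype.ext (DFunLike.congr_fun (h x y).eq (v : V))) }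
    have hlt : Nat.card W < Nat.card V := by
      refine lt_of_le_of_ne (Nat.card_le_card_of_injective _ Subtype.val_injective) fun h => hWne ?_
      exact AddSubgroup.eq_top_of_card_eq W h
    have hN := ih (Nat.card W + Nat.card A) (by omega) le_rfl HW (meas_restrict hmax W hWα) a₀⁻¹
    intro x v hv
    have hc : ∀ x y, Commute (κW x) (κW y) := by
      intro x y
      obtain ⟨z, hz⟩ := hN x
      refine DFunLike.ext _ _ fun v => Subtype.ext ?_
      show κ x (κ y v) = κ y (κ x v)
      have h1 : ∀ w : W, κ x (w : V) = cj α κ a₀ z (w : V) := by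
        intro w
        have h2 : cj αW κW a₀ z = κW x := by
          rw [cj_apply, ← hz, ← cj_mul, mul_inv_cancel, cj_one]
        exact (DFunLike.congr_fun h2 w ▸ hcj a₀ z w :)
      rw [h1 v, show κ x (κ y (v : V)) = cj α κ a₀ z (κ y v) from h1 ⟨κ y v, hWκ y v v.2⟩]
      exact DFunLike.congr_fun ((H.conj a₀).resolve_left ha₀ z y).eq (v : V)
    have := QuadData.perfect_comm_trivial H.perfect κW hc x
    exact congrArg Subtype.val (DFunLike.congr_fun this (⟨v, hv⟩ : W))
  -- elements centralizing the image of `κ` act trivially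
  have hI2 : ∀ b, (∀ x, Commute (α b) (κ x)) → α b = 1 := by
    intro b hb
    by_contra hne
    let e : AddMonoid.End V := α b - 1
    have heκ : ∀ x, Commute e (κ x) := fun x => (hb x).sub_left (Commute.one_left _)
    have heα : ∀ a, Commute e (α a) := fun a => (alpha_comm b a).sub_left (Commute.one_left _)
    let Wm : ℕ → AddSubgroup V := fun m => AddMonoidHom.ker (e ^ m : AddMonoid.End V)
    have hWm : ∀ m v, v ∈ Wm m ↔ (e ^ m) v = 0 := fun m v => Iff.rfl
    have hκinv : ∀ m x, ∀ v ∈ Wm m, κ x v ∈ Wm m := fun m x v hv => by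
      rw [hWm] at hv ⊢
      rw [show (e ^ m) (κ x v) = κ x ((e ^ m) v) from DFunLike.congr_fun ((heκ x).pow_left m).eq v, hv,
        map_zero]
    have hαinv : ∀ m a, ∀ v ∈ Wm m, α a v ∈ Wm m := fun m a v hv => by
      rw [hWm] at hv ⊢
      rw [show (e ^ m) (α a v) = α a ((e ^ m) v) from DFunLike.congr_fun ((heα a).pow_left m).eq v, hv,
        map_zero]
    have h1 : ∀ x, ∀ v, e v = 0 → κ x v = v := by
      intro x v hv
      refine hI1 (Wm 1) (hαinv 1) (hκinv 1) (fun h => hne ?_) x v ?_
      · rw [← sub_eq_zero]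
        refine DFunLike.ext _ _ fun u => ?_
        have := (hWm 1 u).mp (h ▸ AddSubgroup.mem_top u)
        rwa [pow_one] at this
      · rw [hWm, pow_one]; exact hv
    have hall : ∀ m x, ∀ v ∈ Wm m, κ x v = v := by
      intro m
      induction m with
      | zero =>
        intro x v hv
        rw [hWm, pow_zero] at hv
        rw [show v = 0 from hv, map_zero]
      | succ m ihm =>
        intro x v hv
        let g : K →* AddMonoid.End (Wm (m + 1)) := restrictHom κ _ (hκinv (m + 1))
        have hsub : ∀ x y, ∀ v ∈ Wm (m + 1), κ y (κ x v - v) = κ x v - v := by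
          intro x y v hv
          refine h1 y _ ?_
          rw [hWm, pow_succ] at hv
          have hev : e v ∈ Wm m := hv
          rw [map_sub, show e (κ x v) = κ x (e v) from DFunLike.congr_fun (heκ x).eq v,
            ihm x _ hev, sub_self]
        have hc : ∀ x y, Commute (g x) (g y) := fun x y => DFunLike.ext _ _ fun v => Subtype.ext (by
          show κ x (κ y v) = κ y (κ x v)
          have h2 := hsub y x v v.2
          have h3 := hsub x y v v.2
          rw [map_sub, sub_eq_iff_eq_add] at h2 h3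
          rw [h2, h3]; abel)
        exact congrArg Subtype.val
          (DFunLike.congr_fun (QuadData.perfect_comm_trivial H.perfect g hc x) (⟨v, hv⟩ : Wm (m + 1)))
    obtain ⟨x, hx⟩ := hnt
    refine hx (DFunLike.ext _ _ fun v => hall p x v ?_)
    rw [hWm, show e ^ p = 0 from sub_one_pow_eq_zero H.char H.exp b]
    rfl
  have hnc : ∀ m, α m ≠ 1 → ∃ x, ¬ Commute (α m) (κ x) := fun m hm => by
    by_contra h
    push Not at h
    exact hm (hI2 m h)
  have hfix_of_quad : ∀ {m a : A}, (α m - 1) * (α a - 1) = 0 → α m * (α a - 1) = α a - 1 := by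
    intro m a h
    rwa [sub_mul, one_mul, sub_eq_zero] at h
  obtain ⟨B, hB, hquad, hBtriv⟩ := exists_quadratic H.char H.exp hmax
  have hker : ∀ M : Subgroup A, Nat.card ↥(α.ker ⊓ M) * Nat.card V ≤ meas α ⊤ := by
    intro M
    refine le_trans (le_of_eq ?_) (hmax (α.ker ⊓ M))
    rw [meas, show fixSub α (α.ker ⊓ M) = ⊤ from eq_top_iff.mpr fun v _ b hb => by
      rw [show α b = 1 from hb.1]; rfl, AddSubgroup.card_top]
  have hac : ∀ {a : A}, p = 2 → ∀ c, ¬ Norm α κ c → ¬ Norm α κ (a * c) →
      ∀ i : ℕ, ¬ Norm α κ (c * a ^ i) := by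
    intro a hp c h1 h2 i
    rw [← Nat.div_add_mod i 2, pow_add, pow_mul, show a ^ 2 = 1 from hp ▸ H.exp a, one_pow, one_mul]
    rcases Nat.mod_two_eq_zero_or_one i with h | h <;> rw [h]
    · rwa [pow_zero, mul_one]
    · rwa [pow_one, mul_comm]
  by_cases hBtop : B = ⊤
  · subst hBtop
    have hq : ∀ m a, (α m - 1) * (α a - 1) = 0 := fun m a => hquad a m trivial
    by_cases hp : p = 2
    · subst hp
      let N : Subgroup A := normSub H
      have hsmall : ∀ a, ¬ Norm α κ a → (∀ c, Norm α κ c ∨ Norm α κ (a * c)) →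
          meas α ⊤ ≤ 2 * (Nat.card N * Nat.card (fixSub α ⊤)) := by
        intro a ha h
        rw [meas, ← mul_assoc]
        refine Nat.mul_le_mul_right _ ?_
        rw [Subgroup.card_top, show 2 = Nat.card Bool by simp, ← Nat.card_prod]
        refine Nat.card_le_card_of_injective
          (fun c => if hc : Norm α κ c then (false, ⟨c, hc⟩) else (true, (⟨a * c, (h c).resolve_left hc⟩ : N))) ?_
        intro c d hcd
        dsimp only at hcd
        split_ifs at hcd with h1 h2 <;> simp only [Prod.mk.injEq, Subtype.mk.injEq] at hcd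
        · exact congrArg Subtype.val hcd.2
        · exact absurd hcd.1 (by simp)
        · exact absurd hcd.1 (by simp)
        · exact mul_left_cancel (congrArg Subtype.val hcd.2)
      have htransv : ∀ a, ¬ Norm α κ a → (∀ c, Norm α κ c ∨ Norm α κ (a * c)) → (∀ m ∈ N, α m = 1) →
          Nat.card V ≤ 2 * Nat.card {v : V // α a v = v} := by
        intro a ha h hN
        have h1 : α.ker ⊓ N = N := inf_eq_right.mpr hN
        have h2 := (hker N).trans (hsmall a ha h)
        rw [h1] at h2
        have h3 : Nat.card V ≤ 2 * Nat.card (fixSub α ⊤) := by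
          refine Nat.le_of_mul_le_mul_left (h2.trans (le_of_eq ?_)) (Nat.card_pos (α := N))
          ring
        refine h3.trans (Nat.mul_le_mul_left _ ?_)
        exact Nat.card_le_card_of_injective (fun v => ⟨(v : V), v.2 a trivial⟩)
          (fun v w hvw => Subtype.ext (congrArg Subtype.val hvw :))
      have hrelAll : ∀ a (ha : ¬ Norm α κ a), H.fixDelta ha = ⊤ := by
        intro a ha
        by_cases h : ∃ m ∈ N, α m ≠ 1
        · obtain ⟨m, hm, hm1⟩ := h
          exact H.fixDelta_eq_top_of_mem ha hnt hm (hfix_of_quad (hq m a)) (hnc m hm1)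
        push Not at h
        by_cases h' : ∀ c, Norm α κ c ∨ Norm α κ (a * c)
        · exact H.fixDelta_eq_top_of_transvection ha (htransv a ha h' h)
        push Not at h'
        obtain ⟨c, hc1, hc2⟩ := h'
        exact H.fixDelta_eq_top_of_moving ha (hac rfl c hc1 hc2) (hfix_of_quad (hq c a))
      by_cases h' : ∀ c, Norm α κ c ∨ Norm α κ (a₀ * c)
      · refine H.rel_two_false hnt ha₀ (hrelAll a₀ ha₀) N (fun m hm => hm) (fun m _ => hq m a₀)
          (fun m _ m' _ => hq m m') hI2 ((hker N).trans ((hsmall a₀ ha₀ h').trans ?_)) (htransv a₀ ha₀ h')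
        exact Nat.mul_le_mul_left _ (Nat.mul_le_mul_left _
          (Nat.card_le_card_of_injective _ (AddSubgroup.inclusion_injective (fixSub_anti α le_top))))
      push Not at h'
      obtain ⟨c, hc1, hc2⟩ := h'
      exact H.rel_four_false hnt ha₀ (hrelAll a₀ ha₀) hc1 hc2 (hrelAll c hc1)
    · exact H.quad_odd_false hnt hp ha₀ (hq a₀ a₀)
  · have hlt : Nat.card B < Nat.card A := by
      refine lt_of_le_of_ne (Nat.card_le_card_of_injective _ Subtype.val_injective) fun h => hBtop ?_
      exact Subgroup.eq_top_of_card_eq B h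
    have HB : Hyp p (α.comp B.subtype) κ :=
      { prime := H.prime
        char := H.char
        exp := fun b => Subtype.ext (by rw [SubmonoidClass.coe_pow, H.exp]; rfl)
        perfect := H.perfect
        simple := H.simple
        conj := fun b => H.conj b }
    have hBN : ∀ m ∈ B, Norm α κ m := fun m hm =>
      ih (Nat.card V + Nat.card B) (by omega) le_rfl HB (fun B' => by
        rw [meas_comp_subtype, meas_top_comp_subtype, hB]
        exact hmax _) ⟨m, hm⟩
    obtain ⟨m₀, hm₀, hm₀1⟩ : ∃ m ∈ B, α m ≠ 1 := by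
      by_contra h
      push Not at h
      exact ha₀ fun x => ⟨x, by rw [cj_apply, hBtriv h, hBtriv h, one_mul, mul_one]⟩
    have hrelAll : ∀ a (ha : ¬ Norm α κ a), H.fixDelta ha = ⊤ := fun a ha =>
      H.fixDelta_eq_top_of_mem ha hnt (hBN m₀ hm₀) (hfix_of_quad (hquad a m₀ hm₀)) (hnc m₀ hm₀1)
    by_cases hp : p = 2
    · subst hp
      by_cases h' : ∀ c, Norm α κ c ∨ Norm α κ (a₀ * c)
      · refine H.rel_two_false hnt ha₀ (hrelAll a₀ ha₀) B hBN (fun m hm => hquad a₀ m hm)
          (fun m hm m' _ => hquad m' m hm) hI2 ?_ (fun h => absurd (h m₀ hm₀) hm₀1)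
        calc _ ≤ meas α ⊤ := hker B
          _ = meas α B := hB.symm
          _ ≤ _ := by rw [meas]; omega
      push Not at h'
      obtain ⟨c, hc1, hc2⟩ := h'
      exact H.rel_four_false hnt ha₀ (hrelAll a₀ ha₀) hc1 hc2 (hrelAll c hc1)
    · exact H.rel_odd_false hnt hp ha₀ (hrelAll a₀ ha₀)

end CfsgLib.PGV
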