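import Cfsg.Agent.PGV.Setup

/-!
The case of odd `p`.
-/

set_option linter.unusedSectionVars false

namespace CfsgLib.PGV

open scoped commutatorElement

variable {V : Type*} [AddCommGroup V] [Finite V]
variable {A : Type*} [CommGroup A] [Finite A]
variable {K : Type*} [Group K] [Finite K]
variable {p : ℕ} {α : A →* AddMonoid.End V} {κ : K →* AddMonoid.End V}

namespace Hyp

variable (H : Hyp p α κ) {a : A}
include H

/-- A quadratic element of odd order moves no component. -/
theorem quad_odd_false (hnt : ∃ x, κ x ≠ 1) (hp : p ≠ 2) (ha : ¬ Norm α κ a)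
    (he : (α a - 1) * (α a - 1) = 0) : False := by
  haveI : Fact p.Prime := ⟨H.prime⟩
  have hp3 : 3 ≤ p := by have := H.prime.two_le; omega
  have ha1 : a ≠ 1 := fun h => ha (h ▸ H.norm_one)
  have hord : orderOf a = p := orderOf_eq_prime (H.exp a) ha1
  set e := α a - 1 with hedef
  have hae : α a = 1 + e := by rw [hedef]; abel
  have hainv : α a⁻¹ = 1 - e := by
    have h1 : (1 - e) * α a = 1 := by
      rw [hae, mul_add, mul_one, sub_mul, one_mul, he, sub_zero]; abel
    calc α a⁻¹ = (1 - e) * α a * α a⁻¹ := by rw [h1, one_mul]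
      _ = 1 - e := by rw [mul_assoc, alpha_inv, mul_one]
  have hm : ¬ Norm α κ a⁻¹ := fun h => ha (inv_inv a ▸ H.norm_inv h)
  have h2 : ¬ Norm α κ (a * a) := by
    refine H.not_norm_zpowers ha (mul_mem (Subgroup.mem_zpowers a) (Subgroup.mem_zpowers a)) fun h => ?_
    have := orderOf_dvd_of_pow_eq_one (pow_two a ▸ h)
    rw [hord] at this
    have := Nat.le_of_dvd (by norm_num) this
    omega
  have hZ : centre κ = ⊤ := by
    refine H.eq_top_of_p centre_normal fun x => ?_
    obtain ⟨k, r, hr, hkr⟩ := Nat.exists_eq_pow_mul_and_not_dvd (orderOf_pos x).ne' p H.prime.ne_one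
    refine ⟨k, fun g => ?_⟩
    set y := x ^ p ^ k
    set h := κ y with hh
    have hyr : h ^ r = 1 := by
      rw [hh, ← map_pow, ← pow_mul, ← hkr, pow_orderOf_eq_one, map_one]
    set C := e * h - h * e with hC
    have hplus : cj α κ a y = h + C - e * h * e := by
      rw [cj_apply, hainv, hae, ← hh, hC]
      simp only [mul_sub, add_mul, one_mul, mul_one]
      abel
    have hminus : cj α κ a⁻¹ y = h - C - e * h * e := by
      rw [cj_apply, inv_inv, hainv, hae, ← hh, hC]
      simp only [mul_add, sub_mul, one_mul, mul_one]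
      abel
    have hcC : Commute h C := by
      have h3 : Commute h (C + C) := by
        have h4 := (H.comm_kappa ha y y).sub_right (H.comm_kappa hm y y)
        rw [hplus, hminus] at h4
        rwa [show h + C - e * h * e - (h - C - e * h * e) = C + C by abel] at h4
      have h5 : ((p + 1) / 2 : ℕ) • (C + C) = C := by
        rw [← two_nsmul, ← mul_nsmul, nsmul_eq_mul]
        have hodd : 2 * ((p + 1) / 2) = p + 1 := by
          obtain ⟨m, hm'⟩ := H.prime.odd_of_ne_two hp
          omega
        rw [hodd, Nat.cast_add, Nat.cast_one, H.char, zero_add, one_mul]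
      rw [← h5]
      exact h3.smul_right _
    have hpow : ∀ n : ℕ, e * h ^ (n + 1) = h ^ (n + 1) * e + (n + 1) • (h ^ n * C) := by
      intro n
      induction n with
      | zero => rw [zero_add, pow_one, one_nsmul, pow_zero, one_mul, hC]; abel
      | succ n ih =>
        have heh : e * h = h * e + C := by rw [hC]; abel
        calc e * h ^ (n + 1 + 1) = e * h ^ (n + 1) * h := by rw [pow_succ _ (n + 1), mul_assoc]
          _ = h ^ (n + 1) * (e * h) + (n + 1) • (h ^ n * (C * h)) := by
              rw [ih, add_mul, smul_mul_assoc, mul_assoc, mul_assoc]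
          _ = _ := by
              rw [heh, ← hcC.eq, ← mul_assoc (h ^ n), ← pow_succ, mul_add, ← mul_assoc, ← pow_succ,
                succ_nsmul _ (n + 1)]
              abel
    have hr0 : r ≠ 0 := fun h0 => hr (h0 ▸ dvd_zero p)
    have hrC : r • C = 0 := by
      have h6 := hpow (r - 1)
      rw [Nat.sub_add_cancel (Nat.one_le_iff_ne_zero.mpr hr0), hyr, one_mul, mul_one] at h6
      have h7 : h * (r • (h ^ (r - 1) * C)) = r • C := by
        rw [mul_smul_comm, ← mul_assoc, ← pow_succ', Nat.sub_add_cancel (Nat.one_le_iff_ne_zero.mpr hr0),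
          hyr, one_mul]
      rw [← h7, left_eq_add.mp h6, mul_zero]
    have hC0 : C = 0 := by
      have hd1 : addOrderOf C ∣ r := addOrderOf_dvd_iff_nsmul_eq_zero.mpr hrC
      have hd2 : addOrderOf C ∣ p := addOrderOf_dvd_iff_nsmul_eq_zero.mpr
        (by rw [nsmul_eq_mul, H.char, zero_mul])
      exact AddMonoid.addOrderOf_eq_one_iff.mp
        (Nat.eq_one_of_dvd_coprimes ((H.prime.coprime_iff_not_dvd.mpr hr).symm) hd1 hd2)
    have hcom : Commute (α a) h := by
      rw [hae]
      refine (Commute.one_left h).add_left ?_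
      exact sub_eq_zero.mp (hC ▸ hC0)
    have hfix : cj α κ (a * a) y = κ y := by
      rw [cj_apply, map_mul, ← hh, (hcom.mul_left hcom).eq, mul_assoc, ← map_mul, ← map_mul,
        mul_inv_cancel, map_one, mul_one]
    have h8 := (H.comm_kappa h2 g y).symm
    rwa [hfix] at h8
  obtain ⟨x, y, hxy⟩ := H.exists_not_central hnt
  exact hxy ((hZ ▸ Subgroup.mem_top x : x ∈ centre κ) y)

/-- The relation is impossible for odd `p`. -/
theorem rel_odd_false (hnt : ∃ x, κ x ≠ 1) (hp : p ≠ 2) (ha : ¬ Norm α κ a)
    (hrel : H.fixDelta ha = ⊤) : False := by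
  haveI : Fact p.Prime := ⟨H.prime⟩
  have hp3 : 3 ≤ p := by have := H.prime.two_le; omega
  have hP : ∀ x, H.delta ha x * (α a - 1) = α a - 1 := fun x =>
    (show x ∈ H.fixDelta ha from hrel ▸ Subgroup.mem_top x)
  let q : K → AddMonoid.End V := fun x => α a * prodConj α κ a (p - 1) x * α a⁻¹
  have hq : ∀ x g, Commute (κ g) (q x) := fun x g => H.comm_shift ha x g (p - 1) (by omega)
  have hD : ∀ x, H.delta ha x = κ x * q x := fun x => H.delta_eq ha x
  have hcD : ∀ i x, Commute (H.delta ha x - 1) (cj α κ (a ^ i) x) := fun i x =>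
    ((H.comm_prodConj_self ha i x p).symm).sub_left (Commute.one_left _)
  -- all factors agree modulo the annihilator of `Δ - 1`
  have hstep : ∀ x i, (H.delta ha x - 1) * cj α κ (a ^ i) x = (H.delta ha x - 1) * κ x := by
    intro x i
    set d := H.delta ha x - 1 with hd
    have hda : d * α a = d := by
      have h := hP x
      rw [← sub_eq_zero, ← sub_one_mul] at h
      rw [← sub_eq_zero, ← mul_sub_one]
      exact h
    have hda' : d * α a⁻¹ = d := by
      conv_lhs => rw [← hda]
      rw [mul_assoc, alpha_inv, mul_one]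
    induction i with
    | zero => rw [pow_zero, cj_one]
    | succ i ih =>
      rw [pow_succ', cj_mul, ← mul_assoc, ← mul_assoc, hda, (hcD i x).eq, mul_assoc, hda', ← (hcD i x).eq, ih]
  have hne : ∀ i j, i < p → j < p → i ≠ j → a ^ i ≠ a ^ j := fun i j hi hj hij => by
    rcases lt_or_gt_of_ne hij with h | h
    · exact H.pow_ne ha h hj
    · exact (H.pow_ne ha h hi).symm
  have hck : ∀ j, 1 ≤ j → j < p → ∀ g x, Commute (κ g) (cj α κ (a ^ j) x) := by
    intro j hj hjp g x
    have := H.comm_pow ha 0 j g x (Or.inl (hne 0 j (by omega) hjp (by omega)))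
    rwa [pow_zero, cj_one] at this
  have hunit : ∀ (f : K →* AddMonoid.End V) g, IsUnit (f g) := fun f g => (Group.isUnit g).map f
  -- distinct other factors agree off the fixed space of `κ`
  have hA : ∀ j k, 1 ≤ j → j < p → 1 ≤ k → k < p → ∀ x, (∃ y, ¬ Commute (κ x) (κ y)) → ∀ y,
      (κ y - 1) * (cj α κ (a ^ j) x - cj α κ (a ^ k) x) = 0 := by
    intro j k hj hjp hk hkp x hx
    set R := cj α κ (a ^ j) x - cj α κ (a ^ k) x with hR
    have hRc : ∀ g, Commute (κ g) R := fun g => (hck j hj hjp g x).sub_right (hck k hk hkp g x)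
    have hR1 : R * (κ x * q x) = R := by
      have h1 : (H.delta ha x - 1) * R = 0 := by rw [hR, mul_sub, hstep, hstep, sub_self]
      have h2 : R * (H.delta ha x - 1) = 0 := by
        rw [← ((hcD j x).sub_right (hcD k x)).eq]; exact h1
      rw [mul_sub, mul_one, sub_eq_zero, hD] at h2
      exact h2
    have hqu : IsUnit (q x) := by
      have := hunit (H.delta ha) x
      rw [hD] at this
      have hku : IsUnit (κ x) := hunit κ x
      have e : q x = ↑hku.unit⁻¹ * (κ x * q x) := by
        rw [← mul_assoc, IsUnit.val_inv_mul, one_mul]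
      rw [e]
      exact (Units.isUnit _).mul this
    let N : Subgroup K :=
      { carrier := {z | R * κ z = R}
        one_mem' := by show _ = _; rw [map_one, mul_one]
        mul_mem' := fun {z w} hz hw => by
          show _ = _
          rw [map_mul, ← mul_assoc, hz, hw]
        inv_mem' := fun {z} hz => by
          show _ = _
          conv_lhs => rw [← hz]
          rw [mul_assoc, ← map_mul, mul_inv_cancel, map_one, mul_one] }
    have hN : N.Normal := by
      refine ⟨fun z hz g => ?_⟩
      show _ = _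
      rw [map_mul, map_mul, ← mul_assoc, ← mul_assoc, ← (hRc g).eq, mul_assoc (κ g) R, hz, (hRc g).eq,
        mul_assoc, ← map_mul, mul_inv_cancel, map_one, mul_one]
    have htop : N = ⊤ := by
      refine H.eq_top_of_commutators hN hx fun g => ?_
      show _ = _
      have h3 : R * κ (g * x * g⁻¹) = R * κ x := by
        refine hqu.mul_right_cancel ?_
        rw [mul_assoc R (κ x), hR1, mul_assoc R, map_mul, map_mul]
        calc R * (κ g * κ x * κ g⁻¹ * q x) = R * κ g * (κ x * (κ g⁻¹ * q x)) := by simp only [mul_assoc]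
          _ = κ g * (R * (κ x * q x)) * κ g⁻¹ := by
              rw [(hq x g⁻¹).eq, ← (hRc g).eq]; simp only [mul_assoc]
          _ = R := by rw [hR1, (hRc g).eq, mul_assoc, ← map_mul, mul_inv_cancel, map_one, mul_one]
      rw [commutatorElement_def, map_mul, ← mul_assoc, h3, mul_assoc, ← map_mul, mul_inv_cancel,
        map_one, mul_one]
    intro y
    have h4 : R * κ y = R := (show y ∈ N from htop ▸ Subgroup.mem_top y)
    rw [sub_mul, one_mul, (hRc y).eq, h4, sub_self]
  have hB : ∀ j, 1 ≤ j → j < p → ∀ z y, (κ y - 1) * (cj α κ (a ^ j) z - 1) = 0 := by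
    intro j hj hjp
    obtain ⟨k, hk1, hkp, hkj⟩ : ∃ k, 1 ≤ k ∧ k < p ∧ k ≠ j := by
      by_cases h : j = 1
      · exact ⟨2, by omega, by omega, by omega⟩
      · exact ⟨1, le_rfl, by omega, Ne.symm h⟩
    have hcy : ∀ y g, Commute (κ y - 1) (cj α κ (a ^ j) g) := fun y g =>
      (hck j hj hjp y g).sub_left (Commute.one_left _)
    let N : Subgroup K :=
      { carrier := {z | ∀ y, (κ y - 1) * cj α κ (a ^ j) z = κ y - 1}
        one_mem' := fun y => by rw [map_one, mul_one]
        mul_mem' := fun {z w} hz hw y => by rw [map_mul, ← mul_assoc, hz y, hw y]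
        inv_mem' := fun {z} hz y => by
          conv_lhs => rw [← hz y]
          rw [mul_assoc, ← map_mul, mul_inv_cancel, map_one, mul_one] }
    have hN : N.Normal := by
      refine ⟨fun z hz g y => ?_⟩
      rw [map_mul, map_mul, ← mul_assoc, ← mul_assoc, (hcy y g).eq, mul_assoc (cj α κ (a ^ j) g) _,
        hz y, ← (hcy y g).eq, mul_assoc, ← map_mul, mul_inv_cancel, map_one, mul_one]
    obtain ⟨x, hx⟩ := H.exists_not_central hnt
    have htop : N = ⊤ := by
      refine H.eq_top_of_commutators hN hx fun g y => ?_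
      have h5 := hA j k hj hjp hk1 hkp x hx y
      rw [mul_sub, sub_eq_zero] at h5
      have h6 : (κ y - 1) * cj α κ (a ^ j) (g * x * g⁻¹) = (κ y - 1) * cj α κ (a ^ k) x := by
        rw [map_mul, map_mul, ← mul_assoc, ← mul_assoc, (hcy y g).eq, mul_assoc (cj α κ (a ^ j) g) _, h5,
          ← mul_assoc, ← (hcy y g).eq, mul_assoc _ (cj α κ (a ^ j) g),
          (H.comm_pow ha j k g x (Or.inl (hne j k hjp hkp (Ne.symm hkj)))).eq,
          ← mul_assoc, mul_assoc _ (cj α κ (a ^ j) g), ← map_mul, mul_inv_cancel, map_one, mul_one]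
      rw [commutatorElement_def, map_mul, ← mul_assoc, h6, ← h5, mul_assoc, ← map_mul, mul_inv_cancel,
        map_one, mul_one]
    intro z y
    rw [mul_sub, mul_one, (show z ∈ N from htop ▸ Subgroup.mem_top z) y, sub_self]
  -- every element of `K` is unipotent
  have hker : κ.ker = ⊤ := by
    refine H.eq_top_of_p (MonoidHom.normal_ker κ) fun x => ⟨1, ?_⟩
    set u := κ x - 1 with hu
    have hfix : ∀ n, 1 ≤ n → n ≤ p → u * prodConj α κ a n x = u * κ x := by
      intro n
      induction n with
      | zero => omega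
      | succ n ih =>
        intro _ hn
        rcases Nat.eq_zero_or_pos n with rfl | hpos
        · rw [prodConj, prodConj, one_mul, pow_zero, cj_one]
        · have h7 := hB n hpos (by omega) x x
          rw [← hu, mul_sub, mul_one, sub_eq_zero] at h7
          rw [prodConj, ← mul_assoc, ih hpos (by omega), mul_assoc, (hck n hpos (by omega) x x).eq,
            ← mul_assoc, h7]
    have h8 := hfix p (by omega) le_rfl
    rw [← H.delta_apply ha] at h8
    have h9 : u * (H.delta ha x - 1) = u * u := by rw [mul_sub, h8, mul_one, hu, mul_sub_one]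
    have h10 := hB 1 le_rfl (by omega) x x
    rw [← hu] at h10
    have h11 : u * (cj α κ (a ^ 1) x - κ x) = -(u * u) := by
      have e : cj α κ (a ^ 1) x - κ x = (cj α κ (a ^ 1) x - 1) - u := by rw [hu]; abel
      rw [e, mul_sub, h10, zero_sub]
    have h12 : u * u * u = 0 := by
      have h13 : (H.delta ha x - 1) * (cj α κ (a ^ 1) x - κ x) = 0 := by
        rw [mul_sub, hstep, sub_self]
      have hc' : Commute u (H.delta ha x - 1) := by
        have := (hcD 0 x).symm
        rw [pow_zero, cj_one] at this
        exact this.sub_left (Commute.one_left _)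
      have h14 : u * (H.delta ha x - 1) * (cj α κ (a ^ 1) x - κ x) = 0 := by
        rw [mul_assoc, h13, mul_zero]
      rw [h9, mul_assoc, h11, mul_neg, neg_eq_zero, ← mul_assoc] at h14
      exact h14
    have hup : u ^ p = 0 := by
      obtain ⟨m, rfl⟩ : ∃ m, p = 3 + m := ⟨p - 3, by omega⟩
      rw [pow_add, pow_succ, pow_two, h12, zero_mul]
    rw [hu, sub_one_pow_p H.char, ← map_pow, sub_eq_zero] at hup
    rw [pow_one, MonoidHom.mem_ker]
    exact hup
  obtain ⟨x, hx⟩ := hnt
  exact hx (show x ∈ κ.ker from hker ▸ Subgroup.mem_top x)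

end Hyp

end CfsgLib.PGV
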