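import Mathlib

/-!
Quadratic algebras with involution over the two-element field, as they appear in the proof of
the P(G,V)-theorem: a group `K` and an exchanging involution on a module give a ring `R` with
anti-involution `σ`, `r + σ r` and `r σ r` central; such a ring has dimension four over its
field `k` of symmetric central elements and a quadratic group of automorphisms of order `≤ |k|`.
-/

namespace CfsgLib.PGV

open scoped commutatorElement

set_option linter.unusedSectionVars false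

variable {R : Type*} [Ring R] [Finite R]

/-- The data. -/
structure QuadData (R : Type*) [Ring R] where
  two : ∀ r : R, r + r = 0
  σ : R →+ R
  anti : ∀ r s, σ (r * s) = σ s * σ r
  invol : ∀ r, σ (σ r) = r
  tCentral : ∀ r s, (r + σ r) * s = s * (r + σ r)
  nCentral : ∀ r s, (r * σ r) * s = s * (r * σ r)
  ideal : ∀ I : AddSubgroup R, (∀ x ∈ I, ∀ r, r * x ∈ I) → (∀ x ∈ I, ∀ r, x * r ∈ I) →
    (∀ x ∈ I, σ x ∈ I) → I = ⊥ ∨ I = ⊤
  noncomm : ¬ ∀ r s : R, r * s = s * r

namespace QuadData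

variable (D : QuadData R)

def T (r : R) : R := r + D.σ r

def k : Subring R where
  carrier := {z | (∀ r, z * r = r * z) ∧ D.σ z = z}
  one_mem' := ⟨fun r => by simp, by
    have h := D.anti 1 (D.σ 1)
    rw [one_mul, D.invol, one_mul] at h
    exact h.symm⟩
  zero_mem' := ⟨fun r => by simp, map_zero _⟩
  add_mem' := fun {a b} ha hb => ⟨fun r => by rw [add_mul, mul_add, ha.1, hb.1],
    by rw [map_add, ha.2, hb.2]⟩
  neg_mem' := fun {a} ha => ⟨fun r => by rw [neg_mul, mul_neg, ha.1], by rw [map_neg, ha.2]⟩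
  mul_mem' := fun {a b} ha hb => ⟨fun r => by rw [mul_assoc, hb.1, ← mul_assoc, ha.1, mul_assoc],
    by rw [D.anti, ha.2, hb.2]; exact (ha.1 b).symm⟩

include D in
theorem cancel (a b : R) : a + (a + b) = b := by rw [← add_assoc, D.two, zero_add]

include D in
theorem cancel' (a b : R) : a + b + b = a := by rw [add_assoc, D.two, add_zero]

include D in
theorem add_eq_zero_iff {a b : R} : a + b = 0 ↔ a = b :=
  ⟨fun h => by rw [← D.cancel' a b, h, zero_add], fun h => by rw [h, D.two]⟩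

theorem sigma_one : D.σ 1 = 1 := (D.k.one_mem).2

theorem sigma_eq (r : R) : D.σ r = D.T r + r := by
  rw [T, add_comm r (D.σ r), D.cancel']

theorem T_mem (r : R) : D.T r ∈ D.k :=
  ⟨fun s => D.tCentral r s, by rw [T, map_add, D.invol, add_comm]⟩

theorem N_mem (r : R) : r * D.σ r ∈ D.k :=
  ⟨fun s => D.nCentral r s, by rw [D.anti, D.invol]⟩

theorem T_add (r s : R) : D.T (r + s) = D.T r + D.T s := by
  simp only [T, map_add]; abel

theorem T_zero : D.T 0 = 0 := by simp [T]

theorem T_smul {z : R} (hz : z ∈ D.k) (r : R) : D.T (z * r) = z * D.T r := by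
  rw [T, T, D.anti, hz.2, mul_add, ← hz.1]

theorem T_k {z : R} (hz : z ∈ D.k) : D.T z = 0 := by rw [T, hz.2, D.two]

theorem sq_eq (r : R) : r * r = D.T r * r + r * D.σ r := by
  rw [D.sigma_eq r, mul_add, ← (D.T_mem r).1 r, D.cancel]

theorem swap (a b : R) : a * b + b * a = D.T a * b + D.T b * a + D.T (a * D.σ b) := by
  have h := D.sq_eq (a + b)
  rw [D.T_add, map_add] at h
  simp only [add_mul, mul_add] at h
  rw [D.sq_eq a, D.sq_eq b] at h
  have hT : D.T (a * D.σ b) = a * D.σ b + b * D.σ a := by rw [T, D.anti, D.invol]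
  rw [hT, ← D.add_eq_zero_iff]
  rw [← D.add_eq_zero_iff] at h
  generalize D.T a * a = w1 at *
  generalize a * D.σ a = w2 at *
  generalize D.T b * b = w3 at *
  generalize b * D.σ b = w4 at *
  generalize a * b = x1 at *
  generalize b * a = x2 at *
  generalize D.T a * b = x3 at *
  generalize D.T b * a = x4 at *
  generalize a * D.σ b = x5 at *
  generalize b * D.σ a = x6 at *
  have key : x1 + x2 + (x3 + x4 + (x5 + x6)) + ((w1 + w1) + (w2 + w2) + (w3 + w3) + (w4 + w4)) = 0 := by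
    rw [← h]; abel
  simpa [D.two] using key

theorem T_comm (a b : R) : D.T (a * b) = D.T (b * a) := by
  have h : D.T (a * b + b * a) = 0 := by
    rw [D.swap a b, D.T_add, D.T_add, D.T_smul (D.T_mem a), D.T_smul (D.T_mem b),
      D.T_k (D.T_mem (a * D.σ b)), add_zero, (D.T_mem a).1 (D.T b), D.two]
  rw [D.T_add] at h
  exact D.add_eq_zero_iff.mp h

theorem T_nondeg {x : R} (h : ∀ r, D.T (x * r) = 0) : x = 0 := by
  let I : AddSubgroup R :=
    { carrier := {y | ∀ r, D.T (y * r) = 0}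
      zero_mem' := fun r => by rw [zero_mul, D.T_zero]
      add_mem' := fun {a b} ha hb r => by rw [add_mul, D.T_add, ha r, hb r, add_zero]
      neg_mem' := fun {a} ha r => by
        have hneg : -(a * r) = a * r := neg_eq_of_add_eq_zero_left (D.two _)
        rw [neg_mul, hneg]; exact ha r }
  rcases D.ideal I (fun y hy s r => by rw [mul_assoc, D.T_comm, mul_assoc]; exact hy _)
      (fun y hy s r => by rw [mul_assoc]; exact hy _)
      (fun y hy r => by
        have h0 := hy 1
        rw [mul_one] at h0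
        rw [D.sigma_eq y, h0, zero_add]
        exact hy r) with hI | hI
  · exact (AddSubgroup.mem_bot).mp (hI ▸ (h : x ∈ I))
  · refine absurd (fun r s => ?_) D.noncomm
    have h0 : ∀ y, D.σ y = y := fun y => by
      have : y ∈ I := hI ▸ AddSubgroup.mem_top y
      have := this 1
      rw [mul_one] at this
      rw [D.sigma_eq, this, zero_add]
    have := D.anti r s
    rwa [h0, h0, h0] at this

theorem k_inv {z : R} (hz : z ∈ D.k) (hne : z ≠ 0) : ∃ z' ∈ D.k, z * z' = 1 := by
  let I : AddSubgroup R := (AddMonoidHom.mulLeft z).range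
  rcases D.ideal I (by rintro _ ⟨r, rfl⟩ s; exact ⟨s * r, by simp [← mul_assoc, hz.1 s]⟩)
      (by rintro _ ⟨r, rfl⟩ s; exact ⟨r * s, by simp [mul_assoc]⟩)
      (by rintro _ ⟨r, rfl⟩; exact ⟨D.σ r, by simp [D.anti, hz.2, hz.1]⟩) with hI | hI
  · refine absurd ?_ hne
    have : z ∈ I := ⟨1, by simp⟩
    rwa [hI, AddSubgroup.mem_bot] at this
  · obtain ⟨w, hw⟩ : (1 : R) ∈ I := hI ▸ AddSubgroup.mem_top _
    simp only [AddMonoidHom.coe_mulLeft] at hw
    have hw' : w * z = 1 := by rw [← hz.1]; exact hw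
    refine ⟨w, ⟨fun r => ?_, ?_⟩, hw⟩
    · calc w * r = w * (r * z) * w := by rw [mul_assoc, mul_assoc, hw, mul_one]
        _ = w * (z * r) * w := by rw [hz.1]
        _ = r * w := by rw [← mul_assoc, hw', one_mul]
    · have := D.anti z w
      rw [hw, D.sigma_one, hz.2] at this
      calc D.σ w = D.σ w * (z * w) := by rw [hw, mul_one]
        _ = w := by rw [← mul_assoc, ← this, one_mul]

theorem mul_eq_zero_k {z r : R} (hz : z ∈ D.k) (h : z * r = 0) : z = 0 ∨ r = 0 := by
  by_cases hne : z = 0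
  · exact Or.inl hne
  · obtain ⟨z', hz', he⟩ := D.k_inv hz hne
    right
    rw [← one_mul r, ← he, hz.1, mul_assoc, h, mul_zero]

theorem k_sqrt {z : R} (hz : z ∈ D.k) : ∃ w ∈ D.k, w * w = z := by
  have hinj : Function.Injective fun w : D.k => (⟨(w : R) * w, D.k.mul_mem w.2 w.2⟩ : D.k) := by
    intro a b h
    have h' : (a : R) * a = (b : R) * b := congrArg Subtype.val h
    have h2 : ((a : R) + b) * ((a : R) + b) = 0 := by
      simp only [add_mul, mul_add]
      rw [h', a.2.1 (b : R)]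
      rw [add_comm ((b : R) * a) ((b : R) * b), D.two]
    rcases D.mul_eq_zero_k (D.k.add_mem a.2 b.2) h2 with h3 | h3 <;>
      exact Subtype.ext (D.add_eq_zero_iff.mp h3)
  obtain ⟨w, hw⟩ := Finite.injective_iff_surjective.mp hinj ⟨z, hz⟩
  exact ⟨w, w.2, congrArg Subtype.val hw⟩

/-- `k + k u` as a set. -/
def S (u : R) : Set R := {x | ∃ a ∈ D.k, ∃ b ∈ D.k, x = a + b * u}

/-- The orthogonal complement of `k + k u`. -/
def Perp (u : R) : Set R := {x | D.T x = 0 ∧ D.T (x * u) = 0}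

theorem S_comm {u x y : R} (hx : x ∈ D.S u) (hy : y ∈ D.S u) : x * y = y * x := by
  obtain ⟨a, ha, b, hb, rfl⟩ := hx
  obtain ⟨c, hc, d, hd, rfl⟩ := hy
  simp only [add_mul, mul_add]
  have e1 : b * u * c = c * (b * u) := (hc.1 _).symm
  have e2 : a * (d * u) = d * u * a := ha.1 _
  have e3 : b * u * (d * u) = d * u * (b * u) := by
    rw [mul_assoc b, ← mul_assoc u d, ← hd.1 u, ← mul_assoc b, ← mul_assoc b d, hb.1 d]
    rw [mul_assoc d u (b * u), ← mul_assoc u b u, ← hb.1 u]
    simp only [mul_assoc]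
  rw [ha.1 c, e1, e2, e3]
  abel

theorem perp_sigma {u l : R} (hl : l ∈ D.Perp u) : D.σ l = l := by
  rw [D.sigma_eq, hl.1, zero_add]

theorem perp_mul {u l : R} (hl : l ∈ D.Perp u) : l * u = D.σ u * l := by
  have h := D.sigma_eq (l * u)
  rw [hl.2, zero_add, D.anti, D.perp_sigma hl] at h
  exact h.symm

theorem perp_mul' {u l : R} (hl : l ∈ D.Perp u) : l * D.σ u = u * l := by
  rw [D.sigma_eq u, mul_add, ← (D.T_mem u).1 l, D.perp_mul hl, D.sigma_eq u, add_mul, D.cancel]

theorem perp_mul_S {u l x : R} (hl : l ∈ D.Perp u) (hx : x ∈ D.S u) : l * x = D.σ x * l := by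
  obtain ⟨a, ha, b, hb, rfl⟩ := hx
  rw [map_add, ha.2, D.anti, hb.2, add_mul, mul_add, ← ha.1 l, ← mul_assoc, ← hb.1 l,
    mul_assoc b l u, D.perp_mul hl, ← mul_assoc, hb.1 (D.σ u)]

theorem S_mul {u x y : R} (hx : x ∈ D.S u) (hy : y ∈ D.S u) : x * y ∈ D.S u := by
  obtain ⟨a, ha, b, hb, rfl⟩ := hx
  obtain ⟨c, hc, d, hd, rfl⟩ := hy
  refine ⟨a * c + b * d * (u * D.σ u), D.k.add_mem (D.k.mul_mem ha hc)
    (D.k.mul_mem (D.k.mul_mem hb hd) (D.N_mem u)), a * d + b * c + b * d * D.T u,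
    D.k.add_mem (D.k.add_mem (D.k.mul_mem ha hd) (D.k.mul_mem hb hc))
      (D.k.mul_mem (D.k.mul_mem hb hd) (D.T_mem u)), ?_⟩
  simp only [add_mul, mul_add]
  have e1 : b * u * c = b * c * u := by rw [mul_assoc, ← hc.1, mul_assoc]
  have e2 : b * u * (d * u) = b * d * (D.T u * u) + b * d * (u * D.σ u) := by
    rw [← mul_add, ← D.sq_eq, mul_assoc b u, ← mul_assoc u d u, ← hd.1 u]
    simp only [mul_assoc]
  rw [e1, e2]
  simp only [mul_assoc]
  abel

theorem S_sigma {u x : R} (hx : x ∈ D.S u) : D.σ x ∈ D.S u := by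
  obtain ⟨a, ha, b, hb, rfl⟩ := hx
  refine ⟨a + b * D.T u, D.k.add_mem ha (D.k.mul_mem hb (D.T_mem u)), b, hb, ?_⟩
  rw [map_add, ha.2, D.anti, hb.2, ← hb.1, D.sigma_eq u, mul_add, add_assoc]

theorem k_subset_S {u z : R} (hz : z ∈ D.k) : z ∈ D.S u :=
  ⟨z, hz, 0, D.k.zero_mem, by rw [zero_mul, add_zero]⟩

theorem decomp {u : R} (hu : D.T u ≠ 0) (x : R) :
    ∃ s ∈ D.S u, ∃ l ∈ D.Perp u, x = s + l := by
  obtain ⟨t', ht', hti⟩ := D.k_inv (D.T_mem u) hu
  set b := D.T x * t' with hb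
  have hbk : b ∈ D.k := D.k.mul_mem (D.T_mem x) ht'
  have hbt : b * D.T u = D.T x := by
    rw [hb, mul_assoc, ht'.1, hti, mul_one]
  have hTuu : D.T (u * u) = D.T u * D.T u := by
    rw [D.sq_eq u, D.T_add, D.T_smul (D.T_mem u), D.T_k (D.N_mem u), add_zero]
  set a := (D.T (x * u) + b * (D.T u * D.T u)) * t' with ha
  have hak : a ∈ D.k := D.k.mul_mem (D.k.add_mem (D.T_mem _)
    (D.k.mul_mem hbk (D.k.mul_mem (D.T_mem u) (D.T_mem u)))) ht'
  refine ⟨a + b * u, ⟨a, hak, b, hbk, rfl⟩, x + (a + b * u), ⟨?_, ?_⟩, ?_⟩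
  · rw [D.T_add, D.T_add, D.T_k hak, zero_add, D.T_smul hbk, hbt, D.two]
  · rw [add_mul, D.T_add, add_mul, D.T_add, D.T_smul hak, mul_assoc b, D.T_smul hbk, hTuu]
    have hat : a * D.T u = D.T (x * u) + b * (D.T u * D.T u) := by
      rw [ha, mul_assoc, ht'.1, hti, mul_one]
    rw [hat, add_assoc (D.T (x * u)), D.two, add_zero, D.two]
  · rw [add_comm x, D.cancel]

/-- The four-dimensional structure `R = S + S j`. -/
theorem exists_j {u : R} (hu : D.T u ≠ 0) : ∃ j ∈ D.Perp u, j * j ∈ D.k ∧ j * j ≠ 0 ∧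
    ∀ x : R, ∃ s ∈ D.S u, ∃ r ∈ D.S u, x = s + r * j := by
  have hsq : ∀ l ∈ D.Perp u, l * l ∈ D.k := fun l hl => by
    have := D.N_mem l
    rwa [D.perp_sigma hl] at this
  obtain ⟨j, hj, hj0⟩ : ∃ j ∈ D.Perp u, j * j ≠ 0 := by
    by_contra hno
    push Not at hno
    apply D.noncomm
    intro r s
    have hl0 : ∀ l ∈ D.Perp u, l = 0 := by
      intro l hl
      apply D.T_nondeg
      intro y
      obtain ⟨s0, hs0, l', hl', rfl⟩ := D.decomp hu y
      rw [mul_add, D.T_add]
      obtain ⟨a, ha, b, hb, rfl⟩ := hs0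
      have h1 : D.T (l * (a + b * u)) = 0 := by
        rw [mul_add, D.T_add, ← ha.1 l, D.T_smul ha, hl.1, mul_zero, zero_add, ← mul_assoc,
          ← hb.1 l, mul_assoc, D.T_smul hb, hl.2, mul_zero]
      have hll : l + l' ∈ D.Perp u :=
        ⟨by rw [D.T_add, hl.1, hl'.1, add_zero], by rw [add_mul, D.T_add, hl.2, hl'.2, add_zero]⟩
      have h2 := hno _ hll
      simp only [add_mul, mul_add] at h2
      rw [hno l hl, hno l' hl', zero_add, add_zero] at h2
      have h3 : D.T (l * l') = 0 := by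
        rw [T, D.anti, D.perp_sigma hl, D.perp_sigma hl', ← h2]; abel
      rw [h1, h3, add_zero]
    obtain ⟨r0, hr0, l, hl, rfl⟩ := D.decomp hu r
    obtain ⟨s0, hs0, l', hl', rfl⟩ := D.decomp hu s
    rw [hl0 l hl, hl0 l' hl', add_zero, add_zero]
    exact D.S_comm hr0 hs0
  refine ⟨j, hj, hsq j hj, hj0, fun x => ?_⟩
  obtain ⟨c', hc', hci⟩ := D.k_inv (hsq j hj) hj0
  obtain ⟨s, hs, l, hl, rfl⟩ := D.decomp hu x
  obtain ⟨s1, hs1, l1, hl1, he⟩ := D.decomp hu (l * j)
  have hcomm : l * j * u = u * (l * j) := by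
    rw [mul_assoc, D.perp_mul hj, ← mul_assoc, D.perp_mul' hl, mul_assoc]
  rw [he, add_mul, mul_add, D.perp_mul hl1,
    D.S_comm hs1 ⟨0, D.k.zero_mem, 1, D.k.one_mem, by rw [one_mul, zero_add]⟩] at hcomm
  have h4 : (D.σ u + u) * l1 = 0 := by
    rw [add_mul, add_left_cancel hcomm, D.two]
  rw [add_comm (D.σ u), ← T] at h4
  have hl10 : l1 = 0 := (D.mul_eq_zero_k (D.T_mem u) h4).resolve_left hu
  rw [hl10, add_zero] at he
  refine ⟨s, hs, c' * s1, D.S_mul (D.k_subset_S hc') hs1, ?_⟩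
  rw [← he, mul_assoc c', mul_assoc l j j, ← (hsq j hj).1 l, ← mul_assoc, hc'.1, hci, one_mul]

variable {K : Type*} [Group K] [Finite K]

/-- Perfect groups: an image with commuting values is trivial. -/
theorem perfect_comm_trivial {M : Type*} [Monoid M] (hK : commutator K = ⊤) (f : K →* M)
    (h : ∀ x y, Commute (f x) (f y)) (x : K) : f x = 1 := by
  have hle : commutator K ≤ f.ker := by
    rw [commutator_def, Subgroup.commutator_le]
    intro a _ b _
    rw [MonoidHom.mem_ker, commutatorElement_def, map_mul, map_mul, map_mul]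
    rw [(h a b).eq, mul_assoc (f b), ← map_mul f a, mul_inv_cancel, map_one, mul_one, ← map_mul,
      mul_inv_cancel, map_one]
  have := hle (hK ▸ Subgroup.mem_top x)
  exact this

theorem exists_u (κ : K →* R) (hK : commutator K = ⊤) (hσ : ∀ x, D.σ (κ x) = κ x⁻¹)
    (hnt : ∃ x, κ x ≠ 1) : ∃ x, D.T (κ x) ≠ 0 := by
  by_contra hno
  push Not at hno
  obtain ⟨x₀, hx₀⟩ := hnt
  have hs : ∀ x, κ x⁻¹ = κ x := fun x => by
    rw [← hσ, D.sigma_eq, hno, zero_add]
  refine hx₀ (perfect_comm_trivial hK κ (fun a b => ?_) x₀)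
  calc κ a * κ b = κ ((a * b)⁻¹) := by rw [hs, map_mul]
    _ = κ b * κ a := by rw [mul_inv_rev, map_mul, hs, hs]

theorem parity {u j x y : R} (hj : j ∈ D.Perp u) (hjj : j * j ∈ D.k) (hx : x ∈ D.S u) (hy : y ∈ D.S u) :
    (x * j) * y ∈ {z | ∃ r ∈ D.S u, z = r * j} ∧ (x * j) * (y * j) ∈ D.S u := by
  have h1 : (x * j) * y = x * D.σ y * j := by
    rw [mul_assoc, D.perp_mul_S hj hy, mul_assoc]
  refine ⟨⟨_, D.S_mul hx (D.S_sigma hy), h1⟩, ?_⟩
  rw [← mul_assoc (x * j) y j, h1, mul_assoc]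
  exact D.S_mul (D.S_mul hx (D.S_sigma hy)) (D.k_subset_S hjj)

theorem not_two (κ : K →* R) (hK : commutator K = ⊤) (hσ : ∀ x, D.σ (κ x) = κ x⁻¹)
    (hnt : ∃ x, κ x ≠ 1) : ∃ z ∈ D.k, z ≠ 0 ∧ z ≠ 1 := by
  by_contra hno
  push Not at hno
  have hk : ∀ z ∈ D.k, z = 0 ∨ z = 1 := fun z hz => by
    by_cases h : z = 0
    · exact Or.inl h
    · exact Or.inr (hno z hz h)
  obtain ⟨x₀, hx₀⟩ := D.exists_u κ hK hσ hnt
  set u := κ x₀ with hu
  have hN : ∀ x, κ x * D.σ (κ x) = 1 := fun x => by rw [hσ, ← map_mul, mul_inv_cancel, map_one]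
  obtain ⟨j, hj, hjk, hj0, hR⟩ := D.exists_j hx₀
  have hjj : j * j = 1 := (hk _ hjk).resolve_left hj0
  have hNS : ∀ s ∈ D.S u, s = 0 ∨ s * D.σ s = 1 := by
    rintro _ ⟨a, ha, b, hb, rfl⟩
    have ht : D.T u = 1 := (hk _ (D.T_mem u)).resolve_left hx₀
    rcases hk a ha with rfl | rfl <;> rcases hk b hb with rfl | rfl
    · left; simp
    · right; simp only [one_mul, zero_add]; exact hN x₀
    · right; simp [D.sigma_one]
    · right
      simp only [one_mul, map_add, D.sigma_one, add_mul, mul_add, mul_one]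
      rw [hN x₀]
      have e : D.σ u + u = 1 := by rw [add_comm]; exact ht
      calc (1 : R) + u + (D.σ u + 1) = (D.σ u + u) + ((1 : R) + 1) := by abel
        _ = 1 := by rw [D.two, e, add_zero]
  have key : ∀ x, κ x ∈ D.S u ∨ ∃ r ∈ D.S u, κ x = r * j := by
    intro x
    obtain ⟨s, hs, r, hr, he⟩ := hR (κ x)
    rcases hNS s hs with rfl | hs1
    · exact Or.inr ⟨r, hr, by rw [he, zero_add]⟩
    rcases hNS r hr with rfl | hr1
    · exact Or.inl (by rwa [he, zero_mul, add_zero])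
    exfalso
    have h1 := hN x
    have e1 : D.σ (r * j) = r * j := by
      rw [D.anti, D.perp_sigma hj, D.perp_mul_S hj (D.S_sigma hr), D.invol]
    rw [he, map_add, e1, add_mul, mul_add, mul_add, hs1] at h1
    have e2 : r * j * D.σ s = s * (r * j) := by
      rw [mul_assoc, D.perp_mul_S hj (D.S_sigma hs), D.invol, ← mul_assoc, D.S_comm hr hs, mul_assoc]
    have e3 : r * j * (r * j) = 1 := by
      rw [← mul_assoc, mul_assoc r j r, D.perp_mul_S hj hr, mul_assoc, mul_assoc, hjj, mul_one, hr1]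
    rw [e2, e3] at h1
    have h01 : (1 : R) = 0 := by
      calc (1 : R) = 1 + s * (r * j) + (s * (r * j) + 1) := h1.symm
        _ = (1 + 1) + (s * (r * j) + s * (r * j)) := by abel
        _ = 0 := by rw [D.two, D.two, add_zero]
    exact hx₀ (eq_zero_of_zero_eq_one h01.symm _)
  let P : K → Prop := fun x => κ x ∈ D.S u
  have hinv : ∀ x, P x → P x⁻¹ := fun x hx => by
    simp only [P, ← hσ]; exact D.S_sigma hx
  have hinv' : ∀ x, (∃ r ∈ D.S u, κ x = r * j) → ∃ r ∈ D.S u, κ x⁻¹ = r * j := by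
    rintro x ⟨r, hr, he⟩
    refine ⟨r, hr, ?_⟩
    rw [← hσ, he, D.anti, D.perp_sigma hj, D.perp_mul_S hj (D.S_sigma hr), D.invol]
  have hcom : ∀ a b : K, P ⁅a, b⁆ := by
    intro a b
    simp only [P, commutatorElement_def, map_mul]
    rcases key a with ha | ha <;> rcases key b with hb | hb
    · exact D.S_mul (D.S_mul (D.S_mul ha hb) (hinv _ ha)) (hinv _ hb)
    · obtain ⟨r, hr, he⟩ := hb
      obtain ⟨r', hr', he'⟩ := hinv' b ⟨r, hr, he⟩
      rw [he, he', ← mul_assoc (κ a)]
      obtain ⟨r'', hr'', he''⟩ := (D.parity hj hjk (D.S_mul ha hr) (hinv _ ha)).1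
      rw [he'']
      exact (D.parity hj hjk hr'' hr').2
    · obtain ⟨r, hr, he⟩ := ha
      obtain ⟨r', hr', he'⟩ := hinv' a ⟨r, hr, he⟩
      rw [he, he']
      obtain ⟨r'', hr'', he''⟩ := (D.parity hj hjk hr hb).1
      rw [he'']
      exact D.S_mul (D.parity hj hjk hr'' hr').2 (hinv _ hb)
    · obtain ⟨r, hr, he⟩ := ha
      obtain ⟨r', hr', he'⟩ := hinv' a ⟨r, hr, he⟩
      obtain ⟨s, hs, hse⟩ := hb
      obtain ⟨s', hs', hse'⟩ := hinv' b ⟨s, hs, hse⟩
      rw [he, he', hse, hse', mul_assoc]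
      exact D.S_mul (D.parity hj hjk hr hs).2 (D.parity hj hjk hr' hs').2
  let H : Subgroup K :=
    { carrier := {x | P x}
      one_mem' := by
        show κ 1 ∈ D.S u
        rw [map_one]; exact D.k_subset_S D.k.one_mem
      mul_mem' := fun {a b} ha hb => by
        show κ (a * b) ∈ D.S u
        rw [map_mul]; exact D.S_mul ha hb
      inv_mem' := fun {a} ha => hinv a ha }
  have hH : commutator K ≤ H := by
    rw [commutator_def, Subgroup.commutator_le]
    exact fun a _ b _ => hcom a b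
  rw [hK] at hH
  obtain ⟨x, hx⟩ := hnt
  exact hx (perfect_comm_trivial hK κ (fun a b => D.S_comm (hH (Subgroup.mem_top a)) (hH (Subgroup.mem_top b))) x)

/-- The final count. -/
theorem contra (κ : K →* R) (hK : commutator K = ⊤) (hσ : ∀ x, D.σ (κ x) = κ x⁻¹)
    (hnt : ∃ x, κ x ≠ 1) {ι : Type*} [Finite ι] [Nonempty ι] (φ : ι → R →+* R)
    (hinj : Function.Injective φ) (hinvol : ∀ m r, φ m (φ m r) = r)
    (hfix : ∀ m, ∀ z ∈ D.k, φ m z = z)
    (hquad : ∀ m m' r, φ m' (φ m r + r) = φ m r + r)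
    (hbound : Nat.card R ≤ 2 * Nat.card ι * Nat.card {r : R // ∀ m, φ m r = r})
    (hbound1 : (∀ m r, φ m r = r) → Nat.card R ≤ 2 * Nat.card {r : R // D.T r = 0}) : False := by
  classical
  obtain ⟨x₀, hx₀⟩ := D.exists_u κ hK hσ hnt
  set u₀ := κ x₀ with hu₀
  obtain ⟨z₀, hz₀, hz0, hz1⟩ := D.not_two κ hK hσ hnt
  set q := Nat.card D.k with hqdef
  have hq : 3 ≤ q := by
    haveI := Fintype.ofFinite R
    rw [hqdef, Nat.card_eq_fintype_card]
    have h01 : (0 : R) ≠ 1 := fun h => hz0 (eq_zero_of_zero_eq_one h _)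
    refine Fintype.two_lt_card_iff.mpr ⟨0, 1, ⟨z₀, hz₀⟩, ?_, ?_, ?_⟩
    · exact fun h => h01 (congrArg Subtype.val h)
    · exact fun h => hz0 (congrArg Subtype.val h).symm
    · exact fun h => hz1 (congrArg Subtype.val h).symm
  by_cases htriv : ∀ m r, φ m r = r
  · -- `T` maps onto `k`
    obtain ⟨t', ht', hti⟩ := D.k_inv (D.T_mem u₀) hx₀
    let e : D.k × {r : R // D.T r = 0} → R := fun p => (p.1 : R) * t' * u₀ + p.2
    have he : Function.Injective e := by
      intro p p' h
      have hT := congrArg D.T h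
      simp only [e] at hT
      rw [D.T_add, D.T_add, p.2.2, p'.2.2, add_zero, add_zero, D.T_smul (D.k.mul_mem p.1.2 ht'),
        D.T_smul (D.k.mul_mem p'.1.2 ht'), mul_assoc, mul_assoc, ht'.1, hti, mul_one, mul_one] at hT
      have h1 : p.1 = p'.1 := Subtype.ext hT
      refine Prod.ext h1 (Subtype.ext ?_)
      simp only [e, h1] at h
      exact add_left_cancel h
    have hle := Nat.card_le_card_of_injective e he
    rw [Nat.card_prod] at hle
    have h2 := hle.trans (hbound1 htriv)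
    have hpos : 0 < Nat.card {r : R // D.T r = 0} :=
      haveI : Nonempty {r : R // D.T r = 0} := ⟨⟨0, D.T_zero⟩⟩
      Nat.card_pos
    nlinarith
  push Not at htriv
  let F : Subring R :=
    { carrier := {r | ∀ m, φ m r = r}
      one_mem' := fun m => map_one _
      zero_mem' := fun m => map_zero _
      add_mem' := fun {a b} ha hb m => by rw [map_add, ha m, hb m]
      neg_mem' := fun {a} ha m => by rw [map_neg, ha m]
      mul_mem' := fun {a b} ha hb m => by rw [map_mul, ha m, hb m] }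
  have hkF : ∀ z ∈ D.k, z ∈ F := fun z hz m => hfix m z hz
  have hδ : ∀ m r, φ m r + r ∈ F := fun m r m' => hquad m m' r
  have hTφ : ∀ m r, D.T (φ m r) = D.T r := by
    intro m r
    by_cases hr : r ∈ D.k
    · rw [hfix m r hr]
    by_contra hne
    have h1 := congrArg (φ m) (D.sq_eq r)
    rw [map_mul, map_add, map_mul, hfix m _ (D.T_mem r), hfix m _ (D.N_mem r), D.sq_eq (φ m r)] at h1
    have h2 : (D.T (φ m r) + D.T r) * φ m r = φ m r * D.σ (φ m r) + r * D.σ r := by
      have h1' := D.add_eq_zero_iff.mpr h1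
      rw [← D.add_eq_zero_iff, add_mul, ← h1']
      abel
    have hz : D.T (φ m r) + D.T r ≠ 0 := fun h => hne (D.add_eq_zero_iff.mp h)
    obtain ⟨z', hz', hzi⟩ := D.k_inv (D.k.add_mem (D.T_mem _) (D.T_mem _)) hz
    have h3 : φ m r ∈ D.k := by
      have h4 := congrArg (z' * ·) h2
      simp only [← mul_assoc z' (D.T (φ m r) + D.T r), hz'.1 (D.T (φ m r) + D.T r), hzi, one_mul] at h4
      rw [h4]
      exact D.k.mul_mem hz' (D.k.add_mem (D.N_mem _) (D.N_mem _))
    apply hr
    rw [← hinvol m r, hfix m _ h3]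
    exact h3
  -- `F ≠ k`
  obtain ⟨f, hf, hfk⟩ : ∃ f ∈ F, f ∉ D.k := by
    by_contra hno
    push Not at hno
    obtain ⟨m, r, hmr⟩ := htriv
    have hc : ∀ x y : R, x * y + y * x ∈ D.k := by
      intro x y
      apply hno
      intro m'
      have hx := hno _ (hδ m' x)
      have hy := hno _ (hδ m' y)
      have ex : φ m' x = (φ m' x + x) + x := (D.cancel' _ _).symm
      have ey : φ m' y = (φ m' y + y) + y := (D.cancel' _ _).symm
      generalize φ m' x + x = a at hx ex
      generalize φ m' y + y = b at hy ey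
      rw [map_add, map_mul, map_mul, ex, ey]
      simp only [add_mul, mul_add]
      rw [hx.1 y, hy.1 x, hy.1 a]
      calc a * b + x * b + (y * a + x * y) + (a * b + y * a + (x * b + y * x))
          = x * y + y * x + ((a * b + a * b) + (x * b + x * b) + (y * a + y * a)) := by abel
        _ = x * y + y * x := by simp only [D.two, add_zero]
    apply D.noncomm
    intro a b
    obtain ⟨t', ht', hti⟩ := D.k_inv (D.T_mem u₀) hx₀
    have hS : ∀ x, x ∈ D.S u₀ := by
      intro x
      have hsw := D.swap x u₀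
      set c := D.T (x * D.σ u₀) + (x * u₀ + u₀ * x) with hcdef
      have hck : c ∈ D.k := D.k.add_mem (D.T_mem _) (hc x u₀)
      have h5 : D.T u₀ * x = c + D.T x * u₀ := by
        rw [hcdef, hsw, ← D.add_eq_zero_iff]
        calc D.T u₀ * x + (D.T (x * D.σ u₀) + (D.T x * u₀ + D.T u₀ * x + D.T (x * D.σ u₀)) + D.T x * u₀)
            = (D.T u₀ * x + D.T u₀ * x) + (D.T (x * D.σ u₀) + D.T (x * D.σ u₀)) +
              (D.T x * u₀ + D.T x * u₀) := by abel
          _ = 0 := by simp only [D.two, add_zero]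
      refine ⟨t' * c, D.k.mul_mem ht' hck, t' * D.T x, D.k.mul_mem ht' (D.T_mem x), ?_⟩
      rw [mul_assoc, ← mul_add, ← h5, ← mul_assoc, ht'.1, hti, one_mul]
    exact D.S_comm (hS a) (hS b)
  -- `F` has zero trace
  have hT0 : ∀ f ∈ F, D.T f = 0 := by
    intro f hf
    by_contra hne
    have hfk : f ∉ D.k := fun h => hne (D.T_k h)
    obtain ⟨m, r, hmr⟩ := htriv
    obtain ⟨j, hj, hjk, hj0, hR⟩ := D.exists_j hne
    obtain ⟨c', hc', hci⟩ := D.k_inv hjk hj0
    obtain ⟨s, hs, s', hs', he⟩ := hR (φ m j)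
    have hfixS : ∀ w ∈ D.S f, φ m w = w := by
      rintro _ ⟨a, ha, b, hb, rfl⟩
      rw [map_add, map_mul, hfix m a ha, hfix m b hb, hf m]
    -- `φ j` is again orthogonal
    have h1 : φ m j * f = D.σ f * φ m j := by
      have := congrArg (φ m) (D.perp_mul hj)
      have hσf : φ m (D.σ f) = D.σ f := hfixS _ (D.S_sigma ⟨0, D.k.zero_mem, 1, D.k.one_mem, by simp⟩)
      rwa [map_mul, map_mul, hf m, hσf] at this
    have hs0 : s = 0 := by
      rw [he, add_mul, mul_add, mul_assoc s' j f, D.perp_mul hj,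
        D.S_comm hs ⟨0, D.k.zero_mem, 1, D.k.one_mem, by rw [one_mul, zero_add]⟩,
        ← mul_assoc, ← mul_assoc, D.S_comm hs' (D.S_sigma ⟨0, D.k.zero_mem, 1, D.k.one_mem,
          by rw [one_mul, zero_add]⟩), mul_assoc] at h1
      have h2 := add_right_cancel h1
      have h3 : (f + D.σ f) * s = 0 := by rw [add_mul, h2, D.two]
      exact (D.mul_eq_zero_k (D.T_mem f) h3).resolve_left hne
    rw [hs0, zero_add] at he
    have h4 : j = s' * s' * j := by
      conv_lhs => rw [← hinvol m j, he, map_mul, hfixS s' hs', he]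
      rw [mul_assoc]
    have h5 : s' * s' = 1 := by
      have := congrArg (fun w => w * (j * c')) h4
      simp only [mul_assoc] at this
      rw [← mul_assoc j j c', hci, mul_one] at this
      exact this.symm
    obtain ⟨a, ha, b, hb, hab⟩ := D.S_mul hs' hs'
    obtain ⟨a', ha', b', hb', rfl⟩ := hs'
    have h6 : (a' + b' * f) * (a' + b' * f) =
        (a' * a' + b' * b' * (f * D.σ f)) + b' * b' * D.T f * f := by
      simp only [add_mul, mul_add]
      have e1 : b' * f * a' = a' * (b' * f) := (ha'.1 _).symm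
      have e2 : b' * f * (b' * f) = b' * b' * (f * D.σ f) + b' * b' * D.T f * f := by
        rw [mul_assoc b' f, ← mul_assoc f b' f, ← hb'.1 f, mul_assoc b' f f, D.sq_eq f, mul_add,
          mul_add, ← mul_assoc, ← mul_assoc, ← mul_assoc, ← mul_assoc, add_comm]
      rw [e1, e2]
      calc a' * a' + a' * (b' * f) + (a' * (b' * f) + (b' * b' * (f * D.σ f) + b' * b' * D.T f * f))
          = a' * a' + b' * b' * (f * D.σ f) + b' * b' * D.T f * f + (a' * (b' * f) + a' * (b' * f)) := by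
            abel
        _ = _ := by rw [D.two, add_zero]
    rw [h6] at h5
    set A := a' * a' + b' * b' * (f * D.σ f) with hA
    have hAk : A ∈ D.k := D.k.add_mem (D.k.mul_mem ha' ha')
      (D.k.mul_mem (D.k.mul_mem hb' hb') (D.N_mem f))
    set B := b' * b' * D.T f with hB
    have hBk : B ∈ D.k := D.k.mul_mem (D.k.mul_mem hb' hb') (D.T_mem f)
    have hB0 : B = 0 := by
      by_contra hB0
      obtain ⟨B', hB', hBi⟩ := D.k_inv hBk hB0
      apply hfk
      have : f = B' * (A + 1) := by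
        rw [← h5, D.cancel, ← mul_assoc, hB'.1, hBi, one_mul]
      rw [this]
      exact D.k.mul_mem hB' (D.k.add_mem hAk D.k.one_mem)
    have hb0 : b' = 0 := by
      rcases D.mul_eq_zero_k (D.k.mul_mem hb' hb') hB0 with h | h
      · rcases D.mul_eq_zero_k hb' h with h | h <;> exact h
      · exact absurd h hne
    have ha1 : a' = 1 := by
      have h7 : (a' + 1) * (a' + 1) = 0 := by
        rw [hA, hB0, hb0] at h5
        simp only [mul_zero, zero_mul, add_zero] at h5
        simp only [add_mul, mul_add, mul_one, one_mul, h5]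
        calc (1 : R) + a' + (a' + 1) = (1 + 1) + (a' + a') := by abel
          _ = 0 := by rw [D.two, D.two, add_zero]
      rcases D.mul_eq_zero_k (D.k.add_mem ha' D.k.one_mem) h7 with h | h <;>
        exact D.add_eq_zero_iff.mp h
    rw [ha1, hb0, zero_mul, add_zero, one_mul] at he
    apply hmr
    obtain ⟨x, hx, y, hy, rfl⟩ := hR r
    rw [map_add, map_mul, hfixS x hx, hfixS y hy, he]
  have hTf : D.T f = 0 := hT0 f hf
  obtain ⟨w, hw, hww⟩ := D.k_sqrt (D.N_mem f)
  set e := f + w with hedef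
  have heF : e ∈ F := F.add_mem hf (hkF w hw)
  have hek : e ∉ D.k := fun h => hfk (by
    have := D.k.add_mem h hw
    rwa [hedef, D.cancel'] at this)
  have hTe : D.T e = 0 := by rw [hedef, D.T_add, hTf, D.T_k hw, add_zero]
  have hσe : D.σ e = e := by rw [D.sigma_eq, hTe, zero_add]
  have hee : e * e = 0 := by
    have hff : f * f = w * w := by rw [D.sq_eq f, hTf, zero_mul, zero_add, hww]
    rw [hedef]
    simp only [add_mul, mul_add]
    rw [hff, ← hw.1 f]
    calc w * w + w * f + (w * f + w * w) = (w * w + w * w) + (w * f + w * f) := by abel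
      _ = 0 := by rw [D.two, D.two, add_zero]
  obtain ⟨u, hu⟩ : ∃ u, D.T (e * u) = 1 := by
    by_cases h : ∀ r, D.T (e * r) = 0
    · exact absurd (D.T_nondeg h ▸ D.k.zero_mem) hek
    push Not at h
    obtain ⟨r, hr⟩ := h
    obtain ⟨z', hz', hzi⟩ := D.k_inv (D.T_mem (e * r)) hr
    refine ⟨z' * r, ?_⟩
    rw [← mul_assoc, ← hz'.1 e, mul_assoc, D.T_smul hz', hz'.1, hzi]
  set t := D.T u with ht
  have hue : e * u + u * e = 1 + t * e := by
    have hsw := D.swap e u
    have h8 : D.T (e * D.σ u) = 1 := by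
      rw [D.sigma_eq u, mul_add, D.T_add, ← (D.T_mem u).1 e, D.T_smul (D.T_mem u), hTe, mul_zero,
        zero_add, hu]
    rw [hsw, hTe, h8, zero_mul, zero_add, add_comm]
  let B : D.k × D.k × D.k × D.k → R := fun p =>
    (p.1 : R) + (p.2.1 : R) * e + (p.2.2.1 : R) * u + (p.2.2.2 : R) * (e * u)
  have hTB : ∀ p, D.T (B p) = (p.2.2.1 : R) * t + p.2.2.2 := fun p => by
    simp only [B, D.T_add, D.T_k p.1.2, D.T_smul p.2.1.2, D.T_smul p.2.2.1.2, D.T_smul p.2.2.2.2,
      hTe, hu, mul_zero, mul_one, zero_add, ht]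
  have hTeB : ∀ p, D.T (e * B p) = (p.2.2.1 : R) := fun p => by
    simp only [B, mul_add, D.T_add]
    rw [← p.1.2.1 e, D.T_smul p.1.2, hTe, mul_zero, zero_add]
    rw [← mul_assoc, ← p.2.1.2.1 e, mul_assoc, hee, mul_zero, D.T_zero, zero_add]
    rw [← mul_assoc, ← p.2.2.1.2.1 e, mul_assoc, D.T_smul p.2.2.1.2, hu, mul_one]
    rw [← mul_assoc e, ← p.2.2.2.2.1 e, mul_assoc, ← mul_assoc e e u, hee, zero_mul, mul_zero,
      D.T_zero, add_zero]
  have hBinj : Function.Injective B := by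
    intro p p' h
    have h3 : p.2.2.1 = p'.2.2.1 := Subtype.ext (by rw [← hTeB, ← hTeB, h])
    have h4 : p.2.2.2 = p'.2.2.2 := Subtype.ext (by
      have := congrArg D.T h
      rw [hTB, hTB, h3] at this
      exact add_left_cancel this)
    simp only [B, h3, h4] at h
    have h5 := add_right_cancel (add_right_cancel h)
    have h2 : p.2.1 = p'.2.1 := by
      apply Subtype.ext
      by_contra hne
      have hne' : (p.2.1 : R) + p'.2.1 ≠ 0 := fun h0 => hne (D.add_eq_zero_iff.mp h0)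
      obtain ⟨z', hz', hzi⟩ := D.k_inv (D.k.add_mem p.2.1.2 p'.2.1.2) hne'
      apply hek
      have h6 : ((p.2.1 : R) + p'.2.1) * e = (p.1 : R) + p'.1 := by
        rw [← D.add_eq_zero_iff, add_mul]
        calc (p.2.1 : R) * e + p'.2.1 * e + ((p.1 : R) + p'.1)
            = ((p.1 : R) + p.2.1 * e) + ((p'.1 : R) + p'.2.1 * e) := by abel
          _ = 0 := by rw [h5, D.two]
      have h7 : e = z' * ((p.1 : R) + p'.1) := by
        rw [← h6, ← mul_assoc, hz'.1, hzi, one_mul]
      rw [h7]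
      exact D.k.mul_mem hz' (D.k.add_mem p.1.2 p'.1.2)
    rw [h2] at h5
    exact Prod.ext (Subtype.ext (add_right_cancel h5)) (Prod.ext h2 (Prod.ext h3 h4))
  obtain ⟨j, hj, -, -, hR⟩ := D.exists_j hx₀
  have hsurj : Function.Surjective B := by
    let Cm : D.k × D.k × D.k × D.k → R := fun p =>
      (p.1 : R) + (p.2.1 : R) * u₀ + ((p.2.2.1 : R) + (p.2.2.2 : R) * u₀) * j
    have hC : Function.Surjective Cm := by
      intro x
      obtain ⟨_, ⟨a, ha, b, hb, rfl⟩, _, ⟨c, hc, d, hd, rfl⟩, rfl⟩ := hR x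
      exact ⟨(⟨a, ha⟩, ⟨b, hb⟩, ⟨c, hc⟩, ⟨d, hd⟩), rfl⟩
    exact (hBinj.bijective_of_nat_card_le (Nat.card_le_card_of_surjective _ hC)).2
  have hFform : ∀ r ∈ F, ∃ a b : D.k, r = (a : R) + (b : R) * e := by
    intro r hr
    obtain ⟨p, rfl⟩ := hsurj r
    have h1 : (p.2.2.1 : R) = 0 := by rw [← hTeB]; exact hT0 _ (F.mul_mem heF hr)
    have h2 : (p.2.2.2 : R) = 0 := by
      have := hT0 _ hr
      rwa [hTB, h1, zero_mul, zero_add] at this
    exact ⟨p.1, p.2.1, by simp [B, h1, h2]⟩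
  have hFcard : Nat.card {r : R // ∀ m, φ m r = r} ≤ q * q := by
    rw [hqdef, ← Nat.card_prod]
    refine Nat.card_le_card_of_surjective
      (fun p : D.k × D.k => (⟨(p.1 : R) + (p.2 : R) * e,
        F.add_mem (hkF _ p.1.2) (F.mul_mem (hkF _ p.2.2) heF)⟩ : {r : R // ∀ m, φ m r = r})) ?_
    rintro ⟨r, hr⟩
    obtain ⟨a, b, rfl⟩ := hFform r hr
    exact ⟨(a, b), rfl⟩
  have hιcard : Nat.card ι ≤ q := by
    have hcoef : ∀ m, ∃ a b : D.k, φ m u + u = (a : R) + (b : R) * e := fun m =>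
      hFform _ (hδ m u)
    choose a b hab using hcoef
    have hba : ∀ m, (b m : R) = a m * a m + t * a m := by
      intro m
      have h1 := congrArg (φ m) (D.sq_eq u)
      rw [map_mul, map_add, map_mul, hfix m _ (D.T_mem u), hfix m _ (D.N_mem u)] at h1
      have hφu : φ m u = (a m : R) + b m * e + u := by rw [← hab, D.cancel']
      rw [hφu] at h1
      simp only [add_mul, mul_add] at h1
      have e1 : (a m : R) * (b m * e) = (a m : R) * b m * e := (mul_assoc _ _ _).symm
      have e2 : (b m : R) * e * a m = (a m : R) * b m * e := by rw [← (a m).2.1, mul_assoc]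
      have e3 : (b m : R) * e * (b m * e) = 0 := by
        rw [mul_assoc (b m : R), ← mul_assoc e, ← (b m).2.1 e, mul_assoc (b m : R) e e, hee,
          mul_zero, mul_zero]
      have e4 : u * (a m : R) = a m * u := ((a m).2.1 u).symm
      have e5 : u * ((b m : R) * e) = b m * (u * e) := by rw [← mul_assoc, ← (b m).2.1 u, mul_assoc]
      have e6 : (b m : R) * e * u = b m * (e * u) := mul_assoc _ _ _
      rw [e1, e2, e3, e4, e5, e6, D.sq_eq u] at h1
      rw [← D.add_eq_zero_iff] at h1 ⊢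
      have h2 : (b m : R) * (e * u) + b m * (u * e) = b m + b m * (t * e) := by
        rw [← mul_add, hue, mul_add, mul_one]
      have e7 : (b m : R) * (t * e) = t * (b m * e) := by
        rw [← mul_assoc, (b m).2.1 t, mul_assoc]
      rw [e7] at h2
      rw [← D.add_eq_zero_iff] at h2
      rw [← ht] at h1
      generalize (a m : R) * a m = A2 at *
      generalize (a m : R) * b m * e = X at *
      generalize (a m : R) * u = Y at *
      generalize (b m : R) * (e * u) = Z1 at *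
      generalize (b m : R) * (u * e) = Z2 at *
      generalize t * (a m : R) = TA at *
      generalize t * ((b m : R) * e) = TB at *
      generalize t * u = TU at *
      generalize u * D.σ u = NU at *
      generalize (b m : R) = bb at *
      have key : bb + (A2 + TA) + ((X + X) + (Y + Y) + (TU + TU) + (NU + NU) + (Z1 + Z1) +
          (Z2 + Z2) + (TB + TB)) = 0 := by
        calc bb + (A2 + TA) + ((X + X) + (Y + Y) + (TU + TU) + (NU + NU) + (Z1 + Z1) +
              (Z2 + Z2) + (TB + TB))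
            = (A2 + X + Y + (X + 0 + Z2) + (Y + Z1 + (TU + NU)) + (TA + TB + TU + NU)) +
              (Z1 + Z2 + (bb + TB)) := by abel
          _ = 0 := by rw [h1, h2, add_zero]
      simpa [D.two] using key
    refine Nat.card_le_card_of_injective a fun m m' h => hinj (RingHom.ext fun r => ?_)
    obtain ⟨p, rfl⟩ := hsurj r
    have hu' : φ m u = φ m' u := by
      have e1 := hab m
      have e2 := hab m'
      rw [hba m] at e1
      rw [hba m', ← h, ← e1] at e2
      exact (add_right_cancel e2).symm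
    simp only [B, map_add, map_mul, hfix _ _ p.1.2, hfix _ _ p.2.1.2, hfix _ _ p.2.2.1.2,
      hfix _ _ p.2.2.2.2, heF m, heF m', hu']
  have hRcard : Nat.card R = q * q * q * q := by
    rw [← Nat.card_congr (Equiv.ofBijective B ⟨hBinj, hsurj⟩), Nat.card_prod, Nat.card_prod,
      Nat.card_prod]
    ring
  have hfinal : q * q * q * q ≤ 2 * q * (q * q) := by
    calc q * q * q * q = Nat.card R := hRcard.symm
      _ ≤ _ := hbound
      _ ≤ 2 * q * (q * q) := Nat.mul_le_mul (Nat.mul_le_mul_left 2 hιcard) hFcard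
  nlinarith [Nat.mul_pos (Nat.mul_pos (show 0 < q by omega) (show 0 < q by omega)) (show 0 < q by omega)]

end QuadData

end CfsgLib.PGV
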