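import Cfsg.Agent.PGV.Basic

/-!
The relation `(Δ x - 1) (α a - 1) = 0` for the product `Δ x` of the conjugates of `x` under a moving element `a`.
-/

set_option linter.unusedSectionVars false

namespace CfsgLib.PGV

open scoped commutatorElement

variable {V : Type*} [AddCommGroup V] [Finite V]
variable {A : Type*} [CommGroup A] [Finite A]
variable {K : Type*} [Group K] [Finite K]

/-- Conjugate of `κ` by `α a`. -/
def cj (α : A →* AddMonoid.End V) (κ : K →* AddMonoid.End V) (a : A) : K →* AddMonoid.End V where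
  toFun x := α a * κ x * α a⁻¹
  map_one' := by rw [map_one, mul_one, ← map_mul, mul_inv_cancel, map_one]
  map_mul' x y := by
    have h : α a⁻¹ * α a = 1 := by rw [← map_mul, inv_mul_cancel, map_one]
    calc α a * κ (x * y) * α a⁻¹ = α a * κ x * (α a⁻¹ * α a) * (κ y * α a⁻¹) := by
          rw [h, mul_one, map_mul]; simp only [mul_assoc]
      _ = α a * κ x * α a⁻¹ * (α a * κ y * α a⁻¹) := by simp only [mul_assoc]

variable (p : ℕ) (α : A →* AddMonoid.End V) (κ : K →* AddMonoid.End V)

/-- `a` normalizes the image of `κ`. -/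
def Norm (a : A) : Prop := ∀ x, ∃ y, cj α κ a x = κ y

/-- The hypotheses. -/
structure Hyp : Prop where
  prime : p.Prime
  char : (p : AddMonoid.End V) = 0
  exp : ∀ a : A, a ^ p = 1
  perfect : commutator K = ⊤
  simple : ∀ N : Subgroup K, N.Normal → ∀ x ∈ N, (∃ y, ¬ Commute (κ x) (κ y)) → N = ⊤
  conj : ∀ a, Norm α κ a ∨ ∀ x y, Commute (cj α κ a x) (κ y)

variable {p α κ}

theorem alpha_inv (a : A) : α a * α a⁻¹ = 1 := by rw [← map_mul, mul_inv_cancel, map_one]

theorem alpha_inv' (a : A) : α a⁻¹ * α a = 1 := by rw [← map_mul, inv_mul_cancel, map_one]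

theorem alpha_comm (a b : A) : Commute (α a) (α b) := by
  unfold Commute SemiconjBy; rw [← map_mul, ← map_mul, mul_comm]

theorem cj_apply (a : A) (x : K) : cj α κ a x = α a * κ x * α a⁻¹ := rfl

theorem cj_one (x : K) : cj α κ 1 x = κ x := by
  rw [cj_apply, inv_one, map_one, one_mul, mul_one]

theorem cj_mul (a b : A) (x : K) : cj α κ (a * b) x = α a * cj α κ b x * α a⁻¹ := by
  rw [cj_apply, cj_apply, mul_inv_rev, map_mul, map_mul]
  simp only [mul_assoc]

/-- An element with vanishing commutators against `κ`. -/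
def centre (κ : K →* AddMonoid.End V) : Subgroup K where
  carrier := {x | ∀ y, Commute (κ x) (κ y)}
  one_mem' := fun y => by rw [map_one]; exact Commute.one_left _
  mul_mem' := fun {a b} ha hb y => by rw [map_mul]; exact (ha y).mul_left (hb y)
  inv_mem' := fun {a} ha y => by
    have h1 : κ a⁻¹ * κ a = 1 := by rw [← map_mul, inv_mul_cancel, map_one]
    have h2 : κ a * κ a⁻¹ = 1 := by rw [← map_mul, mul_inv_cancel, map_one]
    calc κ a⁻¹ * κ y = κ a⁻¹ * (κ y * (κ a * κ a⁻¹)) := by rw [h2, mul_one]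
      _ = κ a⁻¹ * (κ a * κ y) * κ a⁻¹ := by rw [(ha y).eq]; simp only [mul_assoc]
      _ = κ y * κ a⁻¹ := by rw [← mul_assoc, h1, one_mul]

theorem centre_normal : (centre κ).Normal := by
  refine ⟨fun x hx g => ?_⟩
  intro y
  have : κ (g * x * g⁻¹) = κ x := by
    rw [map_mul, map_mul, ← (hx g).eq, mul_assoc, ← map_mul, mul_inv_cancel, map_one, mul_one]
  rw [this]
  exact hx y

namespace Hyp

variable (H : Hyp p α κ)
include H

theorem trivial_of_comm {M : Type*} [Monoid M] (f : K →* M) (h : ∀ x y, Commute (f x) (f y)) (x : K) :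
    f x = 1 :=
  QuadData.perfect_comm_trivial H.perfect f h x

theorem eq_top_of_p {N : Subgroup K} (hN : N.Normal) (h : ∀ x, ∃ k : ℕ, x ^ p ^ k ∈ N) : N = ⊤ := by
  haveI : Fact p.Prime := ⟨H.prime⟩
  by_contra hne
  haveI : Nontrivial (K ⧸ N) := QuotientGroup.nontrivial_iff.mpr hne
  have hp : IsPGroup p (K ⧸ N) := by
    intro q
    induction q using QuotientGroup.induction_on with
    | H x =>
      obtain ⟨k, hk⟩ := h x
      exact ⟨k, by rw [← QuotientGroup.mk_pow, QuotientGroup.eq_one_iff]; exact hk⟩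
  haveI : Group.IsNilpotent (K ⧸ N) := hp.isNilpotent
  refine (IsSolvable.commutator_lt_top_of_nontrivial (K ⧸ N)).ne ?_
  rw [commutator_def, ← Subgroup.map_top_of_surjective (QuotientGroup.mk' N) (QuotientGroup.mk'_surjective N),
    ← Subgroup.map_commutator, ← commutator_def, H.perfect]

theorem exists_not_central (hnt : ∃ x, κ x ≠ 1) : ∃ x y, ¬ Commute (κ x) (κ y) := by
  by_contra hno
  push Not at hno
  obtain ⟨x, hx⟩ := hnt
  exact hx (H.trivial_of_comm κ hno x)

theorem eq_top_of_commutators {N : Subgroup K} (hN : N.Normal) {x : K}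
    (hx : ∃ y, ¬ Commute (κ x) (κ y)) (h : ∀ g : K, ⁅g, x⁆ ∈ N) : N = ⊤ := by
  let N' : Subgroup K := (Subgroup.center (K ⧸ N)).comap (QuotientGroup.mk' N)
  have hmem : ∀ z, z ∈ N' ↔ ∀ g : K, ⁅g, z⁆ ∈ N := by
    intro z
    simp only [N', Subgroup.mem_comap, Subgroup.mem_center_iff]
    constructor
    · intro hz g
      rw [← QuotientGroup.eq_one_iff, commutatorElement_def]
      have := hz (g : K ⧸ N)
      simp only [QuotientGroup.mk'_apply, QuotientGroup.mk_mul, QuotientGroup.mk_inv] at this ⊢
      rw [this]; group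
    · intro hz q
      induction q using QuotientGroup.induction_on with
      | H g =>
        have h1 := (QuotientGroup.eq_one_iff _).mpr (hz g)
        simp only [commutatorElement_def, QuotientGroup.mk'_apply, QuotientGroup.mk_mul,
          QuotientGroup.mk_inv] at h1 ⊢
        exact commutatorElement_eq_one_iff_mul_comm.mp h1
  have htop : N' = ⊤ := H.simple N' inferInstance x ((hmem x).mpr h) hx
  rw [eq_top_iff, ← H.perfect, commutator_def, Subgroup.commutator_le]
  intro a _ b _
  exact (hmem b).mp (htop ▸ Subgroup.mem_top b) a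

theorem norm_mul {a b : A} (ha : Norm α κ a) (hb : Norm α κ b) : Norm α κ (a * b) := by
  intro x
  obtain ⟨y, hy⟩ := hb x
  obtain ⟨z, hz⟩ := ha y
  exact ⟨z, by rw [cj_mul, hy, ← cj_apply, hz]⟩

theorem norm_one : Norm α κ 1 := fun x => ⟨x, cj_one x⟩

theorem norm_pow {a : A} (ha : Norm α κ a) : ∀ n : ℕ, Norm α κ (a ^ n)
  | 0 => by rw [pow_zero]; exact H.norm_one
  | n + 1 => by rw [pow_succ]; exact H.norm_mul (norm_pow ha n) ha

theorem norm_inv {a : A} (ha : Norm α κ a) : Norm α κ a⁻¹ := by
  have h : a⁻¹ = a ^ (p - 1) := by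
    rw [inv_eq_iff_mul_eq_one, ← pow_succ', Nat.sub_add_cancel H.prime.one_le, H.exp]
  rw [h]; exact H.norm_pow ha _

theorem comm_cj {a b : A} (h : ¬ Norm α κ (a⁻¹ * b)) (x y : K) :
    Commute (cj α κ a x) (cj α κ b y) := by
  have h1 := ((H.conj (a⁻¹ * b)).resolve_left h y x).symm
  have h2 : cj α κ b y = α a * cj α κ (a⁻¹ * b) y * α a⁻¹ := by
    rw [← cj_mul, mul_inv_cancel_left]
  rw [h2, cj_apply a x]
  generalize cj α κ (a⁻¹ * b) y = w at *
  show α a * κ x * α a⁻¹ * (α a * w * α a⁻¹) = α a * w * α a⁻¹ * (α a * κ x * α a⁻¹)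
  calc α a * κ x * α a⁻¹ * (α a * w * α a⁻¹) = α a * κ x * (α a⁻¹ * α a) * w * α a⁻¹ := by
        simp only [mul_assoc]
    _ = α a * (κ x * w) * α a⁻¹ := by rw [alpha_inv', mul_one]; simp only [mul_assoc]
    _ = α a * w * (α a⁻¹ * α a) * κ x * α a⁻¹ := by
        rw [h1.eq, alpha_inv', mul_one]; simp only [mul_assoc]
    _ = _ := by simp only [mul_assoc]

theorem comm_kappa {b : A} (h : ¬ Norm α κ b) (x y : K) : Commute (κ x) (cj α κ b y) := by
  have := H.comm_cj (a := 1) (b := b) (by rwa [inv_one, one_mul]) x y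
  rwa [cj_one] at this

theorem not_norm_zpowers {a z : A} (ha : ¬ Norm α κ a) (hz : z ∈ Subgroup.zpowers a) (h1 : z ≠ 1) :
    ¬ Norm α κ z := by
  haveI : Fact p.Prime := ⟨H.prime⟩
  intro hN
  have hord : orderOf a = p := orderOf_eq_prime (H.exp a) (fun h => ha (h ▸ H.norm_one))
  have hordz : orderOf z = p := orderOf_eq_prime (H.exp z) h1
  have hle : Subgroup.zpowers z ≤ Subgroup.zpowers a := Subgroup.zpowers_le.mpr hz
  have heq : Subgroup.zpowers z = Subgroup.zpowers a :=
    Subgroup.eq_of_le_of_card_ge hle (by rw [Nat.card_zpowers, Nat.card_zpowers, hord, hordz])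
  have hmem : a ∈ Subgroup.zpowers z := heq ▸ Subgroup.mem_zpowers a
  rw [← mem_powers_iff_mem_zpowers, Submonoid.mem_powers_iff] at hmem
  obtain ⟨n, hn⟩ := hmem
  exact ha (hn ▸ H.norm_pow hN n)

theorem comm_pow {a : A} (ha : ¬ Norm α κ a) (i j : ℕ) (x y : K) (h : a ^ i ≠ a ^ j ∨ Commute (κ x) (κ y)) :
    Commute (cj α κ (a ^ i) x) (cj α κ (a ^ j) y) := by
  by_cases he : a ^ i = a ^ j
  · rw [← he]
    have hc := h.resolve_left (fun hne => hne he)
    show cj α κ (a ^ i) x * cj α κ (a ^ i) y = cj α κ (a ^ i) y * cj α κ (a ^ i) x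
    rw [← map_mul, ← map_mul, cj_apply, cj_apply, map_mul, map_mul, hc.eq]
  · refine H.comm_cj (H.not_norm_zpowers ha ?_ ?_) x y
    · exact mul_mem (inv_mem (Subgroup.npow_mem_zpowers a i)) (Subgroup.npow_mem_zpowers a j)
    · exact fun h' => he (inv_mul_eq_one.mp h')

theorem pow_ne {a : A} (ha : ¬ Norm α κ a) {i j : ℕ} (hij : i < j) (hjp : j < p) : a ^ i ≠ a ^ j := by
  haveI : Fact p.Prime := ⟨H.prime⟩
  have hord : orderOf a = p := orderOf_eq_prime (H.exp a) (fun h => ha (h ▸ H.norm_one))
  intro h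
  have := pow_injOn_Iio_orderOf (x := a) (by simp [hord]; omega) (by simp [hord]; omega) h
  omega

end Hyp

/-- The product of the conjugates of `x` by `a ^ i`, `i < n`. -/
def prodConj (α : A →* AddMonoid.End V) (κ : K →* AddMonoid.End V) (a : A) :
    ℕ → K → AddMonoid.End V
  | 0, _ => 1
  | n + 1, x => prodConj α κ a n x * cj α κ (a ^ n) x

theorem prodConj_conj (b a : A) {x y : K} (h : cj α κ b x = κ y) :
    ∀ n, prodConj α κ a n y = α b * prodConj α κ a n x * α b⁻¹
  | 0 => by rw [prodConj, prodConj, mul_one, alpha_inv]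
  | n + 1 => by
    have h1 : cj α κ (a ^ n) y = α b * cj α κ (a ^ n) x * α b⁻¹ := by
      calc cj α κ (a ^ n) y = α (a ^ n) * cj α κ b x * α (a ^ n)⁻¹ := by rw [h]; rfl
        _ = α b * cj α κ (a ^ n) x * α b⁻¹ := by rw [← cj_mul, ← cj_mul, mul_comm]
    rw [prodConj, prodConj, prodConj_conj b a h n, h1]
    calc α b * prodConj α κ a n x * α b⁻¹ * (α b * cj α κ (a ^ n) x * α b⁻¹)
        = α b * prodConj α κ a n x * (α b⁻¹ * α b) * cj α κ (a ^ n) x * α b⁻¹ := by
          simp only [mul_assoc]
      _ = _ := by rw [alpha_inv', mul_one]; simp only [mul_assoc]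

theorem prodConj_shift (a : A) (x : K) :
    ∀ n, κ x * (α a * prodConj α κ a n x * α a⁻¹) = prodConj α κ a (n + 1) x
  | 0 => by rw [prodConj, prodConj, prodConj, mul_one, alpha_inv, one_mul, pow_zero, cj_one, mul_one]
  | n + 1 => by
    have h : prodConj α κ a (n + 1 + 1) x = prodConj α κ a (n + 1) x * cj α κ (a ^ (n + 1)) x := rfl
    conv_rhs => rw [h, ← prodConj_shift a x n, pow_succ' a n, cj_mul]
    show κ x * (α a * (prodConj α κ a n x * cj α κ (a ^ n) x) * α a⁻¹) = _
    calc κ x * (α a * (prodConj α κ a n x * cj α κ (a ^ n) x) * α a⁻¹)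
        = κ x * (α a * prodConj α κ a n x * 1 * cj α κ (a ^ n) x * α a⁻¹) := by
          rw [mul_one]; simp only [mul_assoc]
      _ = _ := by rw [← alpha_inv' (α := α) a]; simp only [mul_assoc]

namespace Hyp

variable (H : Hyp p α κ) {a : A}
include H

theorem comm_prodConj_self (ha : ¬ Norm α κ a) (i : ℕ) (x : K) :
    ∀ n, Commute (cj α κ (a ^ i) x) (prodConj α κ a n x)
  | 0 => by rw [prodConj]; exact Commute.one_right _
  | n + 1 => by
    rw [prodConj]
    exact (comm_prodConj_self ha i x n).mul_right (H.comm_pow ha i n x x (Or.inr (Commute.refl _)))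

theorem comm_prodConj_lt (ha : ¬ Norm α κ a) {i : ℕ} (hi : i < p) (x y : K) :
    ∀ n ≤ i, Commute (cj α κ (a ^ i) y) (prodConj α κ a n x)
  | 0, _ => by rw [prodConj]; exact Commute.one_right _
  | n + 1, h => by
    rw [prodConj]
    exact (comm_prodConj_lt ha hi x y n (by omega)).mul_right
      (H.comm_pow ha i n y x (Or.inl (H.pow_ne ha (show n < i by omega) hi).symm))

/-- The product of the other conjugates commutes with the image of `κ`. -/
theorem comm_shift (ha : ¬ Norm α κ a) (x g : K) :
    ∀ n < p, Commute (κ g) (α a * prodConj α κ a n x * α a⁻¹)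
  | 0, _ => by rw [prodConj, mul_one, alpha_inv]; exact Commute.one_right _
  | n + 1, h => by
    have e : α a * prodConj α κ a (n + 1) x * α a⁻¹ =
        (α a * prodConj α κ a n x * α a⁻¹) * cj α κ (a ^ (n + 1)) x := by
      rw [pow_succ' a n, cj_mul, prodConj]
      calc α a * (prodConj α κ a n x * cj α κ (a ^ n) x) * α a⁻¹
          = α a * prodConj α κ a n x * 1 * cj α κ (a ^ n) x * α a⁻¹ := by
            rw [mul_one]; simp only [mul_assoc]
        _ = _ := by rw [← alpha_inv' (α := α) a]; simp only [mul_assoc]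
    rw [e]
    refine (comm_shift ha x g n (by omega)).mul_right ?_
    have := H.comm_pow ha 0 (n + 1) g x (Or.inl (H.pow_ne ha (Nat.succ_pos n) h))
    rwa [pow_zero, cj_one] at this

/-- The product over the whole orbit, as a homomorphism. -/
def delta (ha : ¬ Norm α κ a) : K →* AddMonoid.End V where
  toFun := prodConj α κ a p
  map_one' := by
    have : ∀ n, prodConj α κ a n (1 : K) = 1 := fun n => by
      induction n with
      | zero => rfl
      | succ n ih => rw [prodConj, ih, map_one, mul_one]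
    exact this p
  map_mul' x y := by
    have key : ∀ n ≤ p, prodConj α κ a n (x * y) = prodConj α κ a n x * prodConj α κ a n y := by
      intro n hn
      induction n with
      | zero => rw [prodConj, prodConj, prodConj, mul_one]
      | succ n ih =>
        rw [prodConj, prodConj, prodConj, ih (by omega), map_mul]
        have hc := H.comm_prodConj_lt ha (show n < p by omega) y x n le_rfl
        generalize prodConj α κ a n x = P at *
        generalize prodConj α κ a n y = Q at *
        calc P * Q * (cj α κ (a ^ n) x * cj α κ (a ^ n) y)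
            = P * (Q * cj α κ (a ^ n) x) * cj α κ (a ^ n) y := by simp only [mul_assoc]
          _ = _ := by rw [← hc.eq]; simp only [mul_assoc]
    exact key p le_rfl

theorem delta_apply (ha : ¬ Norm α κ a) (x : K) : H.delta ha x = prodConj α κ a p x := rfl

theorem delta_eq (ha : ¬ Norm α κ a) (x : K) :
    H.delta ha x = κ x * (α a * prodConj α κ a (p - 1) x * α a⁻¹) := by
  rw [prodConj_shift, Nat.sub_add_cancel H.prime.one_le, H.delta_apply]

theorem delta_comm (ha : ¬ Norm α κ a) (x : K) : Commute (α a) (H.delta ha x) := by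
  have h1 : prodConj α κ a (p + 1) x = prodConj α κ a p x * κ x := by
    rw [prodConj, H.exp, cj_one]
  have h2 := H.comm_prodConj_self ha 0 x p
  rw [pow_zero, cj_one] at h2
  rw [← prodConj_shift, ← h2.eq] at h1
  have hu : IsUnit (κ x) := (Group.isUnit x).map κ
  have h3 := hu.mul_left_cancel h1
  rw [H.delta_apply]
  show α a * prodConj α κ a p x = prodConj α κ a p x * α a
  conv_rhs => rw [← h3]
  rw [mul_assoc _ (α a⁻¹), alpha_inv', mul_one]

theorem delta_comm_sub (ha : ¬ Norm α κ a) (x : K) : Commute (α a - 1) (H.delta ha x) :=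
  (H.delta_comm ha x).sub_left (Commute.one_left _)

/-- The elements acting trivially on `[V, a]` through their orbit product. -/
def fixDelta (ha : ¬ Norm α κ a) : Subgroup K where
  carrier := {x | H.delta ha x * (α a - 1) = α a - 1}
  one_mem' := by show _ = _; rw [map_one, one_mul]
  mul_mem' := fun {x y} hx hy => by
    show _ = _
    rw [map_mul, mul_assoc, hy, hx]
  inv_mem' := fun {x} hx => by
    show _ = _
    conv_lhs => rw [← hx]
    rw [← mul_assoc, ← map_mul, inv_mul_cancel, map_one, one_mul]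

theorem fixDelta_normal (ha : ¬ Norm α κ a) : (H.fixDelta ha).Normal := by
  refine ⟨fun x hx g => ?_⟩
  show _ = _
  have hx' : H.delta ha x * (α a - 1) = α a - 1 := hx
  rw [map_mul, map_mul, mul_assoc, ← (H.delta_comm_sub ha g⁻¹).eq, ← mul_assoc, mul_assoc _ (H.delta ha x),
    hx', mul_assoc _ (α a - 1), (H.delta_comm_sub ha g⁻¹).eq, ← mul_assoc, ← map_mul, mul_inv_cancel, map_one, one_mul]

/-- A normalizing element trivial on `[V, a]` forces the relation. -/
theorem fixDelta_eq_top_of_mem (ha : ¬ Norm α κ a) (hnt : ∃ x, κ x ≠ 1) {m : A} (hm : Norm α κ m)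
    (hme : α m * (α a - 1) = α a - 1) (hmK : ∃ x, ¬ Commute (α m) (κ x)) : H.fixDelta ha = ⊤ := by
  have hme' : α m⁻¹ * (α a - 1) = α a - 1 := by
    conv_lhs => rw [← hme]
    rw [← mul_assoc, alpha_inv', one_mul]
  have hmec : Commute (α a - 1) (α m) := (alpha_comm a m).sub_left (Commute.one_left _)
  choose f hf using hm
  have hmem : ∀ x, f x * x⁻¹ ∈ H.fixDelta ha := by
    intro x
    show _ = _
    have h1 : H.delta ha (f x) * (α a - 1) = H.delta ha x * (α a - 1) := by
      rw [H.delta_apply, prodConj_conj m a (hf x) p, ← H.delta_apply ha]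
      calc α m * H.delta ha x * α m⁻¹ * (α a - 1) = α m * (H.delta ha x * (α a - 1)) := by
            rw [mul_assoc (α m * _), hme', mul_assoc]
        _ = H.delta ha x * (α a - 1) := by
            rw [← (H.delta_comm_sub ha x).eq, ← mul_assoc, hme]
    rw [map_mul, mul_assoc, ← (H.delta_comm_sub ha x⁻¹).eq, ← mul_assoc, h1, mul_assoc,
      (H.delta_comm_sub ha x⁻¹).eq, ← mul_assoc, ← map_mul, mul_inv_cancel, map_one, one_mul]
  by_contra hne
  obtain ⟨x₀, hx₀⟩ := hmK
  apply hx₀
  have hcen : ∀ x, f x * x⁻¹ ∈ centre κ := fun x y => by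
    by_contra hc
    exact hne (H.simple _ (H.fixDelta_normal ha) _ (hmem x) ⟨y, hc⟩)
  have hd : ∀ x, κ (f x * x⁻¹) * κ x = cj α κ m x := fun x => by
    rw [← map_mul, inv_mul_cancel_right, hf]
  let g : K →* AddMonoid.End V :=
    { toFun := fun x => κ (f x * x⁻¹)
      map_one' := by
        have := hd 1
        rw [map_one, map_one, mul_one] at this
        exact this
      map_mul' := fun x y => by
        have hu : IsUnit (κ (x * y)) := (Group.isUnit (x * y)).map κ
        refine hu.mul_right_cancel ?_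
        rw [hd, map_mul, ← hd x, ← hd y, map_mul κ x y]
        have hc := (hcen y x).eq
        generalize κ (f x * x⁻¹) = dx at *
        generalize κ (f y * y⁻¹) = dy at *
        calc dx * κ x * (dy * κ y) = dx * (κ x * dy) * κ y := by simp only [mul_assoc]
          _ = _ := by rw [← hc]; simp only [mul_assoc] }
  have hg := H.trivial_of_comm g (fun x y => hcen x _) x₀
  have h1 := hd x₀
  rw [show κ (f x₀ * x₀⁻¹) = 1 from hg, one_mul, cj_apply] at h1
  show α m * κ x₀ = κ x₀ * α m
  conv_rhs => rw [h1]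
  rw [mul_assoc _ (α m⁻¹), alpha_inv', mul_one]

/-- Two independent moving elements, one quadratic against the other, force the relation. -/
theorem fixDelta_eq_top_of_moving (ha : ¬ Norm α κ a) {c : A}
    (hc : ∀ i : ℕ, ¬ Norm α κ (c * a ^ i)) (hce : α c * (α a - 1) = α a - 1) :
    H.fixDelta ha = ⊤ := by
  have hce' : α c⁻¹ * (α a - 1) = α a - 1 := by
    conv_lhs => rw [← hce]
    rw [← mul_assoc, alpha_inv', one_mul]
  let D' : K → AddMonoid.End V := fun x => α c * H.delta ha x * α c⁻¹
  have hD' : ∀ x, D' x * (α a - 1) = H.delta ha x * (α a - 1) := by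
    intro x
    calc α c * H.delta ha x * α c⁻¹ * (α a - 1) = α c * (H.delta ha x * (α a - 1)) := by
          rw [mul_assoc (α c * _), hce', mul_assoc]
      _ = _ := by rw [← (H.delta_comm_sub ha x).eq, ← mul_assoc, hce]
  have hcomm : ∀ x y, Commute (D' x) (H.delta ha y) := by
    intro x y
    have h1 : ∀ (i : ℕ) (n : ℕ), Commute (α c * cj α κ (a ^ i) x * α c⁻¹) (prodConj α κ a n y) := by
      intro i n
      induction n with
      | zero => rw [prodConj]; exact Commute.one_right _
      | succ n ih =>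
        rw [prodConj]
        refine ih.mul_right ?_
        rw [← cj_mul]
        refine H.comm_cj ?_ x y
        intro hN
        have h2 := H.norm_inv hN
        obtain ⟨j, hj⟩ : ∃ j : ℕ, a ^ i * (a ^ n)⁻¹ = a ^ j := by
          refine ⟨i + (p - 1) * n, ?_⟩
          rw [pow_add, pow_mul, mul_right_inj, inv_eq_iff_mul_eq_one, ← mul_pow, ← pow_succ',
            Nat.sub_add_cancel H.prime.one_le, H.exp, one_pow]
        apply hc j
        rw [← hj]
        convert h2 using 1
        rw [mul_inv_rev, inv_inv, mul_comm (a ^ n)⁻¹, mul_assoc]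
    have h2 : ∀ n, Commute (α c * prodConj α κ a n x * α c⁻¹) (H.delta ha y) := by
      intro n
      induction n with
      | zero => rw [prodConj, mul_one, alpha_inv]; exact Commute.one_left _
      | succ n ih =>
        have e : α c * prodConj α κ a (n + 1) x * α c⁻¹ =
            (α c * prodConj α κ a n x * α c⁻¹) * (α c * cj α κ (a ^ n) x * α c⁻¹) := by
          rw [prodConj]
          calc α c * (prodConj α κ a n x * cj α κ (a ^ n) x) * α c⁻¹
              = α c * prodConj α κ a n x * 1 * cj α κ (a ^ n) x * α c⁻¹ := by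
                rw [mul_one]; simp only [mul_assoc]
            _ = _ := by rw [← alpha_inv' (α := α) c]; simp only [mul_assoc]
        rw [e]
        exact ih.mul_left (h1 n p)
    exact h2 p
  rw [eq_top_iff, ← H.perfect, commutator_def, Subgroup.commutator_le]
  intro x _ y _
  show _ = _
  have hxy : H.delta ha x * H.delta ha y * (α a - 1) = H.delta ha y * H.delta ha x * (α a - 1) := by
    calc H.delta ha x * H.delta ha y * (α a - 1) = H.delta ha x * (α a - 1) * H.delta ha y := by
          rw [mul_assoc, ← (H.delta_comm_sub ha y).eq, mul_assoc]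
      _ = D' x * H.delta ha y * (α a - 1) := by
          rw [← hD', mul_assoc (D' x), (H.delta_comm_sub ha y).eq]
          simp only [D', mul_assoc]
      _ = H.delta ha y * (D' x * (α a - 1)) := by rw [(hcomm x y).eq, mul_assoc]
      _ = _ := by rw [hD', mul_assoc]
  have h1 : x * y * (y * x)⁻¹ = ⁅x, y⁆ := by rw [commutatorElement_def]; group
  rw [← h1, map_mul, mul_assoc, ← (H.delta_comm_sub ha _).eq, ← mul_assoc, map_mul, hxy, ← map_mul,
    mul_assoc, (H.delta_comm_sub ha _).eq, ← mul_assoc, ← map_mul, mul_inv_cancel, map_one, one_mul]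

end Hyp

end CfsgLib.PGV
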